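import Mathlib
import Cfsg.Agent.FT.Cj
import Cfsg.Agent.FGS.FrobCompl

/-! Definitions for S4162 (a solvable group with distinct class sizes is `S₃`).

`c x = |C(x)|`; `Dis G`: elements with centralisers of the same order are conjugate; `RatG G`: every
element is conjugate to the generators of its cyclic subgroup; `Top p W H`: the ambient group is
`W ⋊ H`, rational and solvable, with `W` a faithful irreducible `F_p H`-module, `p ≥ 5`, `p ∤ |H|`;
`Semi p φ`: a semiregular action on an elementary abelian `p`-group with the eigenvector property. -/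

set_option autoImplicit false

namespace Cfsg.Agent.AH
open Cfsg Cfsg.Agent.FT Subgroup

/-- Rational groups. -/
def RatG (G : Type*) [Group G] : Prop :=
  ∀ (g : G) (k : ℕ), k.Coprime (orderOf g) → IsConj g (g ^ k)

/-- The order of the centraliser. -/
noncomputable def c {G : Type*} [Group G] (x : G) : ℕ := Nat.card 𝒞[x]

/-- Elements with centralisers of the same order are conjugate. -/
def Dis (G : Type*) [Group G] : Prop := ∀ x y : G, c x = c y → IsConj x y

/-- The ambient group is `W ⋊ H`. -/
structure Top {Γ : Type*} [Group Γ] (p : ℕ) (W H : Subgroup Γ) : Prop where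
  prime : p.Prime
  ge : 5 ≤ p
  solv : Group.IsSolvable Γ
  rat : RatG Γ
  normal : W.Normal
  elem : IsElementaryAbelian p W
  ne : W ≠ ⊥
  irr : ∀ V : Subgroup Γ, V.Normal → V ≤ W → V = ⊥ ∨ V = W
  compl : IsComplement' W H
  ndvd : ¬ p ∣ Nat.card H
  faith : H ⊓ 𝒞(W) = ⊥

/-- The order of the centraliser in `H`. -/
noncomputable def cH {Γ : Type*} [Group Γ] (H : Subgroup Γ) (h : Γ) : ℕ :=
  Nat.card (H ⊓ 𝒞[h] : Subgroup Γ)

/-- A semiregular action with the eigenvector property and without scalars other than `±1`. -/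
structure Semi {X U : Type*} [Group X] [Group U] (p : ℕ) (φ : X →* MulAut U) : Prop where
  prime : p.Prime
  ge : 5 ≤ p
  nt : Nontrivial U
  comm : ∀ a b : U, a * b = b * a
  pow : ∀ u : U, u ^ p = 1
  solv : Group.IsSolvable X
  fpf : FGS.FrobCompl.IsFpf φ
  ep : ∀ (u : U) (k : ℕ), ¬ p ∣ k → ∃ g, φ g u = u ^ k
  ns : ∀ (g : X) (k : ℕ), (∀ u, φ g u = u ^ k) → k ^ 2 ≡ 1 [MOD p]

/-- `G` has a quotient of type `Top` whose complement is a `π`-group. -/
def HasTop.{u} (G : Type u) [Group G] (p : ℕ) (π : ℕ → Prop) : Prop :=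
  ∃ (Γ : Type u) (_ : Group Γ) (_ : Finite Γ) (f : G →* Γ) (W H : Subgroup Γ),
    Function.Surjective f ∧ Top p W H ∧ ∀ q : ℕ, q.Prime → q ∣ Nat.card H → π q

end Cfsg.Agent.AH
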