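import Mathlib
import Cfsg.Agent.AH.Defs
import Cfsg.Agent.Grp.MinNormal
import Cfsg.Agent.Grp.MaxClass

/-! S4162, basic facts on rational groups and centraliser orders (API). -/

set_option autoImplicit false

namespace Cfsg.Agent.AH
open Cfsg Cfsg.Agent.FT Subgroup

variable {G : Type*} [Group G]

theorem c_eq_of_isConj {x y : G} (h : IsConj x y) : c x = c y := by
  obtain ⟨g, rfl⟩ := isConj_iff.1 h
  refine Nat.card_congr ((MulAut.conj g).toEquiv.subtypeEquiv fun a => ?_)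
  simp only [mem_centralizer_singleton_iff]
  rw [← (MulAut.conj g).injective.eq_iff, map_mul, map_mul]
  rfl

theorem orderOf_dvd_c (x : G) : orderOf x ∣ c x := by
  exact orderOf_dvd_natCard _ (mem_centralizer_singleton_iff.2 rfl)

theorem orderOf_dvd_c_of_commute {x v : G} (h : Commute v x) : orderOf v ∣ c x := by
  exact orderOf_dvd_natCard _ (mem_centralizer_singleton_iff.2 h)

theorem c_dvd_card (x : G) : c x ∣ Nat.card G := by
  exact card_subgroup_dvd_card _

theorem c_pos [Finite G] (x : G) : 0 < c x := by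
  exact Nat.card_pos

theorem c_one : c (1 : G) = Nat.card G := by
  rw [c, ← card_top (G := G)]
  exact congrArg (fun H : Subgroup G => Nat.card H) (eq_top_iff.2 fun a _ => by simp)

theorem pow_c (x : G) : x ^ c x = 1 := by
  exact orderOf_dvd_iff_pow_eq_one.1 (orderOf_dvd_c x)

/-- Cauchy in the centraliser. -/
theorem exists_commute_of_dvd_c [Finite G] {x : G} {p : ℕ} (hp : p.Prime) (h : p ∣ c x) :
    ∃ v : G, Commute v x ∧ orderOf v = p := by
  have := Fact.mk hp
  obtain ⟨v, hv⟩ := exists_prime_orderOf_dvd_card' p h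
  exact ⟨v, mem_centralizer_singleton_iff.1 v.2, (orderOf_coe v).trans hv⟩

/-- `Grp.MaxClass.card_centralizer_quotient_le` for `f.ker`, transported along
`QuotientGroup.quotientKerEquivOfSurjective`. -/
theorem c_map_le [Finite G] {Γ : Type*} [Group Γ] (f : G →* Γ) (hf : Function.Surjective f)
    (x : G) : c (f x) ≤ c x := by
  refine le_trans (Nat.card_congr ((QuotientGroup.quotientKerEquivOfSurjective f hf).toEquiv.subtypeEquiv
    fun a => ?_)).ge (Grp.MaxClass.card_centralizer_quotient_le f.ker x)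
  rw [mem_centralizer_singleton_iff, mem_centralizer_singleton_iff,
    ← (QuotientGroup.quotientKerEquivOfSurjective f hf).injective.eq_iff, map_mul, map_mul]
  rfl

theorem conj_pow_iter {g w : G} {k : ℕ} (h : g * w * g⁻¹ = w ^ k) (i : ℕ) :
    g ^ i * w * (g ^ i)⁻¹ = w ^ k ^ i := by
  induction i with
  | zero => simp
  | succ i ih => rw [pow_succ' k, pow_mul, ← h, ← inv_inv g, conj_pow, inv_inv, ← ih, pow_succ']; group

/-- The `r`-part `g ^ i` and the `r'`-part `g ^ j` (CRT: `o(g) = r^a m`; `i ≡ 1 (r^(a+N))`,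
`i ≡ 0 (m M)`, `j ≡ 0 (r^(a+N))`, `j ≡ 1 (m M)`). -/
theorem exists_parts [Finite G] (g : G) {r : ℕ} (hr : r.Prime) (N : ℕ) {M : ℕ} (hM : ¬ r ∣ M) :
    ∃ i j : ℕ, g ^ i * g ^ j = g ∧ (∃ n, orderOf (g ^ i) = r ^ n) ∧ ¬ r ∣ orderOf (g ^ j) ∧
      i ≡ 1 [MOD r ^ N] ∧ j ≡ 1 [MOD M] := by
  obtain ⟨a, m, hm, e⟩ := Nat.exists_eq_pow_mul_and_not_dvd (orderOf_pos g).ne' r hr.ne_one
  have co : (r ^ (a + N)).Coprime (m * M) :=
    (hr.coprime_iff_not_dvd.2 fun h => (hr.dvd_mul.1 h).elim hm hM).pow_left _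
  obtain ⟨i, i1, i2⟩ := Nat.chineseRemainder co 1 0
  obtain ⟨j, j1, j2⟩ := Nat.chineseRemainder co 0 1
  have d1 : r ^ a ∣ r ^ (a + N) := pow_dvd_pow r (by omega)
  refine ⟨i, j, ?_, ?_, fun h => hm (h.trans (orderOf_dvd_of_pow_eq_one ?_)), i1.of_dvd (pow_dvd_pow r (by omega)),
    j2.of_mul_left m⟩
  · rw [← pow_add, ← pow_one g, ← pow_mul, one_mul, pow_eq_pow_iff_modEq, e]
    exact (Nat.modEq_and_modEq_iff_modEq_mul ((hr.coprime_iff_not_dvd.2 hm).pow_left _)).1
      ⟨(i1.add j1).of_dvd d1, (i2.add j2).of_mul_right M⟩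
  · refine ((Nat.dvd_prime_pow hr (m := a)).1 (orderOf_dvd_of_pow_eq_one ?_)).imp fun _ h => h.2
    rw [← pow_mul, ← orderOf_dvd_iff_pow_eq_one, e, mul_comm]
    exact mul_dvd_mul_right (Nat.modEq_zero_iff_dvd.1 (i2.of_mul_right M)) _
  · rw [← pow_mul, ← orderOf_dvd_iff_pow_eq_one, e]
    exact mul_dvd_mul_right (Nat.modEq_zero_iff_dvd.1 (j1.of_dvd d1)) _

/-- Given `k` prime to `o(f x)`, some `k' ≡ k (mod o(f x))` is prime to `o(x)`
(`ZMod.unitsMap_surjective`). -/
theorem RatG.map [Finite G] (h : RatG G) {Γ : Type*} [Group Γ] (f : G →* Γ)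
    (hf : Function.Surjective f) : RatG Γ := by
  intro y k hk
  obtain ⟨x, rfl⟩ := hf y
  have := NeZero.mk (orderOf_pos x).ne'
  obtain ⟨v, hv⟩ := ZMod.unitsMap_surjective (orderOf_map_dvd f x) (ZMod.unitOfCoprime k hk)
  have e := congrArg Units.val hv
  rw [ZMod.unitsMap_val, ZMod.coe_unitOfCoprime, ← ZMod.natCast_val, ZMod.natCast_eq_natCast_iff,
    ← pow_eq_pow_iff_modEq] at e
  rw [← e, ← map_pow]
  exact f.map_isConj (h x _ (ZMod.val_coe_unit_coprime v))

theorem RatG.inv [Finite G] (h : RatG G) (x : G) : IsConj x x⁻¹ := by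
  obtain ⟨n, e⟩ := Nat.exists_eq_add_one_of_ne_zero (orderOf_pos x).ne'
  rw [← eq_inv_of_mul_eq_one_left (show x ^ n * x = 1 by rw [← pow_succ, ← e, pow_orderOf_eq_one])]
  exact h x n (by simp [e])

/-- `C(g ^ k) = C(g)` as `g` is a power of `g ^ k`. -/
theorem Dis.rat [Finite G] (h : Dis G) : RatG G := by
  intro g k hk
  obtain ⟨m, e⟩ := exists_pow_eq_self_of_coprime hk
  refine h _ _ (congrArg (fun H : Subgroup G => Nat.card H) (Subgroup.ext fun a => ?_))
  simp only [mem_centralizer_singleton_iff]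
  exact ⟨fun h => Commute.pow_right h k, fun h => e ▸ Commute.pow_right h m⟩

theorem Dis.eq_one (h : Dis G) {z : G} (hz : c z = Nat.card G) : z = 1 := by
  exact isConj_one_right.1 (h z 1 (hz.trans c_one.symm)).symm

/-- CRT: `k' ≡ k (o x)`, `k' ≡ 1 (o y)`; `g (x y) g⁻¹ = (x y) ^ k' = x ^ k y`; now raise to the
powers `e` with `(x y) ^ e = x`, resp. `(x y) ^ e = y`. -/
theorem RatG.conj_cent [Finite G] (h : RatG G) {x y : G} (hc : Commute x y)
    (hcop : (orderOf x).Coprime (orderOf y)) {k : ℕ} (hk : k.Coprime (orderOf x)) :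
    ∃ g : G, Commute g y ∧ g * x * g⁻¹ = x ^ k := by
  obtain ⟨l, l1, l2⟩ := Nat.chineseRemainder hcop k 1
  obtain ⟨i, i1, i2⟩ := Nat.chineseRemainder hcop 1 0
  obtain ⟨j, j1, j2⟩ := Nat.chineseRemainder hcop 0 1
  obtain ⟨g, e⟩ := isConj_iff.1 (h (x * y) l (by
    rw [hc.orderOf_mul_eq_mul_orderOf_of_coprime hcop]
    exact .mul_right (l1.gcd_eq.trans hk) (l2.gcd_eq.trans (Nat.gcd_one_left _))))
  rw [← pow_eq_pow_iff_modEq] at l1 l2 i1 i2 j1 j2
  have a : ∀ n, g * (x ^ n * y ^ n) * g⁻¹ = (x ^ n * y ^ n) ^ l := fun n => by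
    rw [← hc.mul_pow, ← conj_pow, e, ← pow_mul, ← pow_mul, mul_comm]
  refine ⟨g, mul_inv_eq_iff_eq_mul.1 ?_, ?_⟩
  · simpa [j1, j2, l2] using a j
  · simpa [i1, i2, l1] using a i

/-- `N(⟨t⟩) → Aut ⟨t⟩` is onto with kernel `C(t)`; or: the orbit of `t` under `N(⟨t⟩)` is the set
of generators of `⟨t⟩`. -/
theorem RatG.rn [Finite G] (h : RatG G) (t : G) : (orderOf t).totient * c t ∣ Nat.card G := by
  have e : (zpowers t).normalizerMonoidHom.range = ⊤ := MonoidHom.range_eq_top.2 fun σ => by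
    obtain ⟨k, hk⟩ := mem_powers_iff_mem_zpowers.2 (σ ⟨t, mem_zpowers t⟩).2
    replace hk : t ^ k = _ := hk
    have o : orderOf (t ^ k) = orderOf t := by rw [hk, orderOf_coe, σ.orderOf_eq, ← orderOf_coe]
    obtain ⟨g, e⟩ := isConj_iff.1 (h t k (by
      rw [orderOf_pow, Nat.div_eq_self] at o
      exact Nat.Coprime.symm (o.resolve_left (orderOf_pos t).ne')))
    refine ⟨⟨g, mem_normalizer_iff_map_conj_eq.2 ?_⟩, MulEquiv.ext fun ⟨_, j, rfl⟩ => Subtype.ext ?_⟩
    · rw [MonoidHom.map_zpowers]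
      refine (congrArg _ e).trans (eq_of_le_of_card_ge (zpowers_le.2 (pow_mem (mem_zpowers t) k)) ?_)
      rw [Nat.card_zpowers, Nat.card_zpowers, o]
    · rw [show (⟨_, j, rfl⟩ : zpowers t) = ⟨t, mem_zpowers t⟩ ^ j from rfl, map_zpow, map_zpow]
      exact congrArg (· ^ j) (e.trans hk)
  refine .trans (Dvd.intro_left 1 ?_) (card_subgroup_dvd_card (normalizer (zpowers t : Set G)))
  rw [← (zpowers t).normalizerMonoidHom.ker.index_mul_card, index_ker, normalizerMonoidHom_ker,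
    Nat.card_congr (subgroupOfEquivOfLe (centralizer_le_normalizer _)).toEquiv, e, card_top,
    IsCyclic.card_mulAut, Nat.card_zpowers, zpowers_eq_closure, centralizer_closure, one_mul, c]

/-- `G / G'` is a nontrivial abelian rational group, so of exponent `2`; take a maximal subgroup. -/
theorem RatG.exists_index_two [Finite G] [Nontrivial G] (h : RatG G) (hs : Group.IsSolvable G) :
    ∃ M : Subgroup G, M.index = 2 := by
  obtain ⟨a, -, ha⟩ := SetLike.exists_of_lt (Group.IsSolvable.commutator_lt_top_of_nontrivial G)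
  have : Finite (Abelianization G) := .of_surjective _ (QuotientGroup.mk'_surjective (commutator G))
  have := NeZero.mk (Nat.cast_ne_zero (R := ℂ).2 (Monoid.exponent_ne_zero_of_finite (G := Abelianization G)))
  obtain ⟨φ, hφ⟩ := CommGroup.exists_apply_ne_one_of_hasEnoughRootsOfUnity _ ℂ (a := Abelianization.of a)
    fun e => ha ((QuotientGroup.eq_one_iff a).1 e)
  have e : ∀ b, φ (Abelianization.of b) = 1 ∨ φ (Abelianization.of b) = -1 := fun b => by
    have := isConj_iff_eq.1 ((φ.comp Abelianization.of).map_isConj (h.inv b))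
    rw [map_inv, eq_inv_iff_mul_eq_one, Units.ext_iff, Units.val_mul, Units.val_one, mul_self_eq_one_iff] at this
    exact this.imp Units.ext Units.ext
  refine ⟨(φ.comp Abelianization.of).ker, index_eq_two_iff_exists_notMem_and.2 ⟨a, hφ, fun b => ((e b).symm.imp_left fun e' => ?_)⟩⟩
  simp [e', (e a).resolve_left hφ]

end Cfsg.Agent.AH
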