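import Mathlib
import Cfsg.Agent.AH.Bas
import Cfsg.Agent.XM.BrChar
import Cfsg.Agent.CTL.Lift

/-! S4162: self-duality of normal elementary abelian subgroups of groups with all elements real. -/

set_option autoImplicit false

namespace Cfsg.Agent.AH
open Cfsg Cfsg.Agent.FT Subgroup

variable {Γ : Type*} [Group Γ] [Finite Γ]

open Module Block in
theorem dual_lin {G L V : Type*} [Group G] [Finite G] [Group L] [Finite L] {p : ℕ} [Fact p.Prime]
    [AddCommGroup V] [Module (ZMod p) V] [Finite V] (ρ : G →* End (ZMod p) V) (hL : ¬ p ∣ Nat.card L)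
    (f f' : L →* G) (hc : ∀ a, IsConj (f a⁻¹) (f' a)) {v : V} (hv : v ≠ 0) (h : ∀ a, ρ (f a) v = v) :
    ∃ v' ≠ 0, ∀ a, ρ (f' a) v' = v' := by
  have := Fintype.ofFinite L
  obtain ⟨M, hM⟩ := exists_isPModular (Fact.out : p.Prime)
  have := charP_resField hM
  let _ := ZMod.algebra (resField M) p
  let B := End.baseChangeHom (ZMod p) (resField M) V
  rw [Nat.card_eq_fintype_card] at hL
  have cl : ∀ f : L →* G, XM.E3.Cl (Finset.univ.val.map f) := fun f a ha => by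
    obtain ⟨b, -, rfl⟩ := Multiset.mem_map.1 ha
    conv_rhs => rw [← Multiset.map_univ_val_equiv (Equiv.mulLeft b)]
    simp
  have sb : ∀ f : L →* G, ∑ a, XM.E3.bc (B.toMonoidHom.comp ρ) (f a) =
      Fintype.card L * finrank (resField M) (LinearMap.range (B (∑ a, ρ (f a)))) := fun f => by
    have := XM.E3.sum_bc (B.toMonoidHom.comp ρ) hM (cl f) (by simpa using hL)
    rw [Multiset.map_map, Multiset.map_map, Multiset.card_map] at this
    rw [map_sum]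
    exact this
  have e := (sb f).symm.trans (((Equiv.sum_comp (Equiv.inv L) _).symm.trans
    (Finset.sum_congr rfl fun a _ => by
      obtain ⟨c, hc⟩ := isConj_iff.1 (hc a)
      rw [← hc, XM.E3.bc_conj]; rfl)).trans (sb f'))
  rw [mul_right_inj' (Nat.cast_ne_zero.2 Fintype.card_ne_zero), Nat.cast_inj] at e
  by_cases h0 : ∑ a, ρ (f' a) = 0
  · rw [h0, map_zero, LinearMap.range_zero, finrank_bot, Submodule.finrank_eq_zero,
      LinearMap.range_eq_bot] at e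
    have := LinearMap.congr_fun (LinearMap.baseChangeHom_injective (ZMod p) V (resField M)
      (e.trans (map_zero _).symm)) v
    simp only [LinearMap.sum_apply, h, Finset.sum_const, Finset.card_univ, LinearMap.zero_apply,
      ← Nat.cast_smul_eq_nsmul (ZMod p), smul_eq_zero, hv, or_false, ZMod.natCast_eq_zero_iff] at this
    exact absurd this hL
  · obtain ⟨u, hu⟩ := DFunLike.ne_iff.1 h0
    refine ⟨_, hu, fun a => ?_⟩
    have := (cl f').mul_sum ρ (Multiset.mem_map_of_mem _ (Finset.mem_univ a))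
    rw [Multiset.map_map] at this
    exact LinearMap.congr_fun this u

theorem dual_mul (hr : ∀ x : Γ, IsConj x x⁻¹) {p : ℕ} (hp : p.Prime) {U : Type*} [CommGroup U] [Finite U]
    (φ : Γ →* MulAut U) (hU : ∀ u : U, u ^ p = 1) {L : Subgroup Γ} (hL : ¬ p ∣ Nat.card L) {w : U}
    (hw : w ≠ 1) (hn : ∀ a ∈ L, ∃ k : ℕ, φ a w = w ^ k) :
    ∃ w' ≠ 1, ∀ a ∈ L, ∀ k : ℕ, φ a w = w ^ k → φ a⁻¹ w' = w' ^ k := by
  have := Fact.mk hp
  obtain ⟨_⟩ : Nonempty (Module (ZMod p) (Additive U)) := ⟨AddCommGroup.zmodModule fun x => hU x.toMul⟩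
  let τ : Γ →* Module.End (ZMod p) (Additive U) :=
    { toFun := fun g => (MonoidHom.toAdditive (φ g).toMonoidHom).toZModLinearMap p
      map_one' := by ext; simp
      map_mul' := fun _ _ => by ext; simp }
  let ρ : Γ × (ZMod p)ˣ →* Module.End (ZMod p) (Additive U) :=
    { toFun := fun x => (x.2 : ZMod p) • τ x.1
      map_one' := by simp
      map_mul' := fun _ _ => by simp [smul_smul, mul_comm] }
  have key : ∀ (a : Γ) (u : U) (k : ℕ), φ a u = u ^ k ↔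
      τ a (Additive.ofMul u) = (k : ZMod p) • Additive.ofMul u := fun a u k => by
    rw [Nat.cast_smul_eq_nsmul]
    rfl
  have v0 : Additive.ofMul w ≠ 0 := hw
  choose c hc using fun a : L => (hn a a.2).imp fun k => (key a w k).1
  let μ : L →* (ZMod p)ˣ := MonoidHom.toHomUnits
    { toFun := fun a => (c a : ZMod p)
      map_one' := smul_left_injective _ v0 (by simp [← hc])
      map_mul' := fun a b => smul_left_injective _ v0 (by
        simp only [← hc]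
        rw [coe_mul, map_mul, Module.End.mul_apply, hc, map_smul, hc, smul_smul, mul_comm]) }
  have hμ : ∀ a, (μ a : ZMod p) = c a := fun _ => rfl
  obtain ⟨v', h0, h⟩ := dual_lin ρ hL (L.subtype.prod μ⁻¹) (L.subtype.prod μ) (fun a => by
      obtain ⟨g, hg⟩ := isConj_iff.1 (hr a).symm
      exact isConj_iff.2 ⟨(g, 1), Prod.ext hg (by simp)⟩) v0 fun a => by
    change ((μ a)⁻¹ : (ZMod p)ˣ).1 • τ a _ = _
    rw [hc, ← hμ, smul_smul, Units.inv_mul, one_smul]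
  refine ⟨v'.toMul, h0, fun a ha k hk => (key _ _ _).2 ?_⟩
  have e : (k : ZMod p) = μ ⟨a, ha⟩ :=
    smul_left_injective _ v0 (((key a w k).1 hk).symm.trans (hc ⟨a, ha⟩))
  have := h ⟨a, ha⟩⁻¹
  change (μ ⟨a, ha⟩⁻¹ : (ZMod p)ˣ).1 • τ a⁻¹ v' = v' at this
  rw [e, ofMul_toMul]
  conv_rhs => rw [← this, smul_smul, map_inv, Units.mul_inv, one_smul]

open scoped IsMulCommutative in
/-- Proof. `V = Additive W` is a `ZMod p`-space; `ρ₀ : Γ × (ZMod p)ˣ →* End (ZMod p) V`,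
`ρ₀ (g, z) = z • (conjugation by g)`; base change `ρ` to `resField M` (`IsPModular p M`; copy the
base change in `CTL.exists_char`, file `CTL/Lift`).  `μ : L →* (ZMod p)ˣ` with
`a w a⁻¹ = w ^ μ a`.  Multisets `s₁ = univ.val.map (fun a : L => (a, (μ a)⁻¹))`,
`s₂ = univ.val.map (fun a : L => (a, μ a))` are `XM.E3.Cl` (images of a group under a hom), of card
`|L|`.  `(a⁻¹, z)` is conjugate to `(a, z)`, so (reindex `a ↦ a⁻¹`, `bc_conj`) the sums of `bc ρ` over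
`s₁`, `s₂` agree and by `XM.E3.sum_bc` the ranks of `Σ_{s₁} ρ`, `Σ_{s₂} ρ` agree.  `Σ_{s₁} ρ₀` sends
`w` to `|L| • w ≠ 0`, so `Σ_{s₁} ρ ≠ 0`, `Σ_{s₂} ρ ≠ 0`, `Σ_{s₂} ρ₀ ≠ 0` (base change of `0` is `0`,
and base change along a field extension is injective).  Any `w' ≠ 0` in the range of `Σ_{s₂} ρ₀` is
fixed by all `ρ₀ (a, μ a)` (`Cl.mul_sum`), apply this to `a⁻¹`. -/
theorem dual (hr : ∀ x : Γ, IsConj x x⁻¹) {p : ℕ} (hp : p.Prime) {W L : Subgroup Γ} [W.Normal]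
    (hW : IsElementaryAbelian p W) (hL : ¬ p ∣ Nat.card L) {w : Γ} (hw : w ∈ W) (hw1 : w ≠ 1)
    (hn : ∀ a ∈ L, ∃ k : ℕ, a * w * a⁻¹ = w ^ k) :
    ∃ w' ∈ W, w' ≠ 1 ∧ ∀ a ∈ L, ∀ k : ℕ, a * w * a⁻¹ = w ^ k → a⁻¹ * w' * a = w' ^ k := by
  have := hW.1
  obtain ⟨u, h1, h2⟩ := dual_mul hr hp (U := W) MulAut.conjNormal (fun u => Subtype.ext (hW.2 u u.2)) hL
    (w := ⟨w, hw⟩) (fun e => hw1 (congrArg Subtype.val e)) fun a ha => (hn a ha).imp fun _ => Subtype.ext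
  exact ⟨u, u.2, fun e => h1 (Subtype.ext e), fun a ha k hk => by
    simpa using congrArg Subtype.val (h2 a ha k (Subtype.ext hk))⟩

/-- No scalars other than `±1`.  Take `1 ≠ w ∈ W ⊓ C(M)`; the elements `a` with
`∃ k, a w a⁻¹ = w ^ k` form a subgroup containing `M` and `g`, apply `dual`: `w'` is centralised by
`M` (`k = 1`), so `g w' g⁻¹ = w' ^ k = g⁻¹ w' g`, `w' ^ (k ^ 2) = w'`, and `o(w') = p`. -/
theorem ns (hr : ∀ x : Γ, IsConj x x⁻¹) {p : ℕ} (hp : p.Prime) {W M : Subgroup Γ} [W.Normal]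
    (hW : IsElementaryAbelian p W) {g : Γ} (hL : ¬ p ∣ Nat.card (M ⊔ zpowers g : Subgroup Γ))
    (h0 : W ⊓ 𝒞(M) ≠ ⊥) {k : ℕ} (h : ∀ u ∈ W ⊓ 𝒞(M), g * u * g⁻¹ = u ^ k) :
    k ^ 2 ≡ 1 [MOD p] := by
  have := Fact.mk hp
  obtain ⟨⟨w, hw⟩, hw1⟩ := ne_bot_iff_exists_ne_one.1 h0
  have n : ∀ a, ∀ j : ℕ, a * w * a⁻¹ = w ^ j → a ∈ 𝒩(zpowers w) := fun a j e =>
    mem_normalizer_of_cj_le (by rw [cj_zpowers, e, zpowers_le]; exact pow_mem (mem_zpowers w) j)
  have m : ∀ a ∈ M, a * w * a⁻¹ = w ^ 1 := fun a ha => by rw [hw.2 a ha, pow_one, mul_inv_cancel_right]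
  obtain ⟨w', h1, h2, h3⟩ := dual hr hp hW hL hw.1 (fun e => hw1 (Subtype.ext e)) fun a ha =>
    (mem_powers_iff_mem_zpowers.2 ((mem_normalizer_iff.1 (sup_le (fun a ha => n a 1 (m a ha))
      (zpowers_le.2 (n g k (h w hw))) ha) w).1 (mem_zpowers w))).imp fun _ e => e.symm
  have e1 := h w' ⟨h1, fun a ha => by
    have := h3 a (mem_sup_left ha) 1 (m a ha)
    rw [pow_one] at this
    conv_lhs => rw [← this]
    group⟩
  have e2 := h3 g (mem_sup_right (mem_zpowers g)) k (h w hw)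
  rw [← orderOf_eq_prime (hW.2 w' h1) h2, ← pow_eq_pow_iff_modEq, pow_two, pow_mul, ← e1, conj_pow, ← e2]
  group

/-- `U = W ⊓ C(y)` is a nontrivial `p`-group; if `|U| = p`, `U = ⟨w⟩`, `RatG.conj_cent` (`k = 2`)
gives `g₀` commuting with `y`, `g₀ w g₀⁻¹ = w ^ 2`; its `p'`-part `g = g₀ ^ j` (`exists_parts`,
`M = p - 1`, Fermat, `conj_pow_iter`) does the same, `⟨y⟩ ⊔ ⟨g⟩` is an abelian `p'`-group, and `ns`
gives `4 ≡ 1 (p)`. -/
theorem sq_dvd (hr : RatG Γ) {p : ℕ} (hp : p.Prime) (h5 : 5 ≤ p) {W : Subgroup Γ} [W.Normal]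
    (hW : IsElementaryAbelian p W) {y : Γ} (hy : ¬ p ∣ orderOf y) (h0 : W ⊓ 𝒞[y] ≠ ⊥) :
    p ^ 2 ∣ Nat.card (W ⊓ 𝒞[y] : Subgroup Γ) := by
  have := Fact.mk hp
  obtain ⟨n, hn⟩ := IsPGroup.iff_card.1 (show IsPGroup p (W ⊓ 𝒞[y] : Subgroup Γ) from fun u =>
    ⟨1, Subtype.ext (by simpa using hW.2 _ u.2.1)⟩)
  obtain ⟨⟨w, hw⟩, hw1⟩ := ne_bot_iff_exists_ne_one.1 h0
  have ow := orderOf_eq_prime (hW.2 w hw.1) fun e => hw1 (Subtype.ext e)
  by_contra hne
  have U : zpowers w = W ⊓ 𝒞[y] := eq_of_le_of_card_ge (zpowers_le.2 hw) (by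
    rw [Nat.card_zpowers, ow, hn]
    exact (Nat.pow_le_pow_right hp.pos (not_lt.1 fun h => hne (hn ▸ pow_dvd_pow p h))).trans_eq (pow_one p))
  obtain ⟨g, cg, hg⟩ := hr.conj_cent (mem_centralizer_singleton_iff.1 hw.2)
    (ow ▸ (Nat.Prime.coprime_iff_not_dvd hp).2 hy) (k := 2)
    (ow ▸ (Nat.coprime_primes Nat.prime_two hp).2 (by omega))
  obtain ⟨-, j, -, -, hj, -, j1⟩ := exists_parts g hp 0 (M := p - 1)
    (Nat.not_dvd_of_pos_of_lt (by omega) (by omega))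
  have := ns hr.inv hp hW (M := zpowers y) (g := g ^ j) (fun h => by
      have := h.trans (Grp.card_sup_dvd_of_le_normalizer (zpowers_le.2 (centralizer_le_normalizer _
        (by rw [cent_zpowers]; exact mem_centralizer_singleton_iff.2 (cg.pow_left j).symm))))
      rw [Nat.card_zpowers, Nat.card_zpowers, hp.dvd_mul] at this
      exact this.elim hy hj)
    (by rwa [cent_zpowers]) (k := 2 ^ j) fun u hu => by
      rw [cent_zpowers, ← U] at hu
      obtain ⟨i, rfl⟩ := mem_powers_iff_mem_zpowers.2 hu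
      rw [← conj_pow, conj_pow_iter hg, ← pow_mul, ← pow_mul, mul_comm]
  have h2 : ((2 : ℕ) : ZMod p) ≠ 0 := by
    rw [Ne, ZMod.natCast_eq_zero_iff]
    exact Nat.not_dvd_of_pos_of_lt two_pos (by omega)
  rw [← ZMod.natCast_eq_natCast_iff, Nat.cast_pow, Nat.cast_pow,
    pow_eq_pow_of_modEq j1 (ZMod.pow_card_sub_one_eq_one h2), pow_one, ← Nat.cast_pow,
    ZMod.natCast_eq_natCast_iff] at this
  have := Nat.le_of_dvd (by norm_num) ((Nat.modEq_iff_dvd' (by norm_num)).1 this.symm)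
  omega

end Cfsg.Agent.AH
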