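import Mathlib
import Cfsg.Agent.AH.Bas
import Cfsg.Agent.FH.Basic
import Cfsg.Agent.Grp.Cores
import Cfsg.Agent.PLocal.AmbSyl

/-! S4162: five independent lemmas. -/

set_option autoImplicit false

namespace Cfsg.Agent.AH
open Cfsg Cfsg.Agent.FT Subgroup
open scoped commutatorElement

variable {Γ : Type*} [Group Γ]

/-- If every vector is an eigenvector, the map is scalar.  Fix `u₀ ≠ 1` with `m₀` (if `U = ⊥` take
`m = 1`).  For `u ∈ ⟨u₀⟩` clear.  Otherwise `(u u₀) ^ n = u ^ m u₀ ^ m₀`; if `n ≢ m (p)` then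
`u ∈ ⟨u₀⟩`; so `u ^ n = u ^ m`, `u₀ ^ n = u₀ ^ m₀`, `n ≡ m₀ (p)`, `u ^ m = u ^ n = u ^ m₀`. -/
theorem scalar {p : ℕ} (hp : p.Prime) {U : Subgroup Γ} (hU : IsElementaryAbelian p U) {b : Γ}
    (h : ∀ u ∈ U, ∃ m : ℕ, b * u * b⁻¹ = u ^ m) : ∃ m : ℕ, ∀ u ∈ U, b * u * b⁻¹ = u ^ m := by
  have := Fact.mk hp
  by_cases h0 : ∃ v ∈ U, v ≠ 1
  swap
  · push Not at h0
    exact ⟨1, fun u hu => by simp [h0 u hu]⟩
  obtain ⟨v, hv, v1⟩ := h0
  obtain ⟨k, hk⟩ := h v hv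
  refine ⟨k, fun u hu => ?_⟩
  by_cases c : u ∈ zpowers v
  · obtain ⟨i, rfl⟩ := c
    simp only [← conj_zpow, hk]
    rw [← zpow_natCast, ← zpow_natCast, ← zpow_mul, ← zpow_mul, mul_comm]
  have ou : orderOf u = p := orderOf_eq_prime (hU.2 u hu) fun e => c (e ▸ one_mem _)
  have ov : orderOf v = p := orderOf_eq_prime (hU.2 v hv) v1
  have cm : Commute u v := ((abelian_iff.1 hU.1) hv u hu :)
  obtain ⟨m, hm⟩ := h u hu
  obtain ⟨n, hn⟩ := h _ (mul_mem hu hv)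
  rw [← _root_.conj_mul, hm, hk, cm.mul_pow] at hn
  have e : u ^ ((m : ℤ) - n) = v ^ ((n : ℤ) - k) := by
    rw [zpow_sub, zpow_sub, zpow_natCast, zpow_natCast, zpow_natCast, zpow_natCast,
      ← ((Commute.refl u).pow_pow m n).inv_right.eq.symm, inv_mul_eq_iff_eq_mul, ← mul_assoc,
      eq_mul_inv_iff_mul_eq, hn]
  have d : (p : ℤ) ∣ (m : ℤ) - n := by
    by_contra d
    refine c (zpowers_le.2 (e ▸ zpow_mem_zpowers v _) (mem_zpowers_zpow_iff.2 ?_))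
    rw [ou, Int.gcd_comm]
    exact Int.isCoprime_iff_gcd_eq_one.1 ((Nat.prime_iff_prime_int.1 hp).coprime_iff_not_dvd.2 d)
  have e1 : u ^ ((m : ℤ) - n) = 1 := orderOf_dvd_iff_zpow_eq_one.1 (ou ▸ d)
  have d' : (p : ℤ) ∣ (n : ℤ) - k := ov ▸ orderOf_dvd_iff_zpow_eq_one.2 (e ▸ e1)
  have e2 : u ^ ((m : ℤ) - k) = 1 := orderOf_dvd_iff_zpow_eq_one.1 (by
    rw [ou, ← sub_add_sub_cancel _ (n : ℤ)]; exact dvd_add d d')
  rw [zpow_sub, zpow_natCast, zpow_natCast, mul_inv_eq_one] at e2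
  rw [hm, e2]

/-- A proper subgroup has at most `|U| / p` elements; if `N = |s| ≤ p` then the union has at most
`1 + p (|U| / p - 1) < |U|` elements. -/
theorem cov {U : Type*} [Group U] [Finite U] [Nontrivial U] {p : ℕ} (hp : p.Prime)
    (hU : ∀ u : U, u ^ p = 1) {ι : Type*} (s : Finset ι) (V : ι → Subgroup U)
    (hne : ∀ i ∈ s, V i ≠ ⊤) (hcov : ∀ u : U, u ≠ 1 → ∃ i ∈ s, u ∈ V i) : p + 1 ≤ s.card := by
  classical
  have := Fact.mk hp
  have := Fintype.ofFinite U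
  have hP : IsPGroup p U := fun g => ⟨1, by rw [pow_one, hU]⟩
  obtain ⟨u, hu⟩ := exists_ne (1 : U)
  obtain ⟨k, hk⟩ : p ∣ Nat.card U := orderOf_eq_prime (hU u) hu ▸ orderOf_dvd_natCard u
  have h1 : ∀ i ∈ s, ((Finset.univ.filter (· ∈ V i)).erase 1).card ≤ k - 1 := fun i hi => by
    obtain ⟨n, hn⟩ := hP.index (V i)
    have n0 : n ≠ 0 := fun e => hne i hi (index_eq_one.1 (by rw [hn, e, pow_zero]))
    have h2 := (V i).index_mul_card
    have h3 : p * Nat.card (V i) ≤ p * k := by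
      rw [← hk, ← h2, hn]
      exact Nat.mul_le_mul_right _ (Nat.le_self_pow n0 p)
    rw [Finset.card_erase_of_mem (by simp), ← Fintype.card_subtype, ← Nat.card_eq_fintype_card]
    exact Nat.sub_le_sub_right (Nat.le_of_mul_le_mul_left h3 hp.pos) 1
  have h2 : Finset.univ.erase (1 : U) ⊆ s.biUnion fun i => (Finset.univ.filter (· ∈ V i)).erase 1 :=
    fun x hx => by
      obtain ⟨i, hi, e⟩ := hcov x (Finset.ne_of_mem_erase hx)
      exact Finset.mem_biUnion.2 ⟨i, hi, by simp [e, Finset.ne_of_mem_erase hx]⟩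
  have h3 := (Finset.card_le_card h2).trans (Finset.card_biUnion_le_card_mul _ _ _ h1)
  rw [Finset.card_erase_of_mem (Finset.mem_univ _), Finset.card_univ, ← Nat.card_eq_fintype_card,
    hk] at h3
  by_contra! c
  have h4 := h3.trans (Nat.mul_le_mul_right _ (Nat.le_of_lt_succ c))
  have h5 : 0 < p * k := hk ▸ Nat.card_pos
  obtain ⟨j, rfl⟩ : ∃ j, k = j + 1 := Nat.exists_eq_succ_of_ne_zero (by rintro rfl; simp at h5)
  have := hp.two_le
  rw [Nat.add_sub_cancel, mul_add, mul_one] at h4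
  omega

variable [Finite Γ]

/-- Show by strong induction on `|K|` (or along the derived series): `⁅K, K⁆ < K` satisfies the
hypotheses, so `⁅K, K⁆ ≤ C(U)`.  `Z = ⁅K, ⟨h⟩⁆ ≤ ⁅Z, ⟨h⟩⁆` (`FH.comm_comm_eq`), `FH.Sec.frob1` for
`FH.Sec.of_elem` with `L = K ⊔ ⟨h⟩`, `N = ⊥` gives `⁅U, Z⁆ = ⊥`, and `K = Z ⊔ (K ⊓ C(h))`
(`Solv.coprime_commutator_sup_centralizer`). -/
theorem fa2 {p : ℕ} (hp : p.Prime) {U K : Subgroup Γ} {h : Γ} (hU : IsElementaryAbelian p U)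
    (hK : Group.IsSolvable K) (hpK : ¬ p ∣ Nat.card K) (hh : (orderOf h).Prime)
    (hhK : ¬ orderOf h ∣ Nat.card K) (hKU : K ≤ 𝒩(U)) (hhU : h ∈ 𝒩(U)) (hn : h ∈ 𝒩(K))
    (hC : K ⊓ 𝒞[h] ≤ 𝒞(U)) (hf : U ⊓ 𝒞[h] = ⊥) : K ≤ 𝒞(U) := by
  induction K using (wellFounded_lt (α := Subgroup Γ)).induction with | _ K ih => ?_
  rcases eq_or_ne K ⊥ with rfl | h0
  · exact bot_le
  have hz := zpowers_le.2 hn
  have h1 := ih ⁅K, K⁆ (Grp.commutator_lt_of_isSolvable h0) (isSolvable_of_le (der_le K) hK)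
    (fun d => hpK (d.trans (card_dvd_of_le (der_le K))))
    (fun d => hhK (d.trans (card_dvd_of_le (der_le K)))) ((der_le K).trans hKU)
    (norm_der hz (mem_zpowers h)) ((inf_le_inf_right _ (der_le K)).trans hC)
  have cop : (Nat.card (zpowers h)).Coprime (Nat.card K) := by
    rw [Nat.card_zpowers]; exact hh.coprime_iff_not_dvd.2 hhK
  have hZ := comm_le_left hz
  have h2 := (FH.Sec.of_elem hp hU (sup_le hKU (zpowers_le.2 hhU))).frob1 (Z := ⁅K, zpowers h⁆) hh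
    (hZ.trans le_sup_left) (mem_sup_right (mem_zpowers h))
    (norm_comm hz le_normalizer (mem_zpowers h)) (fun d => hpK (d.trans (card_dvd_of_le hZ)))
    (by rw [commutator_comm]; exact (comm_eq_bot_iff.2 ((der_mono hZ).trans h1)).le)
    (FH.comm_comm_eq hz cop (.inr hK))
    (by rw [PLocal.CommMod.centMod_bot, PLocal.Amb.centralizer_zpowers]; exact hf.le)
  rw [← Solv.coprime_commutator_sup_centralizer _ K hz cop (.inr hK), PLocal.Amb.centralizer_zpowers]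
  exact sup_le (comm_eq_bot_iff.1 (by rw [commutator_comm]; exact le_bot_iff.1 h2)) hC

omit [Finite Γ] in
theorem lem_pg {r : ℕ} {u : Γ} (ho : orderOf u = r) : IsPGroup r (zpowers u) :=
  PLocal.Amb.isPGroup_zpowers ⟨1, by rw [pow_one, ← ho, pow_orderOf_eq_one]⟩

theorem lem_syl {D : Subgroup Γ} {r : ℕ} (hr : r.Prime) {u : Γ} (hu : u ∈ D) (ho : orderOf u = r)
    (h : ¬ r ^ 2 ∣ Nat.card D) : PLocal.Amb.IsSyl r (zpowers u) D := by
  have := Fact.mk hr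
  refine PLocal.Amb.isSyl_of_not_dvd_relIndex (lem_pg ho) (zpowers_le.2 hu) fun d => h ?_
  have e := ((zpowers u).subgroupOf D).card_mul_index
  rw [Nat.card_congr (subgroupOfEquivOfLe (zpowers_le.2 hu)).toEquiv, Nat.card_zpowers, ho] at e
  rw [← e, pow_two]
  exact Nat.mul_dvd_mul_left r d

/-- A Sylow subgroup `P ∋ u` of `D` has `Z(P) ≠ 1`; `⟨u⟩ Z(P) ≤ D ⊓ C(u)` is an `r`-group, so of
order `r`, so `u ∈ Z(P)` and `P ≤ D ⊓ C(u)`. -/
theorem not_sq_dvd {D : Subgroup Γ} {r : ℕ} (hr : r.Prime) {u : Γ} (hu : u ∈ D)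
    (ho : orderOf u = r) (h : ¬ r ^ 2 ∣ Nat.card (D ⊓ 𝒞[u] : Subgroup Γ)) : ¬ r ^ 2 ∣ Nat.card D := by
  have := Fact.mk hr
  intro d
  have u1 : u ≠ 1 := fun e => hr.one_lt.ne (by rw [← ho, e, orderOf_one])
  have s := lem_syl hr (D := D ⊓ 𝒞[u]) ⟨hu, mem_centralizer_singleton_iff.2 rfl⟩ ho h
  obtain ⟨P, hP, h1⟩ := PLocal.Amb.exists_isSyl_ge (lem_pg ho) (zpowers_le.2 hu)
  have h2 : P ⊓ 𝒞[u] ≤ zpowers u := s.max _ (hP.pgrp.to_le inf_le_left)
    (le_inf h1 (s.le.trans inf_le_right)) (inf_le_inf_right _ hP.le)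
  obtain ⟨⟨z, z1, z2⟩, z0⟩ := ne_bot_iff_exists_ne_one.1 (PLocal.Amb.inf_centralizer_ne_bot hP.pgrp
    hP.pgrp le_normalizer fun c => u1 (mem_bot.1 (c ▸ h1 (mem_zpowers _))))
  have h3 : zpowers z = zpowers u := zpowers_eq_of_card_prime (by rwa [Nat.card_zpowers, ho])
    (h2 ⟨z1, mem_centralizer_singleton_iff.2 (z2 u (h1 (mem_zpowers u))).symm⟩)
    fun e => z0 (Subtype.ext e)
  have h4 : u ∈ 𝒞(P) := (h3 ▸ zpowers_le.2 z2 : zpowers u ≤ 𝒞(P)) (mem_zpowers u)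
  have h5 : P ≤ zpowers u := (le_inf le_rfl fun x hx =>
    mem_centralizer_singleton_iff.2 (h4 x hx)).trans h2
  have h6 := card_dvd_of_le h5
  rw [hP.card_eq_pow, Nat.card_zpowers, ho] at h6
  have h7 := (pow_dvd_pow r ((hr.pow_dvd_iff_le_factorization Nat.card_pos.ne').1 d)).trans h6
  exact absurd (Nat.le_of_dvd hr.pos h7) (by nlinarith [hr.one_lt])

/-- `⟨u⟩`, `⟨v⟩` are Sylow subgroups of `D`. -/
theorem conj_zpowers {D : Subgroup Γ} {r : ℕ} (hr : r.Prime) (h : ¬ r ^ 2 ∣ Nat.card D) {u v : Γ}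
    (hu : u ∈ D) (hv : v ∈ D) (hou : orderOf u = r) (hov : orderOf v = r) :
    ∃ d ∈ D, d * v * d⁻¹ ∈ zpowers u := by
  have := Fact.mk hr
  obtain ⟨g, hg, e⟩ := (lem_syl hr hu hou h).exists_cj_le (lem_pg hov) (zpowers_le.2 hv)
  exact ⟨g, hg, PLocal.Amb.cj_le_iff_forall.1 e v (mem_zpowers v)⟩

theorem lem_nor {G : Type*} [Group G] [Finite G] [Group.IsSolvable G] {r : ℕ} (hr : r.Prime) {u : G}
    (ho : orderOf u = r) (h : ¬ r ^ 2 ∣ Nat.card G) : (pPrimeCore r G ⊔ zpowers u).Normal := by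
  have := Fact.mk hr
  set f := QuotientGroup.mk' (pPrimeCore r G)
  have u1 : f u ≠ 1 := fun e => hr.one_lt.ne' ((Nat.coprime_self r).1 (by
    have := Grp.orderOf_coprime_of_mem_pPrimeCore ((QuotientGroup.eq_one_iff u).1 e)
    rwa [ho] at this))
  have o : orderOf (f u) = r := orderOf_eq_prime
    (by rw [← map_pow, orderOf_dvd_iff_pow_eq_one.1 ho.dvd, map_one]) u1
  have : Nontrivial (G ⧸ pPrimeCore r G) := ⟨_, _, u1⟩
  obtain ⟨q, M, hq, n, m0, -, -, mq, -⟩ := Grp.exists_minNormal_elementaryAbelian (G ⧸ pPrimeCore r G)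
  have := Fact.mk hq
  obtain rfl : q = r := by
    by_contra c
    exact m0 (le_bot_iff.1 (Grp.pPrimeCore_quotient_pPrimeCore r G ▸
      Grp.le_pPrimeCore n (Grp.coprime_card_of_isPGroup_of_ne c mq)))
  have s := lem_syl hq (D := ⊤) (mem_top _) o fun d => h (by
    rw [card_top] at d
    exact d.trans (card_quotient_dvd_card _))
  have h1 : M ≤ zpowers (f u) := le_sup_right.trans (s.max _
    (PLocal.Amb.isPGroup_sup s.pgrp mq le_normalizer_of_normal) le_sup_left le_top)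
  obtain ⟨⟨z, z1⟩, z0⟩ := ne_bot_iff_exists_ne_one.1 m0
  have h2 : M = zpowers (f u) := le_antisymm h1 (by
    rw [← zpowers_eq_of_card_prime (by rwa [Nat.card_zpowers, o]) (h1 z1) fun e => z0 (Subtype.ext e)]
    exact zpowers_le.2 z1)
  have h3 := n.comap f
  rwa [h2, ← MonoidHom.map_zpowers, comap_map_eq, QuotientGroup.ker_mk', sup_comm] at h3

/-- `K = O_{r'}(D)` (`pPrimeCore r D`, file `Grp/Cores`).  A minimal normal subgroup `M / K` of
`D / K` is an `r`-group (else its preimage is a larger normal `r'`-subgroup), of order `r`, hence the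
unique Sylow `r`-subgroup `⟨u K⟩`; so `K ⊔ ⟨u⟩ ⊴ D`.  For `d ∈ D`, `conj_zpowers` in `K ⊔ ⟨u⟩` gives
`κ u^i` conjugating `d u d⁻¹` into `⟨u⟩` (Frattini argument). -/
theorem s3l {D : Subgroup Γ} (hD : Group.IsSolvable D) {r : ℕ} (hr : r.Prime) {u : Γ} (hu : u ∈ D)
    (ho : orderOf u = r) (h : ¬ r ^ 2 ∣ Nat.card D) :
    ∃ K ≤ D, D ≤ 𝒩(K) ∧ ¬ r ∣ Nat.card K ∧ D ≤ 𝒩(K ⊔ zpowers u) ∧
      (∀ K' ≤ D, D ≤ 𝒩(K') → ¬ r ∣ Nat.card K' → K' ≤ K) ∧
      ∀ d ∈ D, ∃ κ ∈ K, ∃ n ∈ D, n ∈ 𝒩(zpowers u) ∧ d = κ * n := by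
  have := Fact.mk hr
  have hK : D ≤ 𝒩((pPrimeCore r D).map D.subtype) := le_normalizer.trans
    (Grp.normalizer_le_normalizer_map_of_characteristic D _)
  have hKD : (pPrimeCore r D).map D.subtype ≤ D := map_subtype_le _
  have hn : D ≤ 𝒩((pPrimeCore r D).map D.subtype ⊔ zpowers u) := by
    have := lem_nor hr (u := (⟨u, hu⟩ : D)) (by rwa [orderOf_mk]) h
    have e := le_normalizer_map (H := pPrimeCore r D ⊔ zpowers (⟨u, hu⟩ : D)) D.subtype
    rwa [normalizer_eq_top, ← MonoidHom.range_eq_map, range_subtype, Subgroup.map_sup,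
      MonoidHom.map_zpowers] at e
  refine ⟨_, hKD, hK, hr.coprime_iff_not_dvd.1 (Grp.map_pPrimeCore_coprime r _).symm, hn,
    fun K' a b c => Grp.le_map_pPrimeCore a b (hr.coprime_iff_not_dvd.2 c).symm, fun d hd => ?_⟩
  obtain ⟨n, hn', x, hx, rfl⟩ := ((lem_syl hr hu ho h).mono le_sup_right
    (sup_le hKD (zpowers_le.2 hu))).frattini (hn hd)
  obtain ⟨κ, hκ, y, hy, rfl⟩ := (mem_sup_norm ((zpowers_le.2 hu).trans hK)).1 hn'
  rw [mul_assoc] at hd ⊢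
  exact ⟨κ, hκ, y * x, (D.mul_mem_cancel_left (hKD hκ)).1 hd, mul_mem (le_normalizer hy) hx, rfl⟩

end Cfsg.Agent.AH
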