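import Mathlib
import Cfsg.Agent.AH.Lem

/-! S4162: the parity lemma (`5 ∥ c x ⇒ 2 ∣ o(x)`, `7 ∥ c x ⇒ 3 ∣ o(x)`). -/

set_option autoImplicit false

namespace Cfsg.Agent.AH
open Cfsg Cfsg.Agent.FT Subgroup

variable {G : Type*} [Group G] [Finite G]

/-- `x = x ^ i * y`, `y = x ^ j` the `p'`-part (`exists_parts`), `D = C(y) ≥ C(x)`.  `p ^ 2 ∤ |D|`:
if `x ^ i = 1` then `D = C(x)`; otherwise `o(x ^ i) ∣ c x` gives `o(x ^ i) = p`,
`D ⊓ C(x ^ i) = C(x)` and `not_sq_dvd`.  Take `u ∈ C(x)` of order `p`.  Suppose `r ∤ o(x)`.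
`RatG.conj_cent` gives `g₀ ∈ D`, `g₀ u g₀⁻¹ = u ^ k`; its `r`-part `g` (`exists_parts` with `N = a`,
`conj_pow_iter`) does the same, and (`RatG.conj_cent` for `g`, `y`, exponent `o(g) - 1`)
`t g t⁻¹ = g⁻¹` with `t ∈ D`.  With `K` from `s3l`, `t = κ n`, `n u n⁻¹ = u ^ m`.  Modulo `K`
(in `D ⧸ K.subgroupOf D`, or by hand: all conjugates of `κ` by elements of `D` are in `K`):
`n g n⁻¹ = κ' g⁻¹`, `κ' ∈ K`; `n g n⁻¹` acts on `u` as `k` (the automorphisms of `⟨u⟩` commute), so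
`a = g n g n⁻¹ ∈ K` has `a u a⁻¹ = u ^ (k ^ 2)`, and `a u a⁻¹ u⁻¹ ∈ K ⊓ ⟨u⟩ = ⊥`.  So `k ^ 2 ≡ 1`. -/
theorem parity (hs : Group.IsSolvable G) (hr : RatG G) {p r a k : ℕ} (hp : p.Prime)
    (hr' : r.Prime) (hk : k ^ r ^ a ≡ 1 [MOD p]) (hk2 : ¬ k ^ 2 ≡ 1 [MOD p]) {x : G}
    (h1 : p ∣ c x) (h2 : ¬ p ^ 2 ∣ c x) : r ∣ orderOf x := by
  by_contra hx
  have mc : ∀ {g y : G}, g ∈ 𝒞[y] ↔ Commute g y := mem_centralizer_singleton_iff
  obtain ⟨i, j, e, ⟨n₀, hn₀⟩, hy, -, -⟩ := exists_parts x hp 0 (M := 1) hp.not_dvd_one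
  have cp : ∀ l : ℕ, 𝒞[x] ≤ 𝒞[x ^ l] := fun l g hg => mc.2 ((mc.1 hg).pow_right l)
  have hD : ¬ p ^ 2 ∣ Nat.card 𝒞[x ^ j] := by
    rcases Nat.eq_zero_or_pos n₀ with h0 | h0
    · rw [h0, pow_zero, orderOf_eq_one_iff] at hn₀
      rw [hn₀, one_mul] at e
      rwa [e]
    · have h3 : orderOf (x ^ i) ∣ c x := orderOf_dvd_c_of_commute ((Commute.refl x).pow_left i)
      have h4 : n₀ = 1 := by
        by_contra h4
        exact h2 ((pow_dvd_pow p (by omega)).trans (hn₀ ▸ h3))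
      refine not_sq_dvd hp (u := x ^ i) (mc.2 ((Commute.refl x).pow_pow i j)) (by rw [hn₀, h4, pow_one]) ?_
      have h5 : 𝒞[x ^ j] ⊓ 𝒞[x ^ i] = 𝒞[x] := le_antisymm
        (fun g hg => mc.2 (e ▸ (mc.1 hg.2).mul_right (mc.1 hg.1))) (le_inf (cp j) (cp i))
      rwa [h5]
  have ry : ¬ r ∣ orderOf (x ^ j) := fun h => hx (h.trans (orderOf_pow_dvd j))
  obtain ⟨u, cu, ou⟩ := exists_commute_of_dvd_c hp h1
  have uD : u ∈ 𝒞[x ^ j] := cp j (mc.2 cu)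
  generalize x ^ j = y at hy hD ry uD
  have ua : u ^ k ^ r ^ a = u := by
    conv_rhs => rw [← pow_one u]
    rw [pow_eq_pow_iff_modEq, ou]; exact hk
  have kp : k.Coprime (orderOf u) := by
    rw [ou]
    exact (Nat.coprime_pow_left_iff (pow_pos hr'.pos a) _ _).1 (Nat.coprime_of_mul_modEq_one 1
      (by rwa [mul_one]))
  obtain ⟨g₀, c₀, e₀⟩ := hr.conj_cent (mc.1 uD) (by rw [ou]; exact hp.coprime_iff_not_dvd.2 hy) kp
  obtain ⟨i', -, -, ⟨n₁, hn₁⟩, -, hi', -⟩ := exists_parts g₀ hr' a (M := 1) hr'.not_dvd_one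
  have e₁ : g₀ ^ i' * u * (g₀ ^ i')⁻¹ = u ^ k := by
    rw [conj_pow_iter e₀, pow_eq_pow_iff_modEq, ou, ← ZMod.natCast_eq_natCast_iff, Nat.cast_pow,
      pow_eq_pow_of_modEq hi' (by
        rw [← Nat.cast_pow, ← Nat.cast_one, ZMod.natCast_eq_natCast_iff]; exact hk), pow_one]
  have c₁ : Commute (g₀ ^ i') y := c₀.pow_left i'
  generalize g₀ ^ i' = g at hn₁ e₁ c₁
  have og := orderOf_pos g
  obtain ⟨t, ct, et⟩ := hr.conj_cent c₁ (by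
    rw [hn₁]; exact (hr'.coprime_iff_not_dvd.2 ry).pow_left n₁) (k := orderOf g - 1)
    ((Nat.coprime_self_sub_left og).2 (Nat.coprime_one_left _))
  rw [show g ^ (orderOf g - 1) = g⁻¹ from eq_inv_of_mul_eq_one_left (by
    rw [← pow_succ, Nat.sub_add_cancel og, pow_orderOf_eq_one])] at et
  obtain ⟨K, -, nK, pK, -, -, dec⟩ := s3l (D := 𝒞[y]) inferInstance hp uD ou hD
  obtain ⟨κ, hκ, n, -, hn, rfl⟩ := dec t (mc.2 ct)
  have aK : n * g * n⁻¹ * g ∈ K := by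
    have e2 : n * g * n⁻¹ * g = κ⁻¹ * (g⁻¹ * κ * g⁻¹⁻¹) := by
      calc _ = κ⁻¹ * (κ * n * g * (κ * n)⁻¹) * κ * g := by group
        _ = _ := by rw [et]; group
    rw [e2]
    exact mul_mem (inv_mem hκ) ((mem_normalizer_iff.1 (nK (inv_mem (mc.2 c₁))) κ).1 hκ)
  have e3 : n * g * n⁻¹ * u * (n * g * n⁻¹)⁻¹ = u ^ k := by
    obtain ⟨l, hl⟩ := mem_zpowers_iff.1 ((mem_normalizer_iff''.1 hn u).1 (mem_zpowers u))
    calc _ = n * (g * (n⁻¹ * u * n) * g⁻¹) * n⁻¹ := by group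
      _ = n * (n⁻¹ * u * n) ^ k * n⁻¹ := by
        rw [← hl, ← conj_zpow, e₁, ← zpow_natCast, ← zpow_natCast, ← zpow_mul, ← zpow_mul, mul_comm l]
      _ = _ := by rw [← conj_pow]; group
  have e4 : n * g * n⁻¹ * g * u * (n * g * n⁻¹ * g)⁻¹ = u ^ k ^ 2 := by
    calc _ = n * g * n⁻¹ * (g * u * g⁻¹) * (n * g * n⁻¹)⁻¹ := by group
      _ = _ := by rw [e₁, ← conj_pow, e3, ← pow_mul, pow_two]
  have wK : u ^ k ^ 2 * u⁻¹ ∈ K := by
    rw [← e4, mul_assoc, mul_assoc, ← mul_assoc u]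
    exact mul_mem aK ((mem_normalizer_iff.1 (nK uD) _).1 (inv_mem aK))
  have wu : u ^ k ^ 2 * u⁻¹ ∈ zpowers u :=
    mul_mem (pow_mem (mem_zpowers u) _) (inv_mem (mem_zpowers u))
  have w1 := orderOf_dvd_natCard _ wu
  rw [Nat.card_zpowers, ou] at w1
  have w2 := orderOf_eq_one_iff.1 (((Nat.dvd_prime hp).1 w1).resolve_right
    fun e => pK (e ▸ orderOf_dvd_natCard _ wK))
  refine hk2 ?_
  rw [← ou, ← pow_eq_pow_iff_modEq, pow_one]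
  exact mul_inv_eq_one.1 w2

theorem parity5 (hs : Group.IsSolvable G) (hr : RatG G) {x : G} (h1 : 5 ∣ c x) (h2 : ¬ 25 ∣ c x) :
    2 ∣ c x :=
  (parity (p := 5) (a := 2) (k := 2) hs hr (by norm_num) Nat.prime_two (by decide) (by decide) h1
    h2).trans (orderOf_dvd_c x)

theorem parity7 (hs : Group.IsSolvable G) (hr : RatG G) {x : G} (h1 : 7 ∣ c x) (h2 : ¬ 49 ∣ c x) :
    3 ∣ c x :=
  (parity (p := 7) (a := 1) (k := 2) hs hr (by norm_num) Nat.prime_three (by decide) (by decide) h1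
    h2).trans (orderOf_dvd_c x)

end Cfsg.Agent.AH
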