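import Mathlib
import Cfsg.Agent.AH.Bas

/-! S4162: the class equation and sums of reciprocals of smooth numbers. -/

set_option autoImplicit false

namespace Cfsg.Agent.AH
open Cfsg Cfsg.Agent.FT Subgroup

/-- Induction on `P`: write `d = p ^ a d'` (`ordProj`, `ordCompl`), so the sum is at most
`(∑_{a ≤ A} p ^ -a) · ∑_{d' ∈ T'} 1 / d'` with `T'` the image of `T`; or use Mathlib
`EulerProduct.summable_and_hasSum_factoredNumbers_prod_filter_prime_geometric` over `ℝ`. -/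
theorem sum_inv_le (P : Finset ℕ) (hP : ∀ p ∈ P, p.Prime) (T : Finset ℕ)
    (hT : ∀ d ∈ T, d ≠ 0 ∧ ∀ q : ℕ, q.Prime → q ∣ d → q ∈ P) :
    ∑ d ∈ T, (1 / d : ℚ) ≤ ∏ p ∈ P, (p / (p - 1) : ℚ) := by
  let f : ℕ →* ℝ := ⟨⟨fun n => (n : ℝ)⁻¹, by simp⟩, fun a b => by simp [mul_comm]⟩
  have h := (EulerProduct.summable_and_hasSum_factoredNumbers_prod_filter_prime_geometric (f := f) (fun {p} hp => by
    have : (1 : ℝ) < p := by exact_mod_cast hp.one_lt
    change ‖(p : ℝ)⁻¹‖ < 1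
    rw [norm_inv, Real.norm_natCast]
    exact inv_lt_one_of_one_lt₀ this) P).2
  have h1 := sum_le_hasSum (T.subtype (· ∈ Nat.factoredNumbers P)) (fun i _ => by
    change 0 ≤ ((i : ℕ) : ℝ)⁻¹; positivity) h
  rw [Finset.sum_subtype_of_mem (fun n => f n) fun d hd => Nat.mem_factoredNumbers'.2 (hT d hd).2,
    Finset.filter_true_of_mem hP] at h1
  rw [← Rat.cast_le (K := ℝ)]
  push_cast
  refine (Finset.sum_congr rfl fun d _ => one_div _).trans_le (h1.trans_eq (Finset.prod_congr rfl fun p hp => ?_))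
  have : (p : ℝ) ≠ 0 := by exact_mod_cast (hP p hp).ne_zero
  change (1 - (p : ℝ)⁻¹)⁻¹ = _
  rw [← inv_div, sub_div, div_self this, one_div]

theorem card_cls {G : Type*} [Group G] (x : G) : Nat.card {y | IsConj x y} * c x = Nat.card G := by
  have := Nat.card_congr (MulAction.orbitProdStabilizerEquivGroup (ConjAct G) x)
  rw [Nat.card_prod, ← Subgroup.nat_card_centralizer_nat_card_stabilizer] at this
  rw [show {y | IsConj x y} = MulAction.orbit (ConjAct G) x from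
    Set.ext fun y => (ConjAct.mem_orbit_conjAct.trans isConj_comm).symm]
  exact this

variable {G : Type*} [Group G] [Finite G]

/-- `{x | c x = d}` is one conjugacy class, of size `|G| / d`; sum over the fibres of `c` on `S`
(`Finset.card_eq_sum_card_fiberwise`). -/
theorem Dis.sum_eq (hA : Dis G) (S : Set G) (hS : ∀ x y, IsConj x y → x ∈ S → y ∈ S) :
    ∃ T : Finset ℕ, (∀ d, d ∈ T ↔ ∃ x ∈ S, c x = d) ∧
      ∑ d ∈ T, (1 / d : ℚ) = Nat.card S / Nat.card G := by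
  classical
  have := Fintype.ofFinite G
  refine ⟨S.toFinset.image c, fun d => by simp, ?_⟩
  rw [Nat.card_eq_card_toFinset, Finset.card_eq_sum_card_image c, Nat.cast_sum, Finset.sum_div]
  refine Finset.sum_congr rfl fun d hd => ?_
  obtain ⟨x, hx, rfl⟩ := Finset.mem_image.1 hd
  have e : S.toFinset.filter (fun a => c a = c x) = {y | IsConj x y}.toFinset := Finset.ext fun y => by
    simp only [Finset.mem_filter, Set.mem_toFinset, Set.mem_setOf_eq]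
    exact ⟨fun h => hA _ _ h.2.symm, fun h => ⟨hS x y h (Set.mem_toFinset.1 hx), (c_eq_of_isConj h).symm⟩⟩
  have a : (c x : ℚ) ≠ 0 := by exact_mod_cast (c_pos x).ne'
  have b : (Nat.card G : ℚ) ≠ 0 := by exact_mod_cast Nat.card_pos.ne'
  rw [e, ← Nat.card_eq_card_toFinset, div_eq_div_iff a b, one_mul]
  exact_mod_cast (card_cls x).symm

/-- `sum_eq` for `S = univ`, `sum_inv_le` for `T ∪ E`. -/
theorem Dis.excl (hA : Dis G) (P : Finset ℕ) (hP : ∀ p ∈ P, p.Prime)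
    (hG : ∀ q : ℕ, q.Prime → q ∣ Nat.card G → q ∈ P) (E : Finset ℕ)
    (hE : ∀ d ∈ E, d ≠ 0 ∧ ∀ q : ℕ, q.Prime → q ∣ d → q ∈ P) (hx : ∀ x : G, c x ∉ E) :
    1 + ∑ d ∈ E, (1 / d : ℚ) ≤ ∏ p ∈ P, (p / (p - 1) : ℚ) := by
  obtain ⟨T, h1, h2⟩ := hA.sum_eq Set.univ fun _ _ _ _ => trivial
  have b : (Nat.card G : ℚ) ≠ 0 := by exact_mod_cast Nat.card_pos.ne'
  rw [Nat.card_univ, div_self b] at h2
  refine (add_le_add_left h2.ge _).trans ?_
  rw [← Finset.sum_union (Finset.disjoint_left.2 fun d hd => by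
    obtain ⟨x, -, rfl⟩ := (h1 d).1 hd
    exact hx x)]
  refine sum_inv_le P hP _ fun d hd => (Finset.mem_union.1 hd).elim (fun hd => ?_) (hE d)
  obtain ⟨x, -, rfl⟩ := (h1 d).1 hd
  exact ⟨(c_pos x).ne', fun q hq h => hG q hq (h.trans (c_dvd_card x))⟩

/-- `sum_eq` for `S = {x | 4 ∣ o(x)}`; all `d ∈ T` are `4 m`; `sum_inv_le` for `T / 4 ∪ E`. -/
theorem Dis.excl4 (hA : Dis G) (P : Finset ℕ) (hP : ∀ p ∈ P, p.Prime)
    (hG : ∀ q : ℕ, q.Prime → q ∣ Nat.card G → q ∈ P)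
    (hm : 3 * Nat.card G ≤ 4 * Nat.card {x : G | 4 ∣ orderOf x}) (E : Finset ℕ)
    (hE : ∀ d ∈ E, d ≠ 0 ∧ ∀ q : ℕ, q.Prime → q ∣ d → q ∈ P) (hx : ∀ x : G, ∀ m ∈ E, c x ≠ 4 * m) :
    3 + ∑ d ∈ E, (1 / d : ℚ) ≤ ∏ p ∈ P, (p / (p - 1) : ℚ) := by
  obtain ⟨T, h1, h2⟩ := hA.sum_eq {x : G | 4 ∣ orderOf x} fun x y h hx => by
    obtain ⟨g, rfl⟩ := isConj_iff.1 h
    change 4 ∣ orderOf (MulAut.conj g x)
    rwa [MulEquiv.orderOf_eq]
  have b : (0 : ℚ) < Nat.card G := by exact_mod_cast Nat.card_pos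
  have k : ∀ d ∈ T, ∃ x : G, c x = d ∧ d = 4 * (d / 4) := fun d hd => by
    obtain ⟨x, hx, rfl⟩ := (h1 d).1 hd
    exact ⟨x, rfl, (Nat.mul_div_cancel' (hx.trans (orderOf_dvd_c x))).symm⟩
  have a : 3 ≤ ∑ d ∈ T.image (fun d : ℕ => (d / 4 : ℕ)), (1 / (d : ℕ) : ℚ) := by
    rw [Finset.sum_image fun d hd e he h => by
      obtain ⟨-, -, h1⟩ := k d hd
      obtain ⟨-, -, h2⟩ := k e he
      rw [h1, h2]; exact congrArg (4 * ·) h]
    have : ∑ d ∈ T, (1 / (d / 4 : ℕ) : ℚ) = 4 * ∑ d ∈ T, (1 / d : ℚ) := by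
      rw [Finset.mul_sum]
      refine Finset.sum_congr rfl fun d hd => ?_
      obtain ⟨-, -, h⟩ := k d hd
      generalize d / 4 = m at h
      rw [h]; push_cast; rw [mul_one_div, div_mul_cancel_left₀ (by norm_num), one_div]
    rw [this, h2, ← mul_div_assoc, le_div_iff₀ b]
    exact_mod_cast hm
  refine (add_le_add_left a _).trans ?_
  rw [← Finset.sum_union (Finset.disjoint_left.2 fun m hm hE => by
    obtain ⟨d, hd, rfl⟩ := Finset.mem_image.1 hm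
    obtain ⟨x, e, h⟩ := k d hd
    exact hx x _ hE (e.trans h))]
  refine sum_inv_le P hP _ fun m hm => (Finset.mem_union.1 hm).elim (fun hm => ?_) (hE m)
  obtain ⟨d, hd, rfl⟩ := Finset.mem_image.1 hm
  obtain ⟨x, e, h⟩ := k d hd
  have := c_pos x
  exact ⟨by omega, fun q hq h' => hG q hq ((h'.trans ⟨4, by omega⟩).trans (c_dvd_card x))⟩

end Cfsg.Agent.AH
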