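import Mathlib
import Cfsg.Agent.AH.Sum
import Cfsg.Agent.Grp.SelfCentPrime

/-! S4162: self-centralising elements of order `2` and `3`. -/

set_option autoImplicit false

namespace Cfsg.Agent.AH
open Cfsg Cfsg.Agent.FT Subgroup

variable {G : Type*} [Group G] [Finite G]

theorem s3_cent {x : G} {p : ℕ} (hp : p.Prime) (x1 : x ≠ 1) (h : c x = p) :
    orderOf x = p ∧ centralizer ({x} : Set G) = zpowers x := by
  have ho : orderOf x = p := ((Nat.dvd_prime hp).1 (h ▸ orderOf_dvd_c x)).resolve_left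
    fun e => x1 (orderOf_eq_one_iff.1 e)
  refine ⟨ho, (eq_of_le_of_card_ge (zpowers_le.2 (mem_centralizer_singleton_iff.2 rfl)) ?_).symm⟩
  rw [Nat.card_zpowers, ho]
  exact h.le

theorem s3_equiv {t k : G} (h6 : Nat.card G = 6) (ho : orderOf t = 2) (nc : k * t ≠ t * k) :
    Nonempty (G ≃* Equiv.Perm (Fin 3)) := by
  have hi : (zpowers t).index = 3 := by
    have := (zpowers t).card_mul_index
    rw [Nat.card_zpowers, ho, h6] at this
    omega
  have e : (G ⧸ zpowers t) ≃ Fin 3 := Finite.equivFinOfCardEq hi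
  have t2 : t * t = 1 := by rw [← sq, ← ho, pow_orderOf_eq_one]
  have hz : ∀ y ∈ zpowers t, y = 1 ∨ y = t := fun y hy => by
    classical
    rw [mem_zpowers_iff_mem_range_orderOf, ho] at hy
    simp only [Finset.mem_image, Finset.mem_range] at hy
    obtain ⟨i, hi, rfl⟩ := hy
    interval_cases i <;> simp
  have hk : (MulAction.toPermHom G (G ⧸ zpowers t)).ker = ⊥ := by
    rw [← normalCore_eq_ker, eq_bot_iff]
    intro y hy
    rcases hz y (normalCore_le _ hy) with rfl | rfl
    · exact one_mem _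
    · exfalso
      rcases hz _ (hy k) with r | r
      · rw [conj_eq_one_iff] at r
        rw [r, orderOf_one] at ho
        omega
      · exact nc (mul_inv_eq_iff_eq_mul.1 r)
  refine ⟨MulEquiv.ofBijective (e.permCongrHom.toMonoidHom.comp
    (MulAction.toPermHom G (G ⧸ zpowers t))) ?_⟩
  rw [Nat.bijective_iff_injective_and_card]
  exact ⟨e.permCongrHom.injective.comp ((MonoidHom.ker_eq_bot_iff _).1 hk), by
    rw [h6, Nat.card_perm, Nat.card_fin]; rfl⟩

/-- `|G| ≠ 2` (`Dis.eq_one`), so `t ≠ 1`, `o(t) = 2`, `C(t) = ⟨t⟩` is a Sylow subgroup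
(`Grp.SelfCent.not_dvd_index`), `4 ∤ |G|`.  `K` of index `2` (`exists_index_two`) has odd order,
`t ∉ K`.  The class of `t` has `|G| / 2` elements and lies in `G \ K`, so equals it: `t k` is an
involution for `k ∈ K`, `t` inverts `K`, `K` is abelian, `C(k) = K` for `1 ≠ k ∈ K`; all such `k` are
conjugate, the class of `k` is `{k, k⁻¹}`, so `|K| = 3`.  `G` is non-abelian of order `6`
(library: `ca find "card .* = 6"`; or act on the three conjugates of `t` / cosets of `⟨t⟩`). -/
theorem s3_of_two (hA : Dis G) (hs : Group.IsSolvable G) {t : G} (ht : c t = 2) :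
    Nonempty (G ≃* Equiv.Perm (Fin 3)) := by
  have := Fact.mk Nat.prime_two
  have hd : 2 ∣ Nat.card G := ht ▸ c_dvd_card t
  have : Nontrivial G := Finite.one_lt_card_iff_nontrivial.1
    (lt_of_lt_of_le one_lt_two (Nat.le_of_dvd Nat.card_pos hd))
  have n2 : Nat.card G ≠ 2 := fun e => by
    obtain ⟨g, hg⟩ := exists_ne (1 : G)
    rcases (Nat.dvd_prime Nat.prime_two).1 (e ▸ c_dvd_card g) with r | r
    · exact hg (orderOf_eq_one_iff.1 (Nat.dvd_one.1 (r ▸ orderOf_dvd_c g)))
    · exact hg (hA.eq_one (r.trans e.symm))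
  have t1 : t ≠ 1 := fun e => n2 (by rw [← c_one, ← e, ht])
  obtain ⟨ho, hC⟩ := s3_cent Nat.prime_two t1 ht
  have t2 : t * t = 1 := by rw [← sq, ← ho, pow_orderOf_eq_one]
  have ti : t⁻¹ = t := inv_eq_of_mul_eq_one_right t2
  obtain ⟨K, hK⟩ := hA.rat.exists_index_two hs
  have : K.Normal := normal_of_index_eq_two hK
  have cK := K.card_mul_index
  rw [hK] at cK
  have oK : ¬ 2 ∣ Nat.card K := by
    have h1 := (zpowers t).card_mul_index
    have h2 := Grp.SelfCent.not_dvd_index ho hC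
    rw [Nat.card_zpowers, ho] at h1
    omega
  have tK : t ∉ K := fun h => oK (ho ▸ K.orderOf_dvd_natCard h)
  have inv : ∀ s ∈ K, t * s * t⁻¹ = s⁻¹ := fun s hs => by
    obtain ⟨u, -, rfl⟩ := Grp.SelfCent.exists_comm_eq ho hC (S := K)
      (by rw [normalizer_eq_top]; trivial) oK hs
    calc t * (u * t * u⁻¹ * t⁻¹) * t⁻¹ = t * u * t * u⁻¹ * (t * t)⁻¹ := by group
      _ = t * u * t⁻¹ * u⁻¹ := by rw [t2, ti, inv_one, mul_one]
      _ = _ := by group
  have ab : ∀ a ∈ K, ∀ b ∈ K, a * b = b * a := fun a ha b hb => by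
    have := inv _ (mul_mem ha hb)
    rw [← conj_mul, inv a ha, inv b hb, ← mul_inv_rev, inv_inj] at this
    exact this.symm
  have cl : ∀ k ∈ K, ∀ g : G, (g ∈ K ∧ g * k * g⁻¹ = k) ∨ g * k * g⁻¹ = k⁻¹ := fun k hk g => by
    by_cases hg : g ∈ K
    · exact Or.inl ⟨hg, by rw [ab g hg k hk, mul_inv_cancel_right]⟩
    · have h1 : t * g ∈ K := by rw [mul_mem_iff_of_index_two hK]; tauto
      right
      calc g * k * g⁻¹ = t⁻¹ * (t * g * k * (t * g)⁻¹) * t⁻¹⁻¹ := by group
        _ = k⁻¹ := by rw [ab _ h1 k hk, mul_inv_cancel_right, ti, inv k hk]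
  have ni : ∀ k ∈ K, k = k⁻¹ → k = 1 := fun k hk e => by
    refine Grp.SelfCent.eq_one_of_commute ho hC oK hk ?_
    have := inv k hk
    rw [← e, mul_inv_eq_iff_eq_mul] at this
    exact this.symm
  have ck : ∀ k ∈ K, k ≠ 1 → c k = Nat.card K := fun k hk k1 => by
    have : centralizer ({k} : Set G) = K := by
      ext g
      rw [mem_centralizer_singleton_iff]
      refine ⟨fun h => ?_, fun h => ab g h k hk⟩
      rcases cl k hk g with r | r
      · exact r.1
      · rw [h, mul_inv_cancel_right] at r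
        exact absurd (ni k hk r) k1
    rw [c, this]
  obtain ⟨k, hk, k1⟩ : ∃ k ∈ K, k ≠ 1 := by
    by_contra h
    push Not at h
    rw [(eq_bot_iff_forall K).2 h, card_bot] at cK
    omega
  have k3 : Nat.card K ≤ 3 := by
    classical
    have h1 : (K : Set G) ⊆ ({1, k, k⁻¹} : Finset G) := fun y hy => by
      by_cases y1 : y = 1
      · simp [y1]
      obtain ⟨g, rfl⟩ := isConj_iff.1 (hA k y ((ck k hk k1).trans (ck y hy y1).symm))
      rcases cl k hk g with r | r
      · simp [r.2]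
      · simp [r]
    have h2 := Set.ncard_le_ncard h1
    rw [Set.ncard_coe_finset] at h2
    exact h2.trans Finset.card_le_three
  have : Nat.card K ≠ 1 := fun e => by omega
  exact s3_equiv (k := k) (by omega) ho fun e =>
    k1 (Grp.SelfCent.eq_one_of_commute ho hC oK hk e)

/-- Let `c x = 3`.  `|G|` is even (`exists_index_two`), so `x ≠ 1`, `o(x) = 3`, `C(x) = ⟨x⟩`.  If
`3 ∣ c y`, `y` commutes with an element `v` of order `3`, `c v = 3`
(`Grp.SelfCent.card_centralizer`), `y ∈ ⟨v⟩`, so `c y ∈ {3, |G|}`.  The other values of `c` are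
powers of `2`, not `1`, `2`; `Dis.sum_eq`, `sum_inv_le` (`P = {2}`, add `{1, 2}`):
`1 ≤ 1/3 + 1/|G| + 1/2`, so `|G| = 6`, and an involution `s` has `c s ∣ 6`, `2 ∣ c s`, `c s = 6`,
`Dis.eq_one`. -/
theorem not_three (hA : Dis G) (hs : Group.IsSolvable G)
    (h23 : ∀ q : ℕ, q.Prime → q ∣ Nat.card G → q ≤ 3) (h1 : ∀ x : G, c x ≠ 1) (h2 : ∀ x : G, c x ≠ 2)
    (x : G) : c x ≠ 3 := by
  intro hx
  classical
  have := Fact.mk Nat.prime_three
  have := Fact.mk Nat.prime_two
  have hd : 3 ∣ Nat.card G := hx ▸ c_dvd_card x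
  have hpos : 0 < Nat.card G := Nat.card_pos
  have : Nontrivial G := Finite.one_lt_card_iff_nontrivial.1
    (lt_of_lt_of_le (by norm_num) (Nat.le_of_dvd hpos hd))
  obtain ⟨K, hK⟩ := hA.rat.exists_index_two hs
  have h2d : 2 ∣ Nat.card G := hK ▸ K.index_dvd_card
  have x1 : x ≠ 1 := fun e => by
    rw [e, c_one] at hx
    omega
  obtain ⟨ho, hC⟩ := s3_cent Nat.prime_three x1 hx
  have key : ∀ y : G, 3 ∣ c y → c y = 3 ∨ c y = Nat.card G := fun y hy => by
    by_cases y1 : y = 1
    · right; rw [y1, c_one]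
    obtain ⟨v, hv, ov⟩ := exists_commute_of_dvd_c Nat.prime_three hy
    have h3 : c v = 3 := Grp.SelfCent.card_centralizer ho hC ov
    exact Or.inl (Grp.SelfCent.card_centralizer ho hC (((Nat.dvd_prime Nat.prime_three).1
      (h3 ▸ orderOf_dvd_c_of_commute hv.symm)).resolve_left fun e => y1 (orderOf_eq_one_iff.1 e)))
  obtain ⟨T, hT, hsum⟩ := hA.sum_eq Set.univ (fun _ _ _ _ => trivial)
  rw [Nat.card_univ, div_self (by positivity), ← Finset.sum_filter_add_sum_filter_not T (3 ∣ ·)]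
    at hsum
  have a1 : ∑ d ∈ T.filter (3 ∣ ·), (1 / d : ℚ) ≤ 1 / 3 + 1 / Nat.card G := by
    refine (Finset.sum_le_sum_of_subset_of_nonneg (t := {3, Nat.card G}) (fun d hd => ?_)
      (fun _ _ _ => by positivity)).trans ?_
    · obtain ⟨y, -, rfl⟩ := (hT d).1 (Finset.mem_filter.1 hd).1
      simpa using key y (Finset.mem_filter.1 hd).2
    · rw [Finset.sum_pair (by omega)]
      norm_num
  have a2 := sum_inv_le {2} (by simpa using Nat.prime_two)
    (insert 1 (insert 2 (T.filter (¬ 3 ∣ ·)))) (fun d hd => by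
      simp only [Finset.mem_insert, Finset.mem_filter, Finset.mem_singleton] at hd ⊢
      rcases hd with rfl | rfl | ⟨hd, h3⟩
      · exact ⟨one_ne_zero, fun q hq h => absurd (Nat.dvd_one.1 h) hq.ne_one⟩
      · exact ⟨two_ne_zero, fun q hq h => (Nat.prime_dvd_prime_iff_eq hq Nat.prime_two).1 h⟩
      · obtain ⟨y, -, rfl⟩ := (hT d).1 hd
        refine ⟨(c_pos y).ne', fun q hq h => ?_⟩
        have b1 := h23 q hq (h.trans (c_dvd_card y))
        have b2 := hq.two_le
        have b3 : q ≠ 3 := fun e => h3 (e ▸ h)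
        omega)
  have n1 : 2 ∉ T.filter (¬ 3 ∣ ·) := fun h => by
    obtain ⟨y, -, e⟩ := (hT 2).1 (Finset.mem_filter.1 h).1
    exact h2 y e
  have n2 : 1 ∉ insert 2 (T.filter (¬ 3 ∣ ·)) := fun h => by
    rcases Finset.mem_insert.1 h with h | h
    · omega
    · obtain ⟨y, -, e⟩ := (hT 1).1 (Finset.mem_filter.1 h).1
      exact h1 y e
  rw [Finset.sum_insert n2, Finset.sum_insert n1, Finset.prod_singleton] at a2
  have a3 : (1 / 6 : ℚ) ≤ 1 / Nat.card G := by
    norm_num at a1 a2 hsum ⊢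
    linarith
  have a4 : Nat.card G ≤ 6 := by
    rw [one_div_le_one_div (by norm_num) (by positivity)] at a3
    exact_mod_cast a3
  have h6 : Nat.card G = 6 := by omega
  obtain ⟨s, os⟩ := exists_prime_orderOf_dvd_card' 2 h2d
  have b1 := c_dvd_card s
  have b2 := orderOf_dvd_c s
  have b3 := h2 s
  have b4 := c_pos s
  rw [h6] at b1
  rw [os] at b2
  have b5 := Nat.le_of_dvd (by norm_num) b1
  have b6 : c s = 6 := by
    generalize c s = n at *
    interval_cases n <;> omega
  rw [hA.eq_one (b6.trans h6.symm), orderOf_one] at os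
  omega

end Cfsg.Agent.AH
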