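import Mathlib
import Cfsg.Agent.AH.Dual

/-! S4162: API of `Top p W H`. -/

set_option autoImplicit false

namespace Cfsg.Agent.AH.Top
open Cfsg Cfsg.Agent.FT Subgroup

variable {Γ : Type*} [Group Γ] {p : ℕ} {W H : Subgroup Γ} (t : Top p W H)
include t

theorem decomp (g : Γ) : ∃ w ∈ W, ∃ h ∈ H, g = w * h :=
  have := t.normal
  Solv.exists_mul_of_isComplement' t.compl g

theorem comm {a b : Γ} (ha : a ∈ W) (hb : b ∈ W) : Commute a b :=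
  (le_cent_iff.mp (abelian_iff.mp t.elem.1) a ha b hb :)

theorem pow {w : Γ} (hw : w ∈ W) : w ^ p = 1 := t.elem.2 w hw

theorem ord {w : Γ} (hw : w ∈ W) (h1 : w ≠ 1) : orderOf w = p :=
  have := Fact.mk t.prime
  orderOf_eq_prime (t.pow hw) h1

theorem conj_mem {w : Γ} (hw : w ∈ W) (g : Γ) : g * w * g⁻¹ ∈ W := t.normal.conj_mem w hw g

theorem le_norm (B : Subgroup Γ) : B ≤ 𝒩(W) := by
  have := t.normal
  rw [normalizer_eq_top]; exact le_top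

theorem exists_ne : ∃ w ∈ W, w ≠ 1 := by
  by_contra! h
  exact t.ne ((eq_bot_iff_forall _).mpr h)

theorem eq_of_mem {a b : Γ} (ha : a ∈ H) (hb : b ∈ H) (h : a * b⁻¹ ∈ W) : a = b :=
  mul_inv_eq_one.mp (disjoint_def.mp t.compl.disjoint h (H.mul_mem ha (H.inv_mem hb)))

theorem card : Nat.card Γ = Nat.card W * Nat.card H := t.compl.card_mul.symm

theorem not_dvd_ord {h : Γ} (hh : h ∈ H) : ¬ p ∣ orderOf h :=
  fun hd => t.ndvd (hd.trans (H.orderOf_dvd_natCard hh))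

theorem solvH {K : Subgroup Γ} : Group.IsSolvable K :=
  have := t.solv
  inferInstance

/-- Elements of `H` acting in the same way on `W` are equal. -/
theorem eq_of_act {a b : Γ} (ha : a ∈ H) (hb : b ∈ H)
    (h : ∀ w ∈ W, a * w * a⁻¹ = b * w * b⁻¹) : a = b := by
  have : b⁻¹ * a ∈ H ⊓ 𝒞(W) := ⟨H.mul_mem (H.inv_mem hb) ha, mem_cent_iff.mpr fun w hw => by
    have := h w hw
    calc w * (b⁻¹ * a) = b⁻¹ * (b * w * b⁻¹) * a := by group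
      _ = b⁻¹ * a * w := by rw [← this]; group⟩
  rw [t.faith, mem_bot] at this
  exact (inv_mul_eq_one.mp this).symm

theorem exists_pr : ∃ π : Γ →* H, Function.Surjective π ∧ (∀ h : H, π h = h) ∧ π.ker = W := by
  choose w hw h hh e using t.decomp
  have key : ∀ g, g * (h g)⁻¹ ∈ W := fun g => by
    have := hw g
    rwa [← mul_inv_eq_iff_eq_mul.mpr (e g)] at this
  have uq : ∀ g a, a ∈ H → g * a⁻¹ ∈ W → h g = a := fun g a ha hg =>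
    t.eq_of_mem (hh g) ha (by
      have := W.mul_mem (W.inv_mem (key g)) hg
      simpa [mul_assoc] using this)
  have h1 : ∀ a : H, h a = a := fun a => uq _ _ a.2 (by simp)
  refine ⟨MonoidHom.mk' (fun g => ⟨h g, hh g⟩) fun a b => Subtype.ext
    (uq _ _ (H.mul_mem (hh a) (hh b)) ?_), fun a => ⟨a, Subtype.ext (h1 a)⟩,
    fun a => Subtype.ext (h1 a), ?_⟩
  · have := W.mul_mem (t.conj_mem (key b) a) (key a)
    simpa [mul_assoc] using this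
  · ext g
    refine ⟨fun hg => ?_, fun hg => Subtype.ext (uq _ _ H.one_mem (by simpa using hg))⟩
    have h2 : h g = 1 := congrArg Subtype.val hg
    simpa [h2] using key g

theorem conjH {a b : Γ} (ha : a ∈ H) (hb : b ∈ H) (h : IsConj a b) : ∃ g ∈ H, g * a * g⁻¹ = b := by
  obtain ⟨π, -, h1, -⟩ := t.exists_pr
  obtain ⟨g, hg⟩ := isConj_iff.mp h
  have := congrArg (fun x => (π x : Γ)) hg
  simp only [map_mul, map_inv, h1 ⟨a, ha⟩, h1 ⟨b, hb⟩] at this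
  exact ⟨π g, (π g).2, this⟩

theorem inv_of_fpf {z : Γ} (h2 : z ^ 2 = 1) (hf : W ⊓ 𝒞[z] = ⊥) {w : Γ} (hw : w ∈ W) :
    z * w * z⁻¹ = w⁻¹ := by
  have hz : z⁻¹ = z := inv_eq_of_mul_eq_one_right (by rw [← sq, h2])
  have h1 : z * z = 1 := by rw [← sq, h2]
  have : w * (z * w * z⁻¹) ∈ W ⊓ 𝒞[z] := ⟨W.mul_mem hw (t.conj_mem hw z), mem_cent1_iff.mpr (by
    rw [show z * (w * (z * w * z⁻¹)) = (z * w * z⁻¹) * (z * z) * w * z⁻¹ by group, h1, mul_one,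
      ← (t.comm hw (t.conj_mem hw z)).eq, hz])⟩
  rw [hf, mem_bot] at this
  exact eq_inv_of_mul_eq_one_right this

theorem eq_of_fpf {z z' : Γ} (hz : z ∈ H) (h2 : z ^ 2 = 1) (hf : W ⊓ 𝒞[z] = ⊥) (hz' : z' ∈ H)
    (h2' : z' ^ 2 = 1) (hf' : W ⊓ 𝒞[z'] = ⊥) : z = z' :=
  t.eq_of_act hz hz' fun _ hw => (t.inv_of_fpf h2 hf hw).trans (t.inv_of_fpf h2' hf' hw).symm

theorem central_of_fpf {z : Γ} (hz : z ∈ H) (h2 : z ^ 2 = 1) (hf : W ⊓ 𝒞[z] = ⊥) {g : Γ}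
    (hg : g ∈ H) : Commute g z := by
  have : g * z * g⁻¹ = z := t.eq_of_act (H.mul_mem (H.mul_mem hg hz) (H.inv_mem hg)) hz
    fun w hw => by
      have := t.inv_of_fpf h2 hf (t.conj_mem hw g⁻¹)
      rw [t.inv_of_fpf h2 hf hw,
        show g * z * g⁻¹ * w * (g * z * g⁻¹)⁻¹ = g * (z * (g⁻¹ * w * g⁻¹⁻¹) * z⁻¹) * g⁻¹ by group,
        this]
      group
  exact mul_inv_eq_iff_eq_mul.mp this

variable [Finite Γ]

theorem ratH : RatG H := by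
  obtain ⟨π, h, -⟩ := t.exists_pr
  exact t.rat.map π h

theorem invH {a : Γ} (ha : a ∈ H) : ∃ g ∈ H, g * a * g⁻¹ = a⁻¹ :=
  t.conjH ha (H.inv_mem ha) (t.rat.inv a)

omit t [Finite Γ] in
theorem c_coe (x : H) : c x = cH H x := by
  rw [c, cH, ← card_map_of_injective H.subtype_injective]
  congr 2
  ext g
  simp only [mem_map, mem_inf, mem_cent1_iff]
  exact ⟨by rintro ⟨a, ha, rfl⟩; exact ⟨a.2, congrArg Subtype.val ha⟩,
    fun h => ⟨⟨g, h.1⟩, Subtype.ext h.2, rfl⟩⟩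

theorem rn {x : Γ} (hx : x ∈ H) : (orderOf x).totient * cH H x ∣ Nat.card H := by
  have := t.ratH.rn ⟨x, hx⟩
  rwa [c_coe, orderOf_mk] at this

omit t in
theorem ord_dvd_cH {x v : Γ} (hv : v ∈ H) (h : Commute v x) : orderOf v ∣ cH H x :=
  orderOf_dvd_natCard (H ⊓ 𝒞[x]) ⟨hv, mem_cent1_iff.mpr h⟩

theorem ep {y w : Γ} (hy : y ∈ H) (hw : w ∈ W) (hc : Commute w y) {k : ℕ} (hk : ¬ p ∣ k) :
    ∃ g ∈ H, Commute g y ∧ g * w * g⁻¹ = w ^ k := by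
  by_cases h1 : w = 1
  · exact ⟨1, H.one_mem, Commute.one_left _, by simp [h1]⟩
  obtain ⟨g, h2, h3⟩ := t.rat.conj_cent hc (k := k)
    (by rw [t.ord hw h1]; exact t.prime.coprime_iff_not_dvd.mpr (t.not_dvd_ord hy))
    (by rw [t.ord hw h1]; exact (t.prime.coprime_iff_not_dvd.mpr hk).symm)
  obtain ⟨v, hv, h, hh, rfl⟩ := t.decomp g
  refine ⟨h, hh, mul_inv_eq_iff_eq_mul.mp (t.eq_of_mem (H.mul_mem (H.mul_mem hh hy) (H.inv_mem hh))
    hy ?_), ?_⟩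
  · have : h * y * h⁻¹ * y⁻¹ = v⁻¹ * (y * v * y⁻¹) := by
      rw [show h * y * h⁻¹ * y⁻¹ = v⁻¹ * (v * h * y) * h⁻¹ * y⁻¹ by group, h2.eq]; group
    rw [this]
    exact W.mul_mem (W.inv_mem hv) (t.conj_mem hv y)
  · rw [← h3, show v * h * w * (v * h)⁻¹ = v * (h * w * h⁻¹) * v⁻¹ by group,
      (t.comm hv (t.conj_mem hw h)).eq, mul_inv_cancel_right]

theorem ns {M : Subgroup Γ} (hM : M ≤ H) {g : Γ} (hg : g ∈ H) (h0 : W ⊓ 𝒞(M) ≠ ⊥) {k : ℕ}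
    (h : ∀ u ∈ W ⊓ 𝒞(M), g * u * g⁻¹ = u ^ k) : k ^ 2 ≡ 1 [MOD p] :=
  have := t.normal
  AH.ns t.rat.inv t.prime t.elem (fun hd => t.ndvd (hd.trans
    (card_dvd_of_le (sup_le hM (zpowers_le.mpr hg))))) h0 h

theorem ep_prim {y w : Γ} (hy : y ∈ H) (hw : w ∈ W) (h1 : w ≠ 1) (hc : Commute w y) :
    ∃ g ∈ H, Commute g y ∧ (∃ k : ℕ, g * w * g⁻¹ = w ^ k) ∧
      ∀ j : ℕ, Commute (g ^ j) w ↔ p - 1 ∣ j := by
  have := Fact.mk t.prime
  obtain ⟨k, hk⟩ := IsCyclic.exists_ofOrder_eq_natCard (α := (ZMod p)ˣ)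
  rw [Nat.card_eq_fintype_card, ZMod.card_units] at hk
  obtain ⟨g, hg, h2, h3⟩ := t.ep hy hw hc (k := (k : ZMod p).val) fun h =>
    k.ne_zero ((ZMod.val_eq_zero _).mp (Nat.eq_zero_of_dvd_of_lt h (ZMod.val_lt _)))
  refine ⟨g, hg, h2, ⟨_, h3⟩, fun j => ?_⟩
  rw [← hk, orderOf_dvd_iff_pow_eq_one, commute_iff_eq, ← mul_inv_eq_iff_eq_mul,
    conj_pow_iter h3 j]
  conv_lhs => rw [← pow_one w, ← pow_mul, one_mul, pow_eq_pow_iff_modEq, t.ord hw h1]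
  rw [← ZMod.natCast_eq_natCast_iff, ← Units.val_inj]
  simp

theorem exists_ord : ∃ g ∈ H, p - 1 ∣ orderOf g := by
  obtain ⟨w, hw, h1⟩ := t.exists_ne
  obtain ⟨g, hg, -, -, h⟩ := t.ep_prim H.one_mem hw h1 (Commute.one_right _)
  exact ⟨g, hg, (h _).mp (by rw [pow_orderOf_eq_one]; exact Commute.one_left _)⟩

theorem dvd_cH {y : Γ} (hy : y ∈ H) (h0 : W ⊓ 𝒞[y] ≠ ⊥) : (p - 1) * orderOf y ∣ cH H y := by
  obtain ⟨⟨w, hw, hc⟩, h1⟩ := ne_bot_iff_exists_ne_one.mp h0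
  have hc : Commute w y := mem_cent1_iff.mp hc
  obtain ⟨g, hg, h2, -, h⟩ := t.ep_prim hy hw (fun e => h1 (Subtype.ext e)) hc
  have hA : IsMulCommutative (zpowers g ⊔ zpowers y : Subgroup Γ) :=
    abelian_sup inferInstance inferInstance (by
      rw [cent_zpowers, zpowers_le]; exact mem_cent1_iff.mpr h2)
  set A : Subgroup Γ := zpowers g ⊔ zpowers y
  have h3 : A ≤ H ⊓ 𝒞[y] := sup_le (zpowers_le.mpr ⟨hg, mem_cent1_iff.mpr h2⟩)
    (zpowers_le.mpr ⟨hy, mem_cent1_self y⟩)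
  refine Dvd.dvd.trans ?_ (card_dvd_of_le h3)
  rw [← (𝒞[w].subgroupOf A).index_mul_card]
  refine mul_dvd_mul ((h _).mp ?_) ?_
  · have := (𝒞[w].subgroupOf A).pow_index_mem ⟨g, mem_sup_left (mem_zpowers g)⟩
    exact mem_cent1_iff.mp this
  · have := orderOf_dvd_natCard (𝒞[w].subgroupOf A) (x := ⟨y, mem_sup_right (mem_zpowers y)⟩)
      (mem_cent1_iff.mpr hc.symm)
    rwa [orderOf_mk] at this

theorem conj_into {x : Γ} (hx : ¬ p ∣ orderOf x) : ∃ h ∈ H, IsConj x h := by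
  have := Fact.mk t.prime
  obtain ⟨π, -, h1, h2⟩ := t.exists_pr
  obtain ⟨k, -, hk⟩ := Solv.exists_conj_eq_of_coprime (zpowers x) (zpowers (π x : Γ)) W
    (t.le_norm _) (Solv.coprime_card_of_isPGroup (Grp.isPGroup_of_pow_eq_one t.elem.2) (by
      rw [Nat.card_zpowers]; exact (t.prime.coprime_iff_not_dvd.mpr hx).symm))
    (Or.inr t.solvH) (by
      rw [Nat.card_zpowers, Nat.card_zpowers, orderOf_coe]
      exact Nat.le_of_dvd (orderOf_pos x) (orderOf_map_dvd π x)) (by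
      rintro _ ⟨i, rfl⟩
      refine ⟨x ^ i * ((π x ^ i)⁻¹ : H), ?_, i, by simp⟩
      rw [← h2, MonoidHom.mem_ker, map_mul, h1, map_zpow, mul_inv_cancel])
  refine ⟨k * x * k⁻¹, ?_, isConj_iff.mpr ⟨k, rfl⟩⟩
  have : k * x * k⁻¹ ∈ zpowers (π x : Γ) := hk ▸ conj_mem_cj.mpr (mem_zpowers x)
  exact zpowers_le.mpr (π x).2 this

theorem red {x : Γ} (hx : c x < p ^ 2) : ∃ h ∈ H, IsConj x h ∧ W ⊓ 𝒞[h] = ⊥ ∧ cH H h ≤ c x := by
  have := t.normal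
  have key : ∀ {x y : Γ}, c x < p ^ 2 → ¬ p ∣ orderOf y → W ⊓ 𝒞[y] ≤ 𝒞[x] → W ⊓ 𝒞[y] = ⊥ := by
    intro x y hx hy hle
    by_contra h0
    exact absurd (Nat.le_of_dvd (c_pos x) ((sq_dvd t.rat t.prime t.ge t.elem hy h0).trans
      (card_dvd_of_le hle))) (not_le.mpr hx)
  obtain ⟨i, j, e, ⟨n, hn⟩, hj, -⟩ := exists_parts x t.prime 0 (M := 1) t.prime.not_dvd_one
  obtain ⟨π, -, h1, h2⟩ := t.exists_pr
  have hi : x ^ i ∈ W := by
    rw [← h2, MonoidHom.mem_ker, ← orderOf_eq_one_iff]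
    exact Nat.eq_one_of_dvd_coprimes ((t.prime.coprime_iff_not_dvd.mpr t.ndvd).pow_left n)
      (hn ▸ orderOf_map_dvd π _) (orderOf_dvd_natCard _)
  have h3 := key hx hj fun w hw => mem_cent1_iff.mpr (by
    rw [← e]; exact ((t.comm hw.1 hi).mul_right (mem_cent1_iff.mp hw.2)).eq)
  have h4 : x ^ i = 1 := (eq_bot_iff_forall _).mp h3 _
    ⟨hi, mem_cent1_iff.mpr (Commute.pow_pow_self x i j).eq⟩
  rw [h4, one_mul] at e
  obtain ⟨h, hh, hc⟩ := t.conj_into (e ▸ hj)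
  rw [c_eq_of_isConj hc] at hx ⊢
  exact ⟨h, hh, hc, key hx (t.not_dvd_ord hh) inf_le_right, card_le_of_le inf_le_right⟩

end Cfsg.Agent.AH.Top
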