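import Mathlib
import Cfsg.Agent.AH.TopA
import Cfsg.Agent.Solv.FrobeniusAction

/-! S4162: the semiregular section of `Top`. -/

set_option autoImplicit false

namespace Cfsg.Agent.AH
open Cfsg Cfsg.Agent.FT Subgroup

variable {Γ : Type*} [Group Γ] [Finite Γ] {p : ℕ} {W H : Subgroup Γ}

/-- `Y = H ⊓ C(w₀)` maximal among the `H ⊓ C(w)`, `1 ≠ w ∈ W`; `U = W ⊓ C(Y) ∋ w₀`,
`N = H ⊓ N(Y) ≤ N(U)`, `X = (Solv.Frob.conjHom U N _).range`.  For `1 ≠ u ∈ U`: `H ⊓ C(u) = Y` by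
maximality.  `fpf`: `a ∈ N` fixing `u ≠ 1` is in `Y`, so acts trivially.  `ep`: `Top.ep` with `y = 1`
gives `g ∈ H`, `g u g⁻¹ = u ^ k`; `C(u ^ k) = C(u)`, so `g` normalises `H ⊓ C(u) = Y`.
`ns`: `Top.ns` with `M = Y`. -/
theorem Top.exists_semi (t : Top p W H) :
    ∃ (U : Subgroup Γ) (X : Subgroup (MulAut U)), Semi p X.subtype ∧ Nat.card X ∣ Nat.card H := by
  obtain ⟨w₀, ⟨w1, w2⟩, hm⟩ := Set.exists_max_image {w | w ∈ W ∧ w ≠ 1}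
    (fun w => Nat.card (H ⊓ 𝒞[w] : Subgroup Γ)) (Set.toFinite _) t.exists_ne
  set Y := H ⊓ 𝒞[w₀] with hY
  have eY : ∀ u ∈ W ⊓ 𝒞(Y), u ≠ 1 → H ⊓ 𝒞[u] = Y := fun u hu u1 =>
    (eq_of_le_of_card_ge (le_inf inf_le_left (le_cent1_iff.2 hu.2)) (hm u ⟨hu.1, u1⟩)).symm
  have nU : H ⊓ 𝒩(Y) ≤ 𝒩(W ⊓ 𝒞(Y)) := fun g hg => by
    rw [← cj_eq_iff, cj_inf, cj_centralizer, cj_eq_iff.2 hg.2, cj_eq_iff.2 (t.le_norm H hg.1)]
  let φ := Solv.Frob.conjHom _ _ nU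
  refine ⟨W ⊓ 𝒞(Y), φ.range, ⟨t.prime, t.ge, ?_, fun a b => Subtype.ext (t.comm a.2.1 b.2.1),
    fun u => Subtype.ext (t.pow u.2.1), ?_, ?_, fun u k hk => ?_, ?_⟩, ?_⟩
  · exact ⟨⟨w₀, w1, le_cent1_iff.1 inf_le_right⟩, 1, fun e => w2 (congrArg Subtype.val e)⟩
  · have := t.solvH (K := H ⊓ 𝒩(Y))
    exact Group.isSolvable_of_surjective φ.rangeRestrict_surjective
  · rintro ⟨_, a, rfl⟩ v e
    refine or_iff_not_imp_right.2 fun v1 => Subtype.ext (MulEquiv.ext fun u => Subtype.ext ?_)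
    have e1 : a.1 * v.1 * a.1⁻¹ = v.1 := congrArg Subtype.val e
    have : a.1 ∈ Y := (eY v v.2 fun e => v1 (Subtype.ext e)).le
      ⟨a.2.1, mem_cent1_iff.2 (mul_inv_eq_iff_eq_mul.1 e1)⟩
    exact mul_inv_eq_iff_eq_mul.2 (mem_cent_iff.1 u.2.2 _ this)
  · by_cases u1 : u.1 = 1
    · exact ⟨1, Subtype.ext (by simp [u1])⟩
    obtain ⟨g, g1, -, g2⟩ := t.ep (one_mem H) u.2.1 (Commute.one_right _) hk
    have n : g ∈ 𝒩(Y) := by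
      rw [← cj_eq_iff]
      nth_rw 1 [← eY u u.2 u1]
      rw [cj_inf, cj_of_mem g1, cj_centralizer_singleton, g2]
      refine eY _ (pow_mem u.2 k) fun e => u1 ?_
      rwa [← g2, conj_eq_one_iff] at e
    exact ⟨⟨_, ⟨g, g1, n⟩, rfl⟩, Subtype.ext g2⟩
  · rintro ⟨_, a, rfl⟩ k h
    refine t.ns (M := Y) inf_le_left a.2.1 (fun e => w2 (mem_bot.1 (e.le
      ⟨w1, le_cent1_iff.1 inf_le_right⟩))) fun u hu => congrArg Subtype.val (h ⟨u, hu⟩)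
  · exact (Subgroup.card_dvd_of_surjective _ φ.rangeRestrict_surjective).trans
      (card_dvd_of_le inf_le_left)

end Cfsg.Agent.AH
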