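import Mathlib
import Cfsg.Agent.AH.Lem
import Cfsg.Agent.FGS.RankOneStruct
import Cfsg.Agent.S3742
import Cfsg.Agent.Solv.Coprime2

/-! S4162: semiregular actions with the eigenvector property.

`X` is a Frobenius complement (`FGS.FrobCompl.occurs_of_isFpf`; `X` is nontrivial by `ep` with
`k = 2`), so `RankOne X`, `Occurs.commute_of_prime`, and there is `f : X →* S₄` with `f.ker` a
Z-group (copy the first lines of `S3358.lean`). -/

set_option autoImplicit false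

namespace Cfsg.Agent.AH
open Cfsg Cfsg.Agent.FT Subgroup FGS.FrobCompl

variable {X U : Type*} [Group X] [Finite X] [Group U] [Finite U] {p : ℕ} {φ : X →* MulAut U}

omit [Finite X] in
theorem sb_ord (g v : X) : orderOf (g * v * g⁻¹) = orderOf v := (MulAut.conj g).orderOf_eq v

theorem sb_cyc (A : Subgroup X) [h : IsZGroup A] : IsCyclic (⁅A, A⁆ : Subgroup X) := by
  haveI := h.isCyclic_commutator
  rw [← map_subtype_commutator]
  exact isCyclic_of_surjective _ (A.subtype.subgroupMap_surjective _)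

omit [Finite X] in
theorem sb_comm {M : Subgroup X} [IsCyclic M] {a b : X} (ha : a ∈ M) (hb : b ∈ M) : Commute a b :=
  congrArg Subtype.val (mul_comm' (⟨a, ha⟩ : M) ⟨b, hb⟩)

theorem sb_conj {M : Subgroup X} [IsCyclic M] {g v : X} (hv : v ∈ M) (hg : g * v * g⁻¹ ∈ M) :
    g * v * g⁻¹ ∈ zpowers v := by
  obtain ⟨k, hk⟩ := Solv.Frob.mem_zpowers_of_orderOf_dvd (x := (⟨v, hv⟩ : M)) (y := ⟨_, hg⟩)
    (by rw [orderOf_mk, orderOf_mk, sb_ord])
  exact ⟨k, congrArg Subtype.val hk⟩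

theorem sb_norm {g v : X} (h : g * v * g⁻¹ ∈ zpowers v) : g ∈ normalizer (zpowers v : Set X) :=
  mem_normalizer_fintype fun w ⟨k, hk⟩ => by
    rw [← hk, ← conj_zpow]; exact zpow_mem h k

omit [Finite X] in
theorem sb_M {A : Subgroup X} {g v : X} (hg : g ∈ A) (hv : v ∈ ⁅A, A⁆) : g * v * g⁻¹ ∈ ⁅A, A⁆ := by
  rw [← map_subtype_commutator] at hv ⊢
  obtain ⟨w, hw, rfl⟩ := hv
  exact ⟨_, (inferInstance : (_root_.commutator A).Normal).conj_mem w hw ⟨g, hg⟩, rfl⟩

theorem sb_mem {A : Subgroup X} [h : IsZGroup A] {r k : ℕ} (hr : r.Prime)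
    (hd : r ∣ Nat.card (⁅A, A⁆ : Subgroup X)) {x : X} (hx : x ∈ A) (ho : orderOf x = r ^ k) :
    x ∈ ⁅A, A⁆ := by
  rw [← map_subtype_commutator] at hd ⊢
  rw [card_map_of_injective A.subtype_injective] at hd
  have c : (_root_.commutator A).index.Coprime (orderOf (⟨x, hx⟩ : A)) := by
    rw [orderOf_mk, ho]
    exact ((IsZGroup.coprime_commutator_index A).coprime_dvd_left hd).symm.pow_right k
  exact ⟨⟨x, hx⟩, zpowers_le.2 (pow_index_mem _ _) (mem_zpowers_pow_iff.2 c), rfl⟩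

theorem sb_f (h : Occurs X) (hs : Group.IsSolvable X) :
    ∃ f : X →* Equiv.Perm (Fin 4), IsZGroup f.ker := by
  obtain ⟨ε⟩ := S3742.result
  rcases h.rankOne.exists_solvable ε with h | ⟨f, -, h⟩ | ⟨f, -, h⟩ | ⟨f, -, h⟩
  · exact ⟨1, inferInstance⟩
  · let e : DihedralGroup 2 ≃ Fin 4 := Finite.equivFinOfCardEq (by simp [DihedralGroup.nat_card])
    refine ⟨(e.permCongrHom.toMonoidHom.comp (MulAction.toPermHom _ (DihedralGroup 2))).comp f, ?_⟩
    rwa [MonoidHom.ker_comp_of_injective _ _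
      (e.permCongrHom.injective.comp MulAction.toPerm_injective)]
  · refine ⟨(alternatingGroup (Fin 4)).subtype.comp f, ?_⟩
    rwa [MonoidHom.ker_comp_of_injective _ _ (Subgroup.subtype_injective _)]
  · exact ⟨f, h⟩

theorem sb_card {S : Set X} {x : X} (h : ∀ g ∈ S, g ∈ zpowers x) : Nat.card S ≤ orderOf x := by
  rw [← Nat.card_zpowers]
  exact Nat.card_mono (Set.toFinite _) h

/-- `M = ⁅A, A⁆` is cyclic (`IsZGroup.isCyclic_commutator`).  `x` centralises `M`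
(`Solv.coprime_le_centralizer_of_prime_order`), and for `a ∈ A`, `a x a⁻¹ = ⁅a, x⁆ x` with
`⁅a, x⁆ ∈ M` commuting with `x`; raising to the power `o(x)`, `⁅a, x⁆ ^ o(x) = 1`, so `⁅a, x⁆ = 1`. -/
theorem central_of_z {A : Subgroup X} [IsZGroup A] {x : X} (hx : x ∈ A)
    (hcop : (orderOf x).Coprime (Nat.card (⁅A, A⁆ : Subgroup X)))
    (hc : ∀ v ∈ ⁅A, A⁆, (orderOf v).Prime → Commute x v) {a : X} (ha : a ∈ A) : Commute a x := by
  haveI := sb_cyc A
  have h1 := Solv.coprime_le_centralizer_of_prime_order (zpowers x) ⁅A, A⁆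
    (zpowers_le.2 (mem_normalizer_fintype fun v hv => sb_M hx hv)) (by rwa [Nat.card_zpowers])
    (fun v hv pv b ⟨k, hk⟩ => hk ▸ ((hc v hv pv).zpow_left k).eq) (mem_zpowers x)
  have m : a * x * a⁻¹ * x⁻¹ ∈ ⁅A, A⁆ := commutator_mem_commutator ha hx
  have c : Commute (a * x * a⁻¹ * x⁻¹) x := h1 _ m
  have e := c.mul_pow (orderOf x)
  rw [inv_mul_cancel_right, conj_pow, pow_orderOf_eq_one, mul_one, mul_inv_cancel, mul_one] at e
  have := Nat.eq_one_of_dvd_coprimes hcop (orderOf_dvd_of_pow_eq_one e.symm)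
    (orderOf_dvd_natCard _ m)
  rw [orderOf_eq_one_iff, mul_inv_eq_one, mul_inv_eq_iff_eq_mul] at this
  exact this

/-- If `r ∣ |M|`, `M = ⁅A, A⁆`, then `r ∤ |A : M|` (`IsZGroup.coprime_commutator_index`), so
`x, x' ∈ M` cyclic; otherwise `central_of_z` (`x` normalises every subgroup of the cyclic group
`M ⊴ A`; `commute_of_prime`).  So `x, x'` commute, `RankOne.mem_zpowers`. -/
theorem mem_zpowers_of_z (h : Occurs X) {A : Subgroup X} [IsZGroup A] {x x' : X} (hx : x ∈ A)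
    (hx' : x' ∈ A) (hr : (orderOf x).Prime) (he : orderOf x' = orderOf x) : x' ∈ zpowers x := by
  haveI := sb_cyc A
  refine h.rankOne.mem_zpowers ?_ he.dvd
  by_cases d : orderOf x ∣ Nat.card (⁅A, A⁆ : Subgroup X)
  · exact sb_comm (sb_mem hr d hx (pow_one _).symm) (sb_mem hr d hx' (he.trans (pow_one _).symm))
  · exact (central_of_z hx ((Nat.Prime.coprime_iff_not_dvd hr).2 d)
      (fun v hv pv => h.commute_of_prime hr pv (sb_norm (sb_conj hv (sb_M hx hv)))) hx').symm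

/-- `G₀ = f.ker`.  If `r ∣ |G₀|`, take `x₀ ∈ G₀` of order `r`; `⟨x₀⟩ ⊴ X` by `mem_zpowers_of_z`, so
every `g` of order `r` commutes with `x₀` and lies in `⟨x₀⟩`.  Otherwise `f` is injective on the
elements of order `r`: if `f g = f g'`, `A = G₀ ⊔ ⟨g⟩ ∋ g'` is a Z-group
(`RankOne.isZGroup_of_two`: a `2`-subgroup of `A` has image of order dividing `r`, so lies in `G₀`),
`g' = g ^ j`, `g' g⁻¹ ∈ G₀ ⊓ ⟨g⟩ = ⊥`; the images have order `r` in `S₄`, so `r = 3` and there are `8`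
of them (`decide`). -/
theorem card_order_le (h : Occurs X) (hs : Group.IsSolvable X) {r : ℕ} (hr : r.Prime) (h2 : r ≠ 2) :
    Nat.card {g : X | orderOf g = r} ≤ r ∨ Nat.card {g : X | orderOf g = r} ≤ 8 := by
  obtain ⟨f, hf⟩ := sb_f h hs
  haveI := Fact.mk hr
  by_cases d : r ∣ Nat.card f.ker
  · obtain ⟨x, hx⟩ := exists_prime_orderOf_dvd_card' (G := f.ker) r d
    rw [← orderOf_coe] at hx
    refine .inl ((sb_card (x := (x : X)) fun g hg => ?_).trans hx.le)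
    have hg : orderOf g = orderOf (x : X) := Eq.trans hg hx.symm
    refine h.rankOne.mem_zpowers (h.commute_of_prime (hg ▸ hx ▸ hr) (hx ▸ hr) (sb_norm
      (mem_zpowers_of_z h x.2 (f.normal_ker.conj_mem _ x.2 g) (hx ▸ hr)
        (sb_ord _ _)))).symm hg.dvd
  have o : ∀ g : X, orderOf g = r → orderOf (f g) = r := fun g hg =>
    orderOf_eq_prime (by rw [← map_pow, ← hg, pow_orderOf_eq_one, map_one]) fun e =>
      d (hg ▸ orderOf_dvd_natCard f.ker e)
  refine .inr ?_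
  have c8 : Nat.card {σ : Equiv.Perm (Fin 4) // σ ^ 3 = 1 ∧ σ ≠ 1} = 8 := by
    rw [Nat.card_eq_fintype_card]; decide +kernel
  have r3 : ∀ g : X, orderOf g = r → r = 3 := fun g hg => by
    have := orderOf_dvd_natCard (f g)
    rw [o g hg, Nat.card_perm, Nat.card_fin] at this
    have h4 := (hr.dvd_factorial).1 this
    have := hr.two_le
    interval_cases r
    · exact absurd rfl h2
    · rfl
    · exact absurd hr (by norm_num)
  rw [← c8]
  refine Nat.card_le_card_of_injective (fun g => ⟨f g.1,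
    orderOf_dvd_iff_pow_eq_one.1 ((o _ g.2).trans (r3 _ g.2)).dvd, fun e => hr.one_lt.ne' (by
      rw [← o _ g.2, e, orderOf_one])⟩) fun ⟨g, hg⟩ ⟨g', hg'⟩ e => Subtype.ext ?_
  have hg : orderOf g = r := hg
  have hg' : orderOf g' = r := hg'
  have e : f g = f g' := congrArg Subtype.val e
  haveI : IsZGroup ((zpowers (f g)).comap f) := by
    refine (h.rankOne.subgroup _).isZGroup_of_two fun T hT => ?_
    have m : ∀ t : T, ((zpowers (f g)).comap f).subtype.comp T.subtype t ∈ f.ker := fun t => by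
      obtain ⟨k, hk⟩ := hT t
      have h1 : orderOf (f t.1.1) ∣ 2 ^ k := orderOf_dvd_of_pow_eq_one (by
        rw [← map_pow, show t.1.1 ^ 2 ^ k = 1 from congrArg (fun x : T => x.1.1) hk, map_one])
      have h3 := orderOf_dvd_natCard (zpowers (f g)) (x := f t.1.1) t.1.2
      rw [Nat.card_zpowers, o g hg] at h3
      exact orderOf_eq_one_iff.1 (Nat.eq_one_of_dvd_coprimes
        (((Nat.coprime_primes hr Nat.prime_two).2 h2).pow_right k) h3 h1)
    haveI : IsZGroup T := IsZGroup.of_injective (f := MonoidHom.codRestrict _ _ m)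
      fun a b e => Subtype.ext (Subtype.ext (congrArg (fun x : f.ker => x.1) e))
    haveI := hT.isNilpotent
    infer_instance
  obtain ⟨j, rfl⟩ := mem_zpowers_of_z h (A := (zpowers (f g)).comap f) (x := g) (x' := g')
    (mem_zpowers _) (e ▸ mem_zpowers _ : f g' ∈ zpowers (f g)) (hg ▸ hr) (hg'.trans hg.symm)
  simp only [map_zpow] at e
  rw [← zpow_one (f g), ← zpow_mul, one_mul, zpow_eq_zpow_iff_modEq, o g hg, ← hg,
    ← zpow_eq_zpow_iff_modEq, zpow_one] at e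
  exact e

/-- Any two such `y = g ^ 4`, `y' = g' ^ 4` commute: `f y = 1` (`f g ^ 16 = 1` in `S₄` gives
`f g ^ 4 = 1`), `M = ⁅G₀, G₀⁆` is cyclic, normal in `X`, of odd order
(`hasNormalPComplement_two_of_isZGroup`, or: `IsZGroup.coprime_commutator_index` and `G₀` has a
subgroup of index `2`); for `v ∈ M` of prime order `s ∈ {3, 5, 7}`, `g v g⁻¹ = v ^ m`,
`m ^ 12 ≡ 1`, `m ^ 16 ≡ 1`, so `m ^ 4 ≡ 1 (s)`; `central_of_z`.  Then `RankOne.mem_zpowers`. -/
theorem card_pow_four_le (h : Occurs X) (hs : Group.IsSolvable X)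
    (hX : ∀ q : ℕ, q.Prime → q ∣ Nat.card X → q ≤ 7) :
    Nat.card {y : X | ∃ g : X, orderOf g = 16 ∧ y = g ^ 4} ≤ 4 := by
  obtain ⟨f, hf⟩ := sb_f h hs
  haveI := sb_cyc f.ker
  rcases Set.eq_empty_or_nonempty {y : X | ∃ g : X, orderOf g = 16 ∧ y = g ^ 4} with
    e | ⟨_, g, hg, rfl⟩
  · rw [e]; simp
  have o4 : ∀ g : X, orderOf g = 16 → orderOf (g ^ 4) = 2 ^ 2 := fun g hg => by
    rw [orderOf_pow' _ (by norm_num), hg]; norm_num
  have k4 : ∀ g : X, orderOf g = 16 → g ^ 4 ∈ f.ker := fun g hg => by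
    rw [MonoidHom.mem_ker, map_pow]
    exact (by decide +kernel : ∀ σ : Equiv.Perm (Fin 4), σ ^ 16 = 1 → σ ^ 4 = 1) _
      (by rw [← map_pow, ← hg, pow_orderOf_eq_one, map_one])
  refine (sb_card (x := g ^ 4) ?_).trans (o4 g hg).le
  rintro _ ⟨g', hg', rfl⟩
  refine h.rankOne.mem_zpowers ?_ (by rw [o4 g hg, o4 g' hg'])
  by_cases d : 2 ∣ Nat.card (⁅f.ker, f.ker⁆ : Subgroup X)
  · exact sb_comm (sb_mem Nat.prime_two d (k4 g hg) (o4 g hg))
      (sb_mem Nat.prime_two d (k4 g' hg') (o4 g' hg'))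
  refine (central_of_z (k4 g hg) (by
    rw [o4 g hg]; exact ((Nat.Prime.coprime_iff_not_dvd Nat.prime_two).2 d).pow_left 2)
    (fun v hv pv => ?_) (k4 g' hg')).symm
  obtain ⟨m, hm⟩ := mem_powers_iff_mem_zpowers.2 (sb_conj hv
    ((inferInstance : (⁅f.ker, f.ker⁆ : Subgroup X).Normal).conj_mem v hv g))
  simp only at hm
  rw [← pow_mod_orderOf] at hm
  have lt := Nat.mod_lt m pv.pos
  generalize m % orderOf v = m at hm lt
  have it : ∀ k : ℕ, g ^ k * v * (g ^ k)⁻¹ = v ^ m ^ k := fun k => by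
    induction k with
    | zero => simp
    | succ k ih =>
      rw [pow_succ', mul_inv_rev, show g * g ^ k * v * ((g ^ k)⁻¹ * g⁻¹) =
        g * (g ^ k * v * (g ^ k)⁻¹) * g⁻¹ by group, ih, ← conj_pow, ← hm, ← pow_mul, pow_succ']
  have h16 := it 16
  rw [← hg, pow_orderOf_eq_one, hg, one_mul, inv_one, mul_one, ← pow_one v, ← pow_mul, one_mul,
    pow_eq_pow_iff_modEq] at h16
  have h4 := (by decide +kernel : ∀ s ≤ 7, ∀ m < s, 1 % s = m ^ 16 % s → m ^ 4 % s = 1 % s) _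
    (hX _ pv (orderOf_dvd_natCard v)) m lt h16
  have := it 4
  rw [pow_eq_pow_iff_modEq.2 h4, pow_one, mul_inv_eq_iff_eq_mul] at this
  exact this

/-- Take `k` of order `n` modulo `p` (`n ∣ p - 1`).  For `u ≠ 1`, `ep` gives `g` with
`φ g u = u ^ k`; `g ^ j` fixes `u` iff `n ∣ j`, so `orderOf g = n` by `fpf`. -/
theorem Semi.exists_eig (s : Semi p φ) {n : ℕ} (hn : n ∣ p - 1) :
    ∃ k : ℕ, (∀ j : ℕ, k ^ j ≡ 1 [MOD p] ↔ n ∣ j) ∧
      ∀ u : U, u ≠ 1 → ∃ g : X, orderOf g = n ∧ φ g u = u ^ k := by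
  haveI := Fact.mk s.prime
  obtain ⟨γ, hγ⟩ := IsCyclic.exists_ofOrder_eq_natCard (α := (ZMod p)ˣ)
  rw [Nat.card_eq_fintype_card, ZMod.card_units] at hγ
  have p0 : 0 < p - 1 := by have := s.ge; omega
  obtain ⟨c, hc⟩ := hn
  have c0 : c ≠ 0 := by rintro rfl; omega
  have o : orderOf (γ ^ c) = n := by
    rw [orderOf_pow' _ c0, hγ, hc, Nat.gcd_mul_left_left, Nat.mul_div_cancel _ (Nat.pos_of_ne_zero c0)]
  generalize γ ^ c = δ at o
  have hk : ∀ j : ℕ, (δ : ZMod p).val ^ j ≡ 1 [MOD p] ↔ n ∣ j := fun j => by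
    rw [← ZMod.natCast_eq_natCast_iff, Nat.cast_pow, ZMod.natCast_zmod_val, Nat.cast_one,
      ← Units.val_pow_eq_pow_val, Units.val_eq_one, ← orderOf_dvd_iff_pow_eq_one, o]
  refine ⟨_, hk, fun u u1 => ?_⟩
  obtain ⟨g, hg⟩ := s.ep u (δ : ZMod p).val (by
    rw [← ZMod.natCast_eq_zero_iff, ZMod.natCast_zmod_val]; exact δ.ne_zero)
  generalize (δ : ZMod p).val = k at hk hg
  have it : ∀ j : ℕ, φ (g ^ j) u = u ^ k ^ j := fun j => by
    induction j with
    | zero => simp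
    | succ j ih => rw [pow_succ', map_mul, MulAut.mul_apply, ih, map_pow, hg, ← pow_mul, pow_succ']
  have ou : orderOf u = p := orderOf_eq_prime (s.pow u) u1
  have e : ∀ j : ℕ, φ (g ^ j) u = u ↔ n ∣ j := fun j => by
    rw [it, ← hk, ← ou, ← pow_eq_pow_iff_modEq, pow_one]
  refine ⟨g, Nat.dvd_antisymm (orderOf_dvd_of_pow_eq_one
    ((s.fpf _ _ ((e n).2 dvd_rfl)).resolve_right u1)) ((e _).1 ?_), hg⟩
  rw [pow_orderOf_eq_one, map_one, MulAut.one_apply]

/-- eigenspaces -/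
def Semi.eig (s : Semi p φ) (g : X) (k : ℕ) : Subgroup U where
  carrier := {u | φ g u = u ^ k}
  one_mem' := by simp
  mul_mem' := fun {a b} ha hb => by
    have c : Commute a b := s.comm a b
    simp only [Set.mem_ofPred_eq] at ha hb ⊢
    rw [map_mul, ha, hb, c.mul_pow]
  inv_mem' := fun {a} ha => by
    simp only [Set.mem_ofPred_eq] at ha ⊢
    rw [map_inv, ha, inv_pow]

theorem Semi.sb_cov (s : Semi p φ) {S : Set X} {k : ℕ} (hk : ¬ k ^ 2 ≡ 1 [MOD p])
    (h : ∀ u : U, u ≠ 1 → ∃ g ∈ S, φ g u = u ^ k) : p + 1 ≤ Nat.card S := by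
  haveI := s.nt
  have := cov s.prime s.pow (Set.toFinite S).toFinset (fun g => s.eig g k)
    (fun g _ e => hk (s.ns g k fun u => (e.ge (mem_top u) : u ∈ s.eig g k)))
    fun u u1 => let ⟨g, h1, h2⟩ := h u u1; ⟨g, (Set.Finite.mem_toFinset _).2 h1, h2⟩
  rwa [Nat.card_coe_set_eq, Set.ncard_eq_toFinset_card _ (Set.toFinite S)]

theorem Semi.sb_occ (s : Semi p φ) : Occurs X := by
  haveI := s.nt
  obtain ⟨u, u1⟩ := exists_ne (1 : U)
  obtain ⟨g, hg⟩ := s.ep u 2 fun d => by have := Nat.le_of_dvd two_pos d; have := s.ge; omega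
  haveI : Nontrivial X := ⟨⟨g, 1, fun e => u1 (by
    rw [e, map_one, MulAut.one_apply, sq] at hg
    exact left_eq_mul.1 hg)⟩⟩
  exact occurs_of_isFpf φ s.fpf

/-- `cov` with the subgroups `{u | φ g u = u ^ k}`, `orderOf g = r` (proper by `ns`) gives
`p + 1 ≤ #{g | o(g) = r}`, and `r ≤ p - 1`. -/
theorem Semi.le_seven (s : Semi p φ) {r : ℕ} (hr : r.Prime) (h2 : r ≠ 2) (hd : r ∣ p - 1) :
    p ≤ 7 := by
  obtain ⟨k, hk, h⟩ := s.exists_eig hd
  have h1 := s.sb_cov (S := {g : X | orderOf g = r}) (k := k)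
    (fun e => h2 ((Nat.prime_dvd_prime_iff_eq hr Nat.prime_two).1 ((hk 2).1 e))) h
  have := s.ge
  have := Nat.le_of_dvd (by omega) hd
  rcases card_order_le s.sb_occ s.solv hr h2 with e | e <;> omega

/-- `cov` with the subgroups `{u | φ y u = u ^ (k ^ 4)}`, `y = g ^ 4`, `orderOf g = 16`. -/
theorem Semi.not_sixteen (s : Semi p φ) (hX : ∀ q : ℕ, q.Prime → q ∣ Nat.card X → q ≤ 7) :
    ¬ 16 ∣ p - 1 := by
  intro hd
  obtain ⟨k, hk, h⟩ := s.exists_eig hd
  have h1 := s.sb_cov (S := {y : X | ∃ g : X, orderOf g = 16 ∧ y = g ^ 4}) (k := k ^ 4)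
    (fun e => absurd ((hk 8).1 (by rwa [← pow_mul] at e)) (by norm_num)) fun u u1 => by
      obtain ⟨g, h1, h2⟩ := h u u1
      refine ⟨_, ⟨g, h1, rfl⟩, ?_⟩
      simp only [pow_succ, pow_zero, one_mul, map_mul, MulAut.mul_apply, h2, map_pow, pow_mul]
  have := card_pow_four_le s.sb_occ s.solv hX
  have := s.ge
  omega

end Cfsg.Agent.AH
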