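import Mathlib
import Cfsg.Agent.AH.TopA
import Cfsg.Agent.AH.Lem

/-! S4162: fixed point free elements with small centralisers, part 1. -/

set_option autoImplicit false

namespace Cfsg.Agent.AH.Top
open Cfsg Cfsg.Agent.FT Subgroup

variable {Γ : Type*} [Group Γ] [Finite Γ] {p : ℕ} {W H : Subgroup Γ} (t : Top p W H)

theorem n6a_mem {u x : Γ} (h3 : orderOf u = 3) (hx : x ∈ zpowers u) : x = 1 ∨ x = u ∨ x = u⁻¹ := by
  classical
  obtain ⟨i, hi, rfl⟩ := Finset.mem_image.1 (mem_zpowers_iff_mem_range_orderOf.1 hx)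
  rw [h3, Finset.mem_range] at hi
  interval_cases i
  · exact Or.inl (pow_zero u)
  · exact Or.inr (Or.inl (pow_one u))
  · exact Or.inr (Or.inr (eq_inv_of_mul_eq_one_left
      ((pow_succ u 2).symm.trans (h3 ▸ pow_orderOf_eq_one u : u ^ 3 = 1))))

theorem n6a_conj {u n : Γ} (h3 : orderOf u = 3) (hn : n ∈ 𝒩(zpowers u)) :
    Commute n u ∨ n * u * n⁻¹ = u⁻¹ := by
  rcases n6a_mem h3 ((mem_normalizer_iff.1 hn u).1 (mem_zpowers u)) with h | h | h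
  · rw [conj_eq_one_iff.1 h, orderOf_one] at h3; omega
  · exact Or.inl (mul_inv_eq_iff_eq_mul.1 h)
  · exact Or.inr h

omit [Finite Γ] in
theorem n6a_sq {u n : Γ} (h : n * u * n⁻¹ = u⁻¹) : Commute (n ^ 2) u := by
  refine mul_inv_eq_iff_eq_mul.1 ?_
  calc n ^ 2 * u * (n ^ 2)⁻¹ = n * (n * u * n⁻¹) * n⁻¹ := by rw [pow_two]; group
    _ = n * u⁻¹ * n⁻¹ := by rw [h]
    _ = (n * u * n⁻¹)⁻¹ := by group
    _ = u := by rw [h, inv_inv]

include t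

/-- `z` is central in `H` (`central_of_fpf`), so `cH H z = |H|`.  `exists_ord` gives `g ∈ H` with
`o(g) ≥ 4`; `rn`: `φ(o(g)) o(g) ∣ φ(o(g)) cH g ∣ |H| ≤ 6`, impossible for `o(g) ∈ {4, 5, 6}`. -/
theorem n2 {z : Γ} (hz : z ∈ H) (h2 : z ^ 2 = 1) (hf : W ⊓ 𝒞[z] = ⊥) : 6 < cH H z := by
  by_contra hn
  have e : cH H z = Nat.card H := by
    rw [cH, inf_eq_left.2 fun g hg =>
      mem_centralizer_singleton_iff.2 (t.central_of_fpf hz h2 hf hg)]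
  obtain ⟨g, hg, hd⟩ := t.exists_ord
  have h1 := Nat.le_of_dvd (orderOf_pos g) hd
  have h4 := Nat.le_of_dvd Nat.card_pos
    ((Nat.mul_dvd_mul_left _ (ord_dvd_cH hg (Commute.refl g))).trans (t.rn hg))
  have h5 := Nat.totient_pos.2 (orderOf_pos g)
  have := t.ge
  generalize orderOf g = o at h1 h4 h5
  have h6 : o ≤ 6 := by nlinarith
  have h7 : o.totient * o ≤ 6 := by omega
  have h8 : 4 ≤ o := by omega
  interval_cases o <;> revert h7 <;> decide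

/-- `fa2` with `h = u` (`K` from `s3l` for `D = H`, `K ⊓ C(u) = ⊥` as `cH = 3`) and `faith` give
`K = ⊥`, so `H ≤ N(⟨u⟩)`; every `g ∈ H` has `g ^ 2 ∈ H ⊓ C(u) = ⟨u⟩`, and if `3 ∣ o(g)` then `g`
commutes with `g ^ 2 = u ^ ±1`, so `o(g) = 3`.  So `o(g) ≤ 3`, against `exists_ord`. -/
theorem n3 {u : Γ} (hu : u ∈ H) (h3 : orderOf u = 3) (hf : W ⊓ 𝒞[u] = ⊥) : cH H u ≠ 3 := by
  intro hc
  have e : zpowers u = H ⊓ 𝒞[u] := eq_of_le_of_card_ge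
    (zpowers_le.2 ⟨hu, mem_centralizer_singleton_iff.2 rfl⟩)
    (by rw [Nat.card_zpowers, h3]; exact hc.le)
  obtain ⟨K, KH, nK, K3, -, -, hd⟩ := s3l t.solvH Nat.prime_three hu h3
    (not_sq_dvd Nat.prime_three hu h3 (by rw [show Nat.card (H ⊓ 𝒞[u] : Subgroup Γ) = 3 from hc]; decide))
  have hK := fa2 t.prime t.elem t.solvH (fun d => t.ndvd (d.trans (card_dvd_of_le KH)))
    (h3 ▸ Nat.prime_three) (h3 ▸ K3) (t.le_norm K) (t.le_norm ⊤ (mem_top u)) (nK hu) (fun x hx => by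
      have h1 := orderOf_dvd_of_mem_zpowers (e ▸ ⟨KH hx.1, hx.2⟩ : x ∈ zpowers u)
      rw [h3] at h1
      rw [orderOf_eq_one_iff.1 (((Nat.dvd_prime Nat.prime_three).1 h1).resolve_right fun k =>
        K3 (k ▸ orderOf_dvd_natCard K hx.1))]
      exact one_mem _) hf
  obtain ⟨g, hg, h4⟩ := t.exists_ord
  obtain ⟨κ, hκ, n, -, hn, rfl⟩ := hd g hg
  rw [mem_bot.1 (t.faith ▸ ⟨KH hκ, hK hκ⟩ : κ ∈ (⊥ : Subgroup Γ)), one_mul] at hg h4
  have k3 : Commute n u → orderOf n ∣ 3 := fun c =>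
    h3 ▸ orderOf_dvd_of_mem_zpowers (e ▸ ⟨hg, mem_centralizer_singleton_iff.2 c⟩ : n ∈ zpowers u)
  have h5 : orderOf n ∣ 3 ∨ orderOf n ∣ 2 := by
    rcases n6a_conj h3 hn with c | c
    · exact Or.inl (k3 c)
    rcases n6a_mem h3 (e ▸ ⟨pow_mem hg 2, mem_centralizer_singleton_iff.2 (n6a_sq c)⟩ :
      n ^ 2 ∈ zpowers u) with k | k | k
    · exact Or.inr (orderOf_dvd_of_pow_eq_one k)
    · exact Or.inl (k3 (k ▸ Commute.self_pow n 2))
    · exact Or.inl (k3 (Commute.inv_right_iff.1 (k ▸ Commute.self_pow n 2)))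
  have := t.ge
  rcases h5 with k | k <;> have := Nat.le_of_dvd (by decide) (h4.trans k) <;> omega

/-- Suppose `U = W ⊓ C(z) ≠ ⊥`.  `D = H ⊓ C(z) ∋ u`, `D ⊓ C(u) = H ⊓ C(u z) = ⟨u z⟩` has order `6`;
`not_sq_dvd`, `s3l` give `K`.  An element of `K ⊓ C(u)` is a `3'`-element of `⟨u z⟩`, so in `⟨z⟩`, and
centralises `U`; `U ⊓ C(u) ≤ W ⊓ C(u z) = ⊥`; `fa2`: `K ≤ C(U)`.  `ep_prim` (`y = z`): `g = κ n ∈ D`,
so `n` acts on `w` as `g` and `n ^ j` centralises `w` iff `p - 1 ∣ j` (`n ^ j`, `g ^ j` act on `w` as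
`k ^ j`).  If `n` centralises `u`, `n ∈ ⟨u z⟩`, `n ^ 3 ∈ ⟨z⟩`.  Otherwise `n` inverts `u`,
`n ^ 2 ∈ ⟨u z⟩` commutes with `n`, so `n ^ 2 ∈ ⟨z⟩`.  So `p - 1 ∣ 3` or `p - 1 ∣ 2`. -/
theorem fpf_of_six {u z : Γ} (hu : u ∈ H) (hz : z ∈ H) (h3 : orderOf u = 3) (h2 : orderOf z = 2)
    (hc : Commute u z) (hf : W ⊓ 𝒞[u * z] = ⊥) (h6 : cH H (u * z) ≤ 6) : W ⊓ 𝒞[z] = ⊥ := by
  by_contra hU
  obtain ⟨⟨w, hw⟩, w1⟩ := ne_bot_iff_exists_ne_one.1 hU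
  replace w1 : w ≠ 1 := fun e => w1 (Subtype.ext e)
  have o6 : orderOf (u * z) = 6 := by
    rw [hc.orderOf_mul_eq_mul_orderOf_of_coprime (by rw [h3, h2]; decide), h3, h2]
  have e : zpowers (u * z) = H ⊓ 𝒞[u * z] := eq_of_le_of_card_ge
    (zpowers_le.2 ⟨mul_mem hu hz, mem_centralizer_singleton_iff.2 rfl⟩)
    (by rw [Nat.card_zpowers, o6]; exact h6)
  have u3 : ∀ i : ℤ, (u ^ i) ^ 3 = 1 := fun i => by
    rw [← zpow_natCast, zpow_comm, zpow_natCast, ← h3, pow_orderOf_eq_one, one_zpow]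
  have key : ∀ x ∈ H, Commute x u → Commute x z → ∃ i : ℤ, x = u ^ i * z ^ i := fun x hx c1 c2 => by
    obtain ⟨i, hi⟩ := mem_zpowers_iff.1
      (e ▸ ⟨hx, mem_centralizer_singleton_iff.2 (c1.mul_right c2)⟩ : x ∈ zpowers (u * z))
    exact ⟨i, by rw [← hi, hc.mul_zpow]⟩
  have cube : ∀ x ∈ H, Commute x u → Commute x z → x ^ 3 ∈ zpowers z := fun x hx c1 c2 => by
    obtain ⟨i, rfl⟩ := key x hx c1 c2
    rw [(hc.zpow_zpow i i).mul_pow, u3, one_mul]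
    exact pow_mem (zpow_mem (mem_zpowers z) i) 3
  have uD : u ∈ H ⊓ 𝒞[z] := ⟨hu, mem_centralizer_singleton_iff.2 hc⟩
  obtain ⟨K, KD, nK, K3, -, -, hd⟩ := s3l t.solvH Nat.prime_three uD h3
    (not_sq_dvd Nat.prime_three uD h3 fun d => by
      have h1 : (H ⊓ 𝒞[z]) ⊓ 𝒞[u] ≤ H ⊓ 𝒞[u * z] := fun x hx => ⟨hx.1.1,
        mem_centralizer_singleton_iff.2 (Commute.mul_right (mem_centralizer_singleton_iff.1 hx.2)
          (mem_centralizer_singleton_iff.1 hx.1.2))⟩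
      have := (Nat.le_of_dvd Nat.card_pos d).trans ((card_le_of_le h1).trans h6)
      omega)
  have zU : zpowers z ≤ 𝒞(W ⊓ 𝒞[z]) :=
    zpowers_le.2 fun x hx => mem_centralizer_singleton_iff.1 hx.2
  have nU : H ⊓ 𝒞[z] ≤ 𝒩(W ⊓ 𝒞[z]) := fun g hg => mem_normalizer_fintype fun x hx =>
    ⟨t.conj_mem hx.1 g, (𝒞[z]).mul_mem ((𝒞[z]).mul_mem hg.2 hx.2) ((𝒞[z]).inv_mem hg.2)⟩
  have hK := fa2 (U := W ⊓ 𝒞[z]) t.prime
    ⟨⟨⟨fun a b => Subtype.ext (t.comm a.2.1 b.2.1)⟩⟩, fun a ha => t.pow ha.1⟩ t.solvH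
    (fun d => t.ndvd (d.trans (card_dvd_of_le (KD.trans inf_le_left))))
    (h3 ▸ Nat.prime_three) (h3 ▸ K3) (KD.trans nU) (nU uD) (nK uD) (fun x hx =>
      zU (zpowers_le.2 (cube x (KD hx.1).1 (mem_centralizer_singleton_iff.1 hx.2)
        (mem_centralizer_singleton_iff.1 (KD hx.1).2)) (mem_zpowers_pow_iff.2
          ((Nat.Prime.coprime_iff_not_dvd Nat.prime_three).2 fun k =>
            K3 (k.trans (orderOf_dvd_natCard K hx.1))))))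
    (eq_bot_iff.2 fun x hx => hf ▸ ⟨hx.1.1, mem_centralizer_singleton_iff.2 (Commute.mul_right
      (mem_centralizer_singleton_iff.1 hx.2) (mem_centralizer_singleton_iff.1 hx.1.2))⟩)
  obtain ⟨g, hg, gz, ⟨k, gw⟩, hj⟩ := t.ep_prim hz hw.1 w1 (mem_centralizer_singleton_iff.1 hw.2)
  obtain ⟨κ, hκ, n, nD, hn, rfl⟩ := hd g ⟨hg, mem_centralizer_singleton_iff.2 gz⟩
  have nw : n * w * n⁻¹ = w ^ k := by
    calc n * w * n⁻¹ = κ⁻¹ * (κ * n * w * (κ * n)⁻¹ * κ) := by group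
      _ = w ^ k := by rw [gw, hK hκ _ (pow_mem hw k), inv_mul_cancel_left]
  have fin : ∀ j, n ^ j ∈ zpowers z → p - 1 ∣ j := fun j m => (hj j).1 (mul_inv_eq_iff_eq_mul.1 (by
    rw [conj_pow_iter gw, ← conj_pow_iter nw, ← zU m w hw, mul_inv_cancel_right]))
  have nz : Commute n z := mem_centralizer_singleton_iff.1 nD.2
  have := t.ge
  rcases n6a_conj h3 hn with c | c
  · have := Nat.le_of_dvd (by decide) (fin 3 (cube n nD.1 c nz))
    omega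
  · obtain ⟨i, hi⟩ := key _ (pow_mem nD.1 2) (n6a_sq c) (nz.pow_left 2)
    have c1 : Commute n (u ^ i) := by
      have := (hi ▸ Commute.self_pow n 2 : Commute n (u ^ i * z ^ i)).mul_right
        (nz.zpow_right i).inv_right
      rwa [mul_inv_cancel_right] at this
    have c2 : u ^ i = (u ^ i)⁻¹ := by
      rw [← inv_zpow, ← c, conj_zpow, c1.eq, mul_inv_cancel_right]
    have c3 := u3 i
    rw [pow_three, mul_eq_one_iff_eq_inv.2 c2, mul_one] at c3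
    rw [c3, one_mul] at hi
    have := Nat.le_of_dvd (by decide) (fin 2 (hi ▸ zpow_mem (mem_zpowers z) i))
    omega

end Cfsg.Agent.AH.Top
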