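import Mathlib
import Cfsg.Agent.AH.TopA
import Cfsg.Agent.AH.Lem
import Cfsg.Agent.FGS.RankOneStruct
import Cfsg.Agent.Solv.FrobeniusAction
import Cfsg.Agent.PLocal.AmbSyl
import Cfsg.Agent.PLocal.SylowIn

/-! S4162: `O_r(H) = 1` for odd primes `r ∣ p - 1`. -/

set_option autoImplicit false

namespace Cfsg.Agent.AH
open Cfsg Cfsg.Agent.FT Subgroup

variable {Γ : Type*} [Group Γ] [Finite Γ] {p : ℕ} {W H : Subgroup Γ}

/-- The image `P̄` of `P` in `MulAut U` (`(Solv.Frob.conjHom U P _).range`) is an `r`-group acting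
fixed point freely (`FGS.FrobCompl.IsFpf`), nontrivial, so `Occurs`, `RankOne`, cyclic
(`RankOne.cyclic_or_quaternion'`).  `ḡ`, `b̄` commute, `o(ḡ) = r`, `o(b̄) ∣ r`, so `b̄ ∈ ⟨ḡ⟩`
(`RankOne.mem_zpowers`). -/
theorem cyc {r : ℕ} (hr : r.Prime) (h2 : r ≠ 2) {P U : Subgroup Γ} (hP : IsPGroup r P)
    (hPU : P ≤ 𝒩(U)) (hf : ∀ a ∈ P, a ∈ 𝒞(U) ∨ U ⊓ 𝒞[a] = ⊥) {g b : Γ} (hg : g ∈ P) (hb : b ∈ P)
    (hg1 : g ∉ 𝒞(U)) (hgr : g ^ r ∈ 𝒞(U)) (hbr : b ^ r ∈ 𝒞(U)) :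
    ∃ j : ℕ, ∀ u ∈ U, b * u * b⁻¹ = g ^ j * u * (g ^ j)⁻¹ := by
  have := Fact.mk hr
  let f := Solv.Frob.conjHom U P hPU
  have k : ∀ x : P, f x = 1 ↔ x.1 ∈ 𝒞(U) := fun x => by
    rw [mem_cent_iff]
    refine ⟨fun e u hu => ?_, fun e => MulEquiv.ext fun u => Subtype.ext ?_⟩
    · have := Solv.Frob.conjHom_apply hPU x ⟨u, hu⟩
      rw [show Solv.Frob.conjHom U P hPU x = 1 from e] at this
      exact eq_mul_inv_iff_mul_eq.1 this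
    · rw [Solv.Frob.conjHom_apply, ← e u u.2, mul_inv_cancel_right]; rfl
  have g1 : f.rangeRestrict ⟨g, hg⟩ ≠ 1 := fun e => hg1 ((k ⟨g, hg⟩).1 (congrArg Subtype.val e))
  have : Nontrivial f.range := ⟨_, _, g1⟩
  have : Nontrivial U := by
    rw [nontrivial_iff_ne_bot]
    rintro rfl
    exact hg1 (cent_bot.ge (mem_top g))
  have fp : FGS.FrobCompl.IsFpf f.range.subtype := by
    rintro ⟨_, x, rfl⟩ v e
    rcases hf x x.2 with h | h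
    · exact Or.inl (Subtype.ext ((k x).2 h))
    · refine Or.inr (Subtype.ext (h.le ⟨v.2, mem_cent1_iff.2 ?_⟩))
      have := Solv.Frob.conjHom_apply hPU x v
      rw [show Solv.Frob.conjHom U P hPU x v = v from e] at this
      exact eq_mul_inv_iff_mul_eq.1 this
  have cy : IsCyclic f.range := ((FGS.FrobCompl.occurs_of_isFpf _ fp).rankOne.cyclic_or_quaternion'
    (hP.of_surjective _ f.rangeRestrict_surjective)).resolve_right fun h => h2 h.1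
  have pw : ∀ x (hx : x ∈ P), x ^ r ∈ 𝒞(U) → f.rangeRestrict ⟨x, hx⟩ ^ r = 1 := fun x hx e => by
    rw [← map_pow]; exact Subtype.ext ((k _).2 e)
  have m := Solv.Frob.mem_zpowers_of_orderOf_dvd (x := f.rangeRestrict ⟨g, hg⟩)
    (y := f.rangeRestrict ⟨b, hb⟩) (by
      rw [orderOf_eq_prime (pw g hg hgr) g1]; exact orderOf_dvd_of_pow_eq_one (pw b hb hbr))
  obtain ⟨j, hj⟩ := mem_powers_iff_mem_zpowers.2 m
  refine ⟨j, fun u hu => ?_⟩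
  have e : f (⟨g, hg⟩ ^ j) = f ⟨b, hb⟩ := by
    rw [map_pow]; exact congrArg Subtype.val hj
  have a1 := Solv.Frob.conjHom_apply hPU ⟨b, hb⟩ ⟨u, hu⟩
  have a2 := Solv.Frob.conjHom_apply hPU (⟨g, hg⟩ ^ j) ⟨u, hu⟩
  rw [show Solv.Frob.conjHom U P hPU (⟨g, hg⟩ ^ j) = Solv.Frob.conjHom U P hPU ⟨b, hb⟩ from e, a1] at a2
  exact a2

/-- `L = H ⊓ N(⟨w⟩)`.  `Top.ep` (`y = 1`) and `exists_parts` (`N = 1`) give an `r`-element `g₀ ∈ L`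
acting as `k` on `w`.  `S` a Sylow `r`-subgroup of `L` containing `R`; `g = l g₀ l⁻¹ ∈ S`, `l ∈ L`,
acts as `k` on `w` too.  `S ⊓ C(w) = R` by maximality, and `S` normalises `S ⊓ C(w)`. -/
theorem Top.exists_norm (t : Top p W H) {r : ℕ} (hr : r.Prime) {R : Subgroup Γ} (hR : R ≤ H)
    (hRr : IsPGroup r R) {w : Γ} (hw : w ∈ W) (hRw : R ≤ 𝒞[w])
    (hmax : ∀ R', R ≤ R' → R' ≤ H → IsPGroup r R' → R' ≤ 𝒞[w] → R' ≤ R) {k : ℕ}
    (hk : k ^ r ≡ 1 [MOD p]) :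
    ∃ g ∈ H, g ∈ 𝒩(R) ∧ IsPGroup r (zpowers g) ∧ g * w * g⁻¹ = w ^ k := by
  have := Fact.mk hr
  have pk : ¬ p ∣ k := fun e => by
    have := (Nat.modEq_zero_iff_dvd.2 (dvd_pow e hr.ne_zero)).symm.trans hk
    exact t.prime.one_lt.ne' (Nat.dvd_one.1 (Nat.modEq_zero_iff_dvd.1 this.symm))
  obtain ⟨g, hg, -, e⟩ := t.ep H.one_mem hw (Commute.one_right w) pk
  obtain ⟨i, -, -, ⟨n, ho⟩, -, hi, -⟩ := exists_parts g hr 1 (M := 1) hr.not_dvd_one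
  have ki : k ^ i ≡ k [MOD p] := by
    rw [pow_one, Nat.ModEq, Nat.mod_eq_of_lt hr.one_lt] at hi
    rw [← Nat.div_add_mod i r, hi, pow_succ, pow_mul]
    simpa using (hk.pow (i / r)).mul_right k
  have e0 : g ^ i * w * (g ^ i)⁻¹ = w ^ k := by
    rw [conj_pow_iter e, pow_eq_pow_iff_modEq]
    exact ki.of_dvd (orderOf_dvd_of_pow_eq_one (t.pow hw))
  have hL : g ^ i ∈ H ⊓ 𝒩(zpowers w) := ⟨pow_mem hg i, mem_normalizer_of_cj_le (by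
    rw [cj_zpowers, e0, zpowers_le]; exact pow_mem (mem_zpowers w) k)⟩
  obtain ⟨S, hS, hRS⟩ := PLocal.Amb.exists_isSyl_ge hRr (L := H ⊓ 𝒩(zpowers w))
    (le_inf hR (le_norm_of_le_cent (cent_zpowers w ▸ hRw)))
  obtain ⟨l, hl, hle⟩ := hS.exists_cj_le (R := zpowers (g ^ i))
    (IsPGroup.of_card ((Nat.card_zpowers _).trans ho)) (zpowers_le.2 hL)
  have m : l * g ^ i * l⁻¹ ∈ S := hle ⟨_, mem_zpowers _, rfl⟩
  have eR : S ⊓ 𝒞[w] = R := le_antisymm (hmax _ (le_inf hRS hRw) (inf_le_left.trans (hS.le.trans inf_le_left))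
    (hS.pgrp.to_le inf_le_left) inf_le_right) (le_inf hRS hRw)
  refine ⟨_, (hS.le m).1, ?_, hS.pgrp.to_le (zpowers_le.2 m), ?_⟩
  · rw [← eR, ← cent_zpowers]
    exact norm_inf (le_norm_self S) (norm_cent (hS.le.trans inf_le_right)) m
  · obtain ⟨j, hj⟩ : l⁻¹ * w * l⁻¹⁻¹ ∈ zpowers w :=
      (mem_normalizer_iff.1 (inv_mem hl.2) w).1 (mem_zpowers w)
    have hj' : w ^ j = l⁻¹ * w * l := by rw [inv_inv] at hj; exact hj
    calc l * g ^ i * l⁻¹ * w * (l * g ^ i * l⁻¹)⁻¹ = l * (g ^ i * (l⁻¹ * w * l) * (g ^ i)⁻¹) * l⁻¹ := by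
          group
      _ = l * (w ^ j) ^ k * l⁻¹ := by
          rw [← hj', ← conj_zpow, e0, ← zpow_natCast, ← zpow_natCast, ← zpow_mul, ← zpow_mul, mul_comm j]
      _ = w ^ k := by rw [← conj_pow, hj']; congr 1; group

/-- Suppose `A ≠ ⊥`.  `W ⊓ C(A)` is normal in `Γ` (`decomp`), so `= ⊥` (`irr`, `faith`).  `R` maximal
among the `r`-subgroups of `H` with `U = W ⊓ C(R) ≠ ⊥`; `A ≰ R`.  Every `r`-subgroup `R' ≥ R` of `H`
centralising some `1 ≠ u ∈ W` equals `R`.  In the `r`-group `R ⊔ A > R` normalisers grow, so there is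
`b₀ = ρ a ∈ N(R) \ R`, `a ∈ B := A ⊓ N(R)`, `a ∉ R`; let `b = a ^ r ^ i ∉ R` with `b ^ r ∈ R`.  `k` of
order `r` modulo `p`.  For `1 ≠ w ∈ U` take `g` from `exists_norm`, `P = (R ⊔ B) ⊔ ⟨g⟩ ≤ H ⊓ N(R)` is
an `r`-group normalising `U`; `a ∈ P` fixing `1 ≠ u ∈ U` lies in `R` (`R' = R ⊔ ⟨a⟩`).  `g ^ r` fixes
`w`, `g` does not; `cyc`: `b w b⁻¹ = w ^ k ^ j`.  `scalar`: `b` acts on `U` as a scalar `m`,
`Top.ns`: `m ^ 2 ≡ 1`; `b ^ r ∈ R`, `r` odd: `m ^ r ≡ 1`, so `m ≡ 1` and `b ∈ R`. -/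
theorem Top.or_eq_bot (t : Top p W H) {r : ℕ} (hr : r.Prime) (h2 : r ≠ 2) (hd : r ∣ p - 1)
    {A : Subgroup Γ} (hA : A ≤ H) (hn : H ≤ 𝒩(A)) (hAr : IsPGroup r A) : A = ⊥ := by
  classical
  have := Fact.mk hr
  have := Fact.mk t.prime
  by_contra hA0
  have h0 : W ⊓ 𝒞(A) = ⊥ := by
    refine (t.irr _ (normalizer_eq_top_iff.1 (eq_top_iff.2 fun g _ => ?_)) inf_le_left).resolve_right
      fun e => hA0 (eq_bot_iff.2 (t.faith ▸ le_inf hA (le_cent_comm.1 (e ▸ inf_le_right))))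
    obtain ⟨w, hw, h, hh, rfl⟩ := t.decomp g
    exact mul_mem (le_norm_of_abelian inf_le_left t.elem.1 hw) (norm_inf (t.le_norm H) (norm_cent hn) hh)
  obtain ⟨R, ⟨hR, hRr, hU⟩, hm⟩ := (Set.toFinite
    {R : Subgroup Γ | R ≤ H ∧ IsPGroup r R ∧ W ⊓ 𝒞(R) ≠ ⊥}).exists_maximal
    ⟨⊥, bot_le, IsPGroup.of_bot, by rw [cent_bot, inf_top_eq]; exact t.ne⟩
  have mx : ∀ u ∈ W, u ≠ 1 → ∀ R', R ≤ R' → R' ≤ H → IsPGroup r R' → R' ≤ 𝒞[u] → R' ≤ R :=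
    fun u hu u1 R' a b c d => hm ⟨b, c, fun e => u1 (e.le ⟨hu, le_cent1_iff.1 d⟩)⟩ a
  have RU : ∀ u ∈ W ⊓ 𝒞(R), R ≤ 𝒞[u] := fun u hu => le_cent1_iff.2 hu.2
  have key : ∀ P, R ≤ P → P ≤ H → IsPGroup r P → ∀ x ∈ P, ∀ u ∈ W ⊓ 𝒞(R), u ≠ 1 → x ∈ 𝒞[u] → x ∈ R :=
    fun P a b c x hx u hu u1 e => mx u hu.1 u1 (P ⊓ 𝒞[u]) (le_inf a (RU u hu)) (inf_le_left.trans b)
      (c.to_le inf_le_left) inf_le_right ⟨hx, e⟩
  have RC : R ≤ 𝒞(W ⊓ 𝒞(R)) := le_cent_comm.1 inf_le_right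
  have hT : IsPGroup r ↥(R ⊔ A) := hRr.to_sup_of_normal_right' hAr (hR.trans hn)
  obtain ⟨x, hx, hxn, hxR⟩ := PLocal.exists_mem_normalizer_not_mem hT le_sup_left fun e =>
    hU (eq_bot_iff.2 (h0 ▸ inf_le_inf_left W (cent_anti (le_sup_right.trans e.ge))))
  obtain ⟨ρ, hρ, a, ha, rfl⟩ := (mem_sup_norm' (hR.trans hn)).1 hx
  have an : a ∈ 𝒩(R) := (mul_mem_cancel_left (le_norm_self R hρ)).1 hxn
  have aR : a ∉ R := fun e => hxR (mul_mem hρ e)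
  have ex : ∃ i, a ^ r ^ i ∈ R := by
    obtain ⟨n, hn⟩ := hAr ⟨a, ha⟩
    exact ⟨n, (show a ^ r ^ n = 1 from congrArg Subtype.val hn) ▸ R.one_mem⟩
  obtain ⟨i, hi⟩ := Nat.exists_eq_succ_of_ne_zero (n := Nat.find ex) fun e =>
    aR (by simpa [e] using Nat.find_spec ex)
  have bR : a ^ r ^ i ∉ R := Nat.find_min ex (by omega)
  have bR' : (a ^ r ^ i) ^ r ∈ R := by
    have := Nat.find_spec ex
    rwa [hi, pow_succ, pow_mul] at this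
  have bB : a ^ r ^ i ∈ A ⊓ 𝒩(R) := pow_mem (show a ∈ A ⊓ 𝒩(R) from ⟨ha, an⟩) _
  generalize a ^ r ^ i = b at bR bR' bB
  obtain ⟨κ, hκ⟩ := exists_prime_orderOf_dvd_card' (G := (ZMod p)ˣ) r (by
    rwa [Nat.card_eq_fintype_card, ZMod.card_units])
  have k1 : (κ : ZMod p).val ^ r ≡ 1 [MOD p] := by
    rw [← ZMod.natCast_eq_natCast_iff, Nat.cast_pow, ZMod.natCast_zmod_val, ← Units.val_pow_eq_pow_val,
      ← hκ, pow_orderOf_eq_one, Units.val_one, Nat.cast_one]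
  have k2 : ¬ (κ : ZMod p).val ≡ 1 [MOD p] := fun e => by
    rw [← ZMod.natCast_eq_natCast_iff, ZMod.natCast_zmod_val, Nat.cast_one, Units.val_eq_one] at e
    rw [e, orderOf_one] at hκ
    exact hr.one_lt.ne hκ
  generalize (κ : ZMod p).val = k at k1 k2
  have md : ∀ u ∈ W, u ≠ 1 → ∀ n : ℕ, u ^ n = u ↔ n ≡ 1 [MOD p] := fun u hu u1 n => by
    rw [← t.ord hu u1, ← pow_eq_pow_iff_modEq, pow_one]
  have ce : ∀ {x u : Γ}, x ∈ 𝒞[u] ↔ x * u * x⁻¹ = u := by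
    intro x u; rw [mem_cent1_iff, mul_inv_eq_iff_eq_mul]
  have hB : IsPGroup r ↥(R ⊔ A ⊓ 𝒩(R)) := hT.to_le (sup_le_sup_left inf_le_left R)
  obtain ⟨m, hm⟩ := scalar t.prime (U := W ⊓ 𝒞(R)) (b := b)
    ⟨abelian_of_le inf_le_left t.elem.1, fun u hu => t.elem.2 u hu.1⟩ fun w hw => by
      by_cases w1 : w = 1
      · exact ⟨1, by simp [w1]⟩
      obtain ⟨g, hg, gn, gp, e⟩ := t.exists_norm hr hR hRr hw.1 (RU w hw) (mx w hw.1 w1) k1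
      have gH : zpowers g ≤ H := zpowers_le.2 hg
      have gN : zpowers g ≤ 𝒩(R) := zpowers_le.2 gn
      have hP : IsPGroup r ↥((R ⊔ A ⊓ 𝒩(R)) ⊔ zpowers g) := hB.to_sup_of_normal_left' gp
        (norm_sup gN (norm_inf (gH.trans hn) (norm_norm gN)))
      have PH : (R ⊔ A ⊓ 𝒩(R)) ⊔ zpowers g ≤ H := sup_le (sup_le hR (inf_le_left.trans hA)) gH
      have PN : (R ⊔ A ⊓ 𝒩(R)) ⊔ zpowers g ≤ 𝒩(R) := sup_le (sup_le (le_norm_self R) inf_le_right) gN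
      have kP := key _ (le_sup_left.trans le_sup_left) PH hP
      have gP : g ∈ (R ⊔ A ⊓ 𝒩(R)) ⊔ zpowers g := mem_sup_right (mem_zpowers g)
      obtain ⟨j, hj⟩ := cyc hr h2 hP (norm_inf (t.le_norm _) (norm_cent PN)) (fun x hx => by
          by_contra! n
          obtain ⟨u, hu⟩ := ne_bot_iff_exists_ne_one.1 n.2
          exact n.1 (RC (kP x hx u u.2.1 (fun e => hu (Subtype.ext e)) (mem_cent1_comm.1 u.2.2))))
        gP (mem_sup_left (mem_sup_right bB))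
        (fun n => k2 ((md w hw.1 w1 k).1 (e.symm.trans (ce.1 (cent_le_cent1 hw n)))))
        (RC (kP _ (pow_mem gP r) w hw w1 (ce.2 ((conj_pow_iter e r).trans ((md w hw.1 w1 _).2 k1)))))
        (RC bR')
      exact ⟨_, (hj w hw).trans (conj_pow_iter e j)⟩
  have m2 := t.ns hR (hA bB.1) hU hm
  obtain ⟨u, u1⟩ := ne_bot_iff_exists_ne_one.1 hU
  have u1' : u.1 ≠ 1 := fun e => u1 (Subtype.ext e)
  have mr := (md u u.2.1 u1' _).1 ((conj_pow_iter (hm u u.2) r).symm.trans (ce.1 (RU u u.2 bR')))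
  obtain ⟨s, hs⟩ := hr.odd_of_ne_two h2
  have m1 : m ≡ 1 [MOD p] := by
    rw [hs, pow_succ, pow_mul] at mr
    refine .trans ?_ mr
    simpa using ((m2.pow s).mul_right m).symm
  exact bR (key _ le_sup_left (sup_le hR hA) hT b (mem_sup_right bB.1) u u.2 u1'
    (ce.2 ((hm u u.2).trans ((md u u.2.1 u1' m).2 m1))))

end Cfsg.Agent.AH
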