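import Mathlib
import Cfsg.Agent.AH.Or
import Cfsg.Agent.Solv.Coprime2

/-! S4162: fixed point free elements with small centralisers, part 2. -/

set_option autoImplicit false

namespace Cfsg.Agent.AH
open Cfsg Cfsg.Agent.FT Subgroup

variable {Γ : Type*} [Group Γ] [Finite Γ] {p : ℕ} {W H : Subgroup Γ}

namespace N6

open scoped commutatorElement

omit [Finite Γ] in
theorem mem_two {z e : Γ} (h2 : z ^ 2 = 1) (he : e ∈ zpowers z) : e = 1 ∨ e = z := by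
  obtain ⟨k, rfl⟩ := mem_zpowers_iff.1 he
  have h : z ^ (2 : ℤ) = 1 := by exact_mod_cast h2
  rw [zpow_eq_zpow_emod k h]
  rcases Int.emod_two_eq_zero_or_one k with r | r <;> simp [r]

omit [Finite Γ] in
theorem mem_three {u v : Γ} (h3 : u ^ 3 = 1) (hv : v ∈ zpowers u) : v = 1 ∨ v = u ∨ v = u⁻¹ := by
  obtain ⟨k, rfl⟩ := mem_zpowers_iff.1 hv
  have h : u ^ (3 : ℤ) = 1 := by exact_mod_cast h3
  rw [zpow_eq_zpow_emod k h]
  have : k % 3 = 0 ∨ k % 3 = 1 ∨ k % 3 = 2 := by omega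
  rcases this with r | r | r <;> rw [r]
  · simp
  · simp
  · right; right
    rw [eq_inv_iff_mul_eq_one, ← h]; group

omit [Finite Γ] in
theorem sq_two {z e : Γ} (h2 : z ^ 2 = 1) (he : e ∈ zpowers z) : e * e = 1 := by
  rcases mem_two h2 he with rfl | rfl
  · simp
  · rw [← sq, h2]

omit [Finite Γ] in
theorem comm_two {z e x : Γ} (hx : Commute x z) (he : e ∈ zpowers z) : Commute x e := by
  obtain ⟨k, rfl⟩ := mem_zpowers_iff.1 he
  exact hx.zpow_right k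

omit [Finite Γ] in
theorem act {u g : Γ} (h3 : orderOf u = 3) (hg : g ∈ 𝒩(zpowers u)) :
    Commute g u ∨ g * u * g⁻¹ = u⁻¹ := by
  have u1 : u ≠ 1 := by rintro rfl; simp at h3
  rcases mem_three (h3 ▸ pow_orderOf_eq_one u) ((mem_normalizer_iff.1 hg u).1 (mem_zpowers u))
    with e | e | e
  · exact (u1 (conj_eq_one_iff.1 e)).elim
  · exact Or.inl (mul_inv_eq_iff_eq_mul.1 e)
  · exact Or.inr e

omit [Finite Γ] in
theorem inv_inv_comm {u a b : Γ} (ha : a * u * a⁻¹ = u⁻¹) (hb : b * u * b⁻¹ = u⁻¹) :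
    Commute (a * b) u := by
  refine mul_inv_eq_iff_eq_mul.1 ?_
  calc a * b * u * (a * b)⁻¹ = a * (b * u * b⁻¹) * a⁻¹ := by group
    _ = (a * u * a⁻¹)⁻¹ := by rw [hb]; group
    _ = u := by rw [ha, inv_inv]

theorem six {u z : Γ} (hu : u ∈ H) (hz : z ∈ H) (h3 : orderOf u = 3)
    (h2 : orderOf z = 2) (hc : Commute u z) (h6 : cH H u ≤ 6) {g : Γ} (hg : g ∈ H)
    (h : Commute g u) : ∃ i < 3, ∃ e ∈ zpowers z, g = e * u ^ i := by
  have o : orderOf (u * z) = 6 := by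
    rw [hc.orderOf_mul_eq_mul_orderOf_of_coprime (by rw [h3, h2]; norm_num), h3, h2]
  have e : zpowers (u * z) = H ⊓ 𝒞[u] := eq_of_le_of_card_ge
    (zpowers_le.2 ⟨H.mul_mem hu hz, mem_cent1_iff.2 ((Commute.refl u).mul_left hc.symm).eq⟩)
    (by rw [Nat.card_zpowers, o]; exact h6)
  have : g ∈ zpowers (u * z) := e ▸ ⟨hg, mem_cent1_iff.2 h.eq⟩
  obtain ⟨n, rfl⟩ := mem_powers_iff_mem_zpowers.2 this
  refine ⟨n % 3, Nat.mod_lt _ (by norm_num), z ^ n, pow_mem (mem_zpowers z) n, ?_⟩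
  simp only
  rw [hc.mul_pow, (hc.pow_pow n n).eq, ← h3, pow_mod_orderOf]

theorem cube {u z : Γ} (hu : u ∈ H) (hz : z ∈ H) (h3 : orderOf u = 3)
    (h2 : orderOf z = 2) (hc : Commute u z) (h6 : cH H u ≤ 6) {g : Γ} (hg : g ∈ H)
    (h : Commute g u) : g ^ 3 ∈ zpowers z := by
  obtain ⟨i, -, e, he, rfl⟩ := six hu hz h3 h2 hc h6 hg h
  rw [((comm_two hc he).symm.pow_right i).mul_pow, ← pow_mul, mul_comm i, pow_mul, ← h3,
    pow_orderOf_eq_one, one_pow, mul_one]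
  exact pow_mem he _

omit [Finite Γ] in
theorem card_le {K : Subgroup Γ} {ι : Type} [Fintype ι] (f : ι → Γ) (h : ∀ x ∈ K, ∃ i, f i = x) :
    Nat.card K ≤ Fintype.card ι := by
  choose g hg using h
  rw [← Nat.card_eq_fintype_card]
  exact Nat.card_le_card_of_injective (fun x : K => g x x.2) fun x y e =>
    Subtype.ext (by rw [← hg x x.2, ← hg y y.2]; exact congrArg f e)

end N6

/-- Pure group theory: `K` is `Q₈`.  For `x ∈ K` put `x' = u x u⁻¹`, `x'' = u x' u⁻¹`;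
`x x' x'' = (x u) ^ 3 ∈ ⟨z⟩`, and for `x⁻¹`: `x'' x' x ∈ ⟨z⟩`; so `x x' ≡ x' x` modulo the central
`⟨z⟩`, i.e. `e = ⁅x, x'⁆ ∈ {1, z}`, and `x'' ∈ (x x')⁻¹ ⟨z⟩`.  Hence `x ^ 2` commutes with `x'`, and
with `x''`; the same for `x'`, `x''`.  The subgroup `A = closure {x ^ 2, x' ^ 2, x'' ^ 2}` is abelian
and `u`-invariant, so `x ^ 2 ∈ ⟨z⟩`.  If `x ^ 2 = 1` then `x' ^ 2 = x'' ^ 2 = 1`, `(x x') ^ 2 = 1`, so
`x, x', x''` commute, `closure {x, x', x''}` is abelian and `u`-invariant, `x ∈ ⟨z⟩`.  So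
`x ^ 2 = z` for `x ∈ K \ ⟨z⟩`.  Fix such `x₀` (else `|K| ≤ 2`).  If `y ∈ K` commutes with `x₀` then
`y ∈ ⟨z⟩` or `(x₀ y) ^ 2 = z z = 1`, `x₀ y ∈ ⟨z⟩`; so `|K ⊓ C(x₀)| ≤ 4`.  All `y x₀ y⁻¹ ∈ {x₀, x₀ z}`
(`K / ⟨z⟩` has exponent `2`: `y x₀ y⁻¹ x₀⁻¹ = (y x₀) ^ 2 · (…) ∈ ⟨z⟩`), so `|K : K ⊓ C(x₀)| ≤ 2`. -/
theorem q8 {K : Subgroup Γ} {u z : Γ} (h3 : u ^ 3 = 1) (h2 : z ^ 2 = 1) (hn : u ∈ 𝒩(K))
    (hz : ∀ x ∈ K, Commute x z) (huz : Commute u z) (hcube : ∀ x ∈ K, (x * u) ^ 3 ∈ zpowers z)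
    (hab : ∀ A ≤ K, IsMulCommutative A → u ∈ 𝒩(A) → A ≤ zpowers z) :
    (∀ x ∈ K, x ∉ zpowers z → x ^ 2 = z) ∧ Nat.card K ≤ 8 := by
  have cK : ∀ x ∈ K, u * x * u⁻¹ ∈ K := fun x hx => (mem_normalizer_iff.1 hn x).1 hx
  have cZ : ∀ e ∈ zpowers z, ∀ x ∈ K, Commute x e := fun e he x hx => N6.comm_two (hz x hx) he
  have u3 : ∀ x : Γ, u * (u * (u * x * u⁻¹) * u⁻¹) * u⁻¹ = x := fun x => by
    calc u * (u * (u * x * u⁻¹) * u⁻¹) * u⁻¹ = u ^ 3 * x * (u ^ 3)⁻¹ := by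
          simp only [pow_succ, pow_zero, one_mul]; group
      _ = x := by rw [h3]; group
  have cc : ∀ {a b : Γ}, Commute a b → Commute (u * a * u⁻¹) (u * b * u⁻¹) := fun {a b} h => by
    simpa using h.map (MulAut.conj u)
  have L1 : ∀ y ∈ K, Commute y (u * y * u⁻¹) → y ∈ zpowers z := fun y hy h => by
    have h' := cc h
    have h'' := cc h'
    rw [u3] at h''
    refine hab (closure {y, u * y * u⁻¹, u * (u * y * u⁻¹) * u⁻¹}) ?_ ?_ ?_ (subset_closure (by simp))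
    · rw [closure_le]
      rintro _ (rfl | rfl | rfl)
      exacts [hy, cK _ hy, cK _ (cK _ hy)]
    · refine isMulCommutative_closure ?_
      rintro _ (rfl | rfl | rfl) _ (rfl | rfl | rfl)
      exacts [rfl, h.eq, h''.symm.eq, h.symm.eq, rfl, h'.eq, h''.eq, h'.symm.eq, rfl]
    · refine mem_normalizer_of_cj_le ?_
      rw [cj_closure, closure_le]
      rintro _ ⟨_, rfl | rfl | rfl, rfl⟩
      · exact subset_closure (by simp)
      · exact subset_closure (by simp)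
      · simp only [u3]; exact subset_closure (by simp)
  have cub : ∀ x ∈ K, x * (u * x * u⁻¹) * (u * (u * x * u⁻¹) * u⁻¹) ∈ zpowers z := fun x hx => by
    have := hcube x hx
    rwa [show (x * u) ^ 3 = x * (u * x * u⁻¹) * (u * (u * x * u⁻¹) * u⁻¹) * u ^ 3 by
      simp only [pow_succ, pow_zero, one_mul]; group, h3, mul_one] at this
  have sq : ∀ x ∈ K, x ^ 2 ∈ zpowers z ∧ (x ^ 2 = 1 → x ∈ zpowers z) := fun x hx => by
    have h1 := cub x hx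
    have h2' := (zpowers z).inv_mem (cub _ (K.inv_mem hx))
    have hx' := cK x hx
    have hx'' := cK _ hx'
    have s' : (u * x * u⁻¹) ^ 2 = u * x ^ 2 * u⁻¹ := conj_pow
    have s'' : (u * (u * x * u⁻¹) * u⁻¹) ^ 2 = u * (u * x ^ 2 * u⁻¹) * u⁻¹ := by rw [conj_pow, s']
    rw [show (x⁻¹ * (u * x⁻¹ * u⁻¹) * (u * (u * x⁻¹ * u⁻¹) * u⁻¹))⁻¹ =
      u * (u * x * u⁻¹) * u⁻¹ * (u * x * u⁻¹) * x by simp [mul_assoc]] at h2'
    have L := L1 x hx
    have L' := L1 _ (K.pow_mem hx 2)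
    rw [← s'] at L'
    generalize u * (u * x * u⁻¹) * u⁻¹ = c at h1 h2' hx'' s''
    generalize u * x * u⁻¹ = b at h1 h2' hx' L L' s'
    have he := (zpowers z).mul_mem h1 ((zpowers z).inv_mem h2')
    have c1 := (cZ _ h1 c hx'').eq
    have e1 : x * b * c * (c * b * x)⁻¹ = (b * x)⁻¹ * (x * b) := by
      have c2 := (cZ _ h1 _ (K.inv_mem (K.mul_mem hx' hx))).eq
      calc x * b * c * (c * b * x)⁻¹ = x * b * c * (b * x)⁻¹ * c⁻¹ := by group
        _ = (b * x)⁻¹ * (x * b * c) * c⁻¹ := by rw [c2]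
        _ = (b * x)⁻¹ * (x * b) := by group
    rw [e1] at he
    obtain ⟨e, he, exb⟩ : ∃ e ∈ zpowers z, x * b = b * x * e := ⟨_, he, by group⟩
    have ee := N6.sq_two h2 he
    have ex := (cZ e he x hx).eq
    refine ⟨L' (Commute.pow_right ?_ 2), fun h => L ?_⟩
    · calc x ^ 2 * b = x * (x * b) := by rw [sq, mul_assoc]
        _ = x * (b * x * e) := by rw [← exb]
        _ = x * b * (x * e) := by group
        _ = b * x * (e * e) * x := by rw [exb, ex]; group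
        _ = b * x ^ 2 := by rw [ee, sq]; group
    · have cs : c * c = 1 := by rw [← sq, s'', h]; group
      have bs : b * b = 1 := by rw [← sq, s', h]; group
      have xs : x * x = 1 := by rw [← sq, h]
      have := N6.sq_two h2 h1
      have k : x * b * (x * b) = 1 := by
        calc x * b * (x * b) = x * b * (x * b * c) * c⁻¹ := by group
          _ = x * b * (x * b * c) * c := by rw [inv_eq_of_mul_eq_one_right cs]
          _ = x * b * (c * (x * b * c)) := by rw [c1]; group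
          _ = 1 := by rw [← this]; group
      calc x * b = (x * b)⁻¹ := eq_inv_of_mul_eq_one_left k
        _ = b * x := by rw [mul_inv_rev, inv_eq_of_mul_eq_one_right xs, inv_eq_of_mul_eq_one_right bs]
  have main : ∀ x ∈ K, x ∉ zpowers z → x ^ 2 = z := fun x hx h =>
    (N6.mem_two h2 (sq x hx).1).resolve_left fun e => h ((sq x hx).2 e)
  refine ⟨main, ?_⟩
  have fin : ∀ a b : Γ, (∀ y ∈ K, ∃ i j : Fin 2, ∃ e ∈ zpowers z, y = b ^ (i : ℕ) * a ^ (j : ℕ) * e) →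
      Nat.card K ≤ 8 := fun a b h =>
    N6.card_le (fun i : Fin 2 × Fin 2 × Fin 2 => b ^ (i.1 : ℕ) * a ^ (i.2.1 : ℕ) * z ^ (i.2.2 : ℕ))
      fun y hy => by
        obtain ⟨i, j, e, he, rfl⟩ := h y hy
        rcases N6.mem_two h2 he with rfl | rfl
        · exact ⟨(i, j, 0), by simp⟩
        · exact ⟨(i, j, 1), by simp⟩
  by_cases hK : K ≤ zpowers z
  · exact fin 1 1 fun y hy => ⟨0, 0, y, hK hy, by simp⟩
  obtain ⟨x, hx, hxz⟩ := SetLike.not_le_iff_exists.1 hK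
  have cen : ∀ y ∈ K, Commute y x → ∃ j : Fin 2, ∃ e ∈ zpowers z, y = x⁻¹ ^ (j : ℕ) * e :=
    fun y hy h => by
      by_cases hyz : y ∈ zpowers z
      · exact ⟨0, y, hyz, by simp⟩
      · refine ⟨1, x * y, (sq _ (K.mul_mem hx hy)).2 ?_, by simp⟩
        rw [h.symm.mul_pow, main x hx hxz, main y hy hyz, ← pow_two, h2]
  have cj2 : ∀ y ∈ K, Commute y x ∨ y * x * y⁻¹ = x * z := fun y hy => by
    have a1 := (sq _ (K.mul_mem hy hx)).1
    have a2 := (sq _ (K.inv_mem hy)).1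
    have a3 := (sq _ (K.inv_mem hx)).1
    have a4 := (zpowers z).mul_mem ((zpowers z).mul_mem a1 a2) a3
    have c := (cZ _ a2 _ (K.inv_mem hx)).eq
    have e : (y * x) ^ 2 * y⁻¹ ^ 2 * x⁻¹ ^ 2 = y * x * y⁻¹ * x⁻¹ := by
      calc (y * x) ^ 2 * y⁻¹ ^ 2 * x⁻¹ ^ 2 = (y * x) ^ 2 * (y⁻¹ ^ 2 * x⁻¹) * x⁻¹ := by
            simp only [pow_two]; group
        _ = (y * x) ^ 2 * (x⁻¹ * y⁻¹ ^ 2) * x⁻¹ := by rw [c]
        _ = _ := by simp only [pow_two]; group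
    rw [e] at a4
    rcases N6.mem_two h2 a4 with r | r
    · exact Or.inl (mul_inv_eq_iff_eq_mul.1 (mul_inv_eq_one.1 r))
    · exact Or.inr (by rw [(hz x hx).eq, ← r]; group)
  by_cases hall : ∀ y ∈ K, Commute y x
  · exact fin x⁻¹ 1 fun y hy => by
      obtain ⟨j, e, he, r⟩ := cen y hy (hall y hy)
      exact ⟨0, j, e, he, by simpa using r⟩
  push Not at hall
  obtain ⟨b, hb, hbx⟩ := hall
  refine fin x⁻¹ b fun y hy => ?_
  rcases cj2 y hy with h | h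
  · obtain ⟨j, e, he, r⟩ := cen y hy h
    exact ⟨0, j, e, he, by simpa using r⟩
  · have hb' := (cj2 b hb).resolve_left hbx
    obtain ⟨j, e, he, r⟩ := cen (b⁻¹ * y) (K.mul_mem (K.inv_mem hb) hy) (mul_inv_eq_iff_eq_mul.1 (by
      calc b⁻¹ * y * x * (b⁻¹ * y)⁻¹ = b⁻¹ * (y * x * y⁻¹) * b := by group
        _ = x := by rw [h, ← hb']; group))
    exact ⟨1, j, e, he, by rw [mul_assoc, ← r]; simp⟩

/-- The case `⟨u⟩ ⊴ H`.  `or_eq_bot` gives `3 ∤ p - 1`.  `g` from `exists_ord`.  `g ^ 2 ∈ H ⊓ C(u)`,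
which is `⟨u z⟩` of order `6`, so `g ^ 12 = 1`, `p - 1 ∣ 12`, `p = 5`, `4 ∣ o(g)`; replace `g` by
`g ^ 3`, of order `4`; `g ^ 2 = z` (the involution of `⟨u z⟩`), `g ∉ C(u)`.  `s g s⁻¹ = g⁻¹ = g z`
with `s ∈ H` (`invH`).  `s ∈ C` or `s g ∈ C` where `C = H ⊓ C(u) = ⟨u z⟩` (both invert `u`), so wlog
`s = u ^ i z ^ j`; then `s g s⁻¹ g⁻¹ = u ^ i (g u ^ i g⁻¹)⁻¹ ∈ ⟨u⟩` equals `z`, absurd. -/
theorem Top.n6_normal (t : Top p W H) {u z : Γ} (hu : u ∈ H) (hz : z ∈ H) (h3 : orderOf u = 3)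
    (h2 : orderOf z = 2) (hc : ∀ g ∈ H, Commute g z) (h6 : cH H u ≤ 6)
    (hn : H ≤ 𝒩(zpowers u)) : False := by
  have u1 : u ≠ 1 := by rintro rfl; simp at h3
  have z1 : z ≠ 1 := by rintro rfl; simp at h2
  have u3 : u ^ 3 = 1 := h3 ▸ pow_orderOf_eq_one u
  have z2 : z ^ 2 = 1 := h2 ▸ pow_orderOf_eq_one z
  have huz := hc u hu
  have n3 : ¬ 3 ∣ p - 1 := fun h => u1 (by
    have := t.or_eq_bot Nat.prime_three (by norm_num) h (zpowers_le.2 hu) hn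
      (IsPGroup.of_card (n := 1) (by rw [Nat.card_zpowers, h3, pow_one]))
    exact zpowers_eq_bot.1 this)
  have six : ∀ g ∈ H, Commute g u → g ^ 6 = 1 := fun g hg h => by
    rw [show 6 = 3 * 2 from rfl, pow_mul, sq]
    exact N6.sq_two z2 (N6.cube hu hz h3 h2 huz h6 hg h)
  obtain ⟨g₀, hg₀, ho⟩ := t.exists_ord
  have c2 : Commute (g₀ ^ 2) u := by
    rcases N6.act h3 (hn hg₀) with h | h
    · exact h.pow_left 2
    · rw [sq]; exact N6.inv_inv_comm h h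
  have g12 : g₀ ^ 12 = 1 := by
    rw [show 12 = 2 * 6 from rfl, pow_mul]; exact six _ (H.pow_mem hg₀ 2) c2
  have p4 : p - 1 = 4 := by
    have h1 := ho.trans (orderOf_dvd_of_pow_eq_one g12)
    have h2 := t.ge
    have h3 := Nat.le_of_dvd (by norm_num) h1
    have h4 : 4 ≤ p - 1 := by omega
    generalize p - 1 = m at h1 h3 h4 n3
    interval_cases m <;> simp_all
  rw [p4] at ho
  have g6 : g₀ ^ 6 ≠ 1 := fun h => by
    have := ho.trans (orderOf_dvd_of_pow_eq_one h)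
    omega
  have gz : (g₀ ^ 3) ^ 2 = z := by
    have := N6.cube hu hz h3 h2 huz h6 (H.pow_mem hg₀ 2) c2
    rw [← pow_mul] at this ⊢
    exact (N6.mem_two z2 this).resolve_left g6
  have hg := H.pow_mem hg₀ 3
  generalize g₀ ^ 3 = g at gz hg
  have gi : g * u * g⁻¹ = u⁻¹ := (N6.act h3 (hn hg)).resolve_left fun h => by
    have := six g hg h
    rw [show 6 = 2 * 3 from rfl, pow_mul, gz, pow_succ, z2, one_mul] at this
    exact z1 this
  have key : ∀ s ∈ H, Commute s u → s * g * s⁻¹ ≠ g⁻¹ := fun s hs h e => by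
    obtain ⟨i, -, e', he', rfl⟩ := N6.six hu hz h3 h2 huz h6 hs h
    have c := (N6.comm_two (hc _ (H.mul_mem (H.mul_mem (H.pow_mem hu i) hg)
      (H.inv_mem (H.pow_mem hu i)))) he').eq
    have e1 : u ^ i * g * (u ^ i)⁻¹ = g⁻¹ := by
      rw [← e]
      calc u ^ i * g * (u ^ i)⁻¹ = u ^ i * g * (u ^ i)⁻¹ * e' * e'⁻¹ := by group
        _ = e' * (u ^ i * g * (u ^ i)⁻¹) * e'⁻¹ := by rw [c]
        _ = _ := by group
    have e2 : g * (u ^ i)⁻¹ * g⁻¹ = u ^ i := by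
      rw [← inv_pow, ← conj_pow, ← conj_inv, gi, inv_inv]
    have e3 : u ^ i * u ^ i = z⁻¹ := by
      calc u ^ i * u ^ i = u ^ i * (g * (u ^ i)⁻¹ * g⁻¹) := by rw [e2]
        _ = u ^ i * g * (u ^ i)⁻¹ * g⁻¹ := by group
        _ = z⁻¹ := by rw [e1, ← gz]; group
    have e4 : z⁻¹ ^ 3 = 1 := by rw [← e3, ← pow_add, ← pow_mul, mul_comm, pow_mul, u3, one_pow]
    rw [inv_pow, inv_eq_one, pow_succ, z2, one_mul] at e4
    exact z1 e4
  obtain ⟨s, hs, e⟩ := t.invH hg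
  rcases N6.act h3 (hn hs) with h | h
  · exact key s hs h e
  · exact key (s * g) (H.mul_mem hs hg) (N6.inv_inv_comm h gi) (by rw [← e]; group)

/-- `C = H ⊓ C(u) = ⟨u z⟩` has order `6`.  `u` is fixed point free by `dvd_cH` (`3 (p - 1) ∤ 6`).
`K` from `not_sq_dvd`, `s3l` (`D = H`); `z ∈ K` by maximality (`K' = ⟨z⟩`); `K ⊓ C(u) ≤ ⟨z⟩`.
`q8` applies: `hcube`: `g = x u` has `3 ∣ o(g)` (else `g ∈ K ⊔ ⟨u⟩` has image of order `3` modulo
`K`; e.g. `g ^ m ∈ K u ^ m`), its `3`-part `v` has order `3` (`9 ∤ |H|`), is conjugate in `H` into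
`⟨u⟩` (`conj_zpowers`), so a conjugate `g'` of `g` is in `C`, `g' ^ 3 ∈ ⟨z⟩` central.  `hab`:
`B = ⁅A, ⟨u⟩⁆ ≤ A` has `B ⊓ C(u) = ⊥` (`Solv.coprime_centralizer_inf_commutator`), `fa2` and `faith`
give `B = ⊥`, so `A ≤ K ⊓ C(u)`.  If `K ≤ ⟨z⟩` then `H ≤ N(⟨u⟩)`, `n6_normal`.  Otherwise: `s ∈ H`
inverting `u` (`invH`), `s ^ 2 ∈ C` commutes with `s`, so `s ^ 2 ∈ ⟨z⟩`.  There is `x ∈ K` with
`x s x s⁻¹ ∉ ⟨z⟩`: otherwise `s` centralises `K` modulo `⟨z⟩` (as `x⁻¹ ∈ x ⟨z⟩`), so does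
`u s u⁻¹ s⁻¹ = u ^ 2`, and `u`; for `x ∉ ⟨z⟩`, `u x u⁻¹ = x z ^ i` gives `u ^ 2 x u⁻¹ ^ 2 = x`, so
`x ∈ K ⊓ C(u) ≤ ⟨z⟩`.  Then `(x s) ^ 2 = x s x s⁻¹ s ^ 2 ∈ K \ ⟨z⟩`, `(x s) ^ 4 = z`, `o(x s) = 8`,
`rn`: `32 ∣ |H|`, also `3 ∣ |H|`.  But `N = H ⊓ N(⟨u⟩)` has order `≤ 12` (`C` has index `≤ 2`),
`H = K N`, `z ∈ K ⊓ N`, so `|H| ≤ 8 · 12 / 2 = 48 < 96`
(`Subgroup.card_mul…`/`Grp.card_sup_mul_card_inf…`; cheaper: `|H| ∣ |K| |N|`, `|K| ≤ 8`, `|N| ≤ 12`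
gives only `≤ 96`, so use `|K ⊓ N| ≥ 2`). -/
theorem Top.n6 (t : Top p W H) {u z : Γ} (hu : u ∈ H) (hz : z ∈ H) (h3 : orderOf u = 3)
    (h2 : orderOf z = 2) (hfz : W ⊓ 𝒞[z] = ⊥) : 6 < cH H u := by
  by_contra h6
  replace h6 : cH H u ≤ 6 := not_lt.1 h6
  have u1 : u ≠ 1 := by rintro rfl; simp at h3
  have z1 : z ≠ 1 := by rintro rfl; simp at h2
  have u3 : u ^ 3 = 1 := h3 ▸ pow_orderOf_eq_one u
  have z2 : z ^ 2 = 1 := h2 ▸ pow_orderOf_eq_one z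
  have hc : ∀ g ∈ H, Commute g z := fun g hg => t.central_of_fpf hz z2 hfz hg
  have huz := hc u hu
  have cpos : 0 < cH H u := Nat.card_pos
  have hf : W ⊓ 𝒞[u] = ⊥ := by
    by_contra h
    have h1 := Nat.le_of_dvd cpos (t.dvd_cH hu h)
    have h2 := t.ge
    rw [h3] at h1
    omega
  have h9 : ¬ 3 ^ 2 ∣ Nat.card H := not_sq_dvd Nat.prime_three hu h3 fun h => by
    have := Nat.le_of_dvd cpos h
    omega
  obtain ⟨K, KH, nK, K3, -, Kmax, fr⟩ := s3l t.solvH Nat.prime_three hu h3 h9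
  have cK : ∀ g ∈ H, ∀ x ∈ K, g * x * g⁻¹ ∈ K := fun g hg x hx => (mem_normalizer_iff.1 (nK hg) x).1 hx
  have ZK : zpowers z ≤ K := Kmax _ (zpowers_le.2 hz)
    (le_norm_of_le_cent (by rw [cent_zpowers]; exact fun g hg => mem_cent1_iff.2 (hc g hg).eq))
    (by rw [Nat.card_zpowers, h2]; norm_num)
  have cZ : ∀ e ∈ zpowers z, ∀ g ∈ H, Commute g e := fun e he g hg => N6.comm_two (hc g hg) he
  have Ku : ∀ i : ℕ, u ^ i ∈ K → u ^ i = 1 := fun i h => by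
    have h1 : orderOf (u ^ i) ∣ 3 := h3 ▸ orderOf_pow_dvd i
    rcases (Nat.dvd_prime Nat.prime_three).1 h1 with r | r
    · exact orderOf_eq_one_iff.1 r
    · exact (K3 (r ▸ K.orderOf_dvd_natCard h)).elim
  have KC : ∀ x ∈ K, Commute x u → x ∈ zpowers z := fun x hx h => by
    obtain ⟨i, -, e, he, rfl⟩ := N6.six hu hz h3 h2 huz h6 (KH hx) h
    rw [Ku i ((K.mul_mem_cancel_left (ZK he)).1 hx), mul_one]
    exact he
  obtain ⟨sqz, K8⟩ := q8 (K := K) u3 z2 (nK hu) (fun x hx => hc x (KH hx)) huz (fun x hx => by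
      have gH : x * u ∈ H := H.mul_mem (KH hx) hu
      have m : ∀ m : ℕ, (x * u) ^ m * (u ^ m)⁻¹ ∈ K := fun m => by
        induction m with
        | zero => simp
        | succ m ih =>
          have := K.mul_mem ih (cK _ (H.pow_mem hu m) x hx)
          rwa [show (x * u) ^ m * (u ^ m)⁻¹ * (u ^ m * x * (u ^ m)⁻¹) =
            (x * u) ^ (m + 1) * (u ^ (m + 1))⁻¹ by rw [pow_succ, pow_succ']; group] at this
      have d3 : 3 ∣ orderOf (x * u) := by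
        have := m (orderOf (x * u))
        rw [pow_orderOf_eq_one, one_mul, K.inv_mem_iff] at this
        exact h3 ▸ orderOf_dvd_of_pow_eq_one (Ku _ this)
      generalize x * u = g at gH d3
      obtain ⟨d, hd, e⟩ := conj_zpowers Nat.prime_three h9 hu (H.pow_mem gH (orderOf g / 3)) h3
        (orderOf_pow_orderOf_div (orderOf_pos g).ne' d3)
      have c : Commute (d * g * d⁻¹) (d * g ^ (orderOf g / 3) * d⁻¹) := by
        rw [← conj_pow]; exact (Commute.refl _).pow_right _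
      have c' : Commute (d * g * d⁻¹) u := by
        rcases N6.mem_three u3 e with r | r | r
        · have := orderOf_pow_orderOf_div (orderOf_pos g).ne' d3
          rw [conj_eq_one_iff.1 r, orderOf_one] at this
          omega
        · rwa [r] at c
        · rw [r] at c; simpa using c.inv_right
      have h1 := N6.cube hu hz h3 h2 huz h6 (H.mul_mem (H.mul_mem hd gH) (H.inv_mem hd)) c'
      have h4 := (cZ _ h1 _ (H.inv_mem hd)).eq
      rw [conj_pow] at h1 h4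
      have : g ^ 3 = d * g ^ 3 * d⁻¹ := by
        calc g ^ 3 = d⁻¹ * (d * g ^ 3 * d⁻¹) * d := by group
          _ = _ := by rw [h4]; group
      rwa [this])
    (fun A AK Ac uA a ha => by
      have nA : zpowers u ≤ 𝒩(A) := zpowers_le.2 uA
      have BA : ⁅A, zpowers u⁆ ≤ A := comm_le_left nA
      have A3 : ¬ 3 ∣ Nat.card A := fun h => K3 (h.trans (card_dvd_of_le AK))
      have B0 := Solv.coprime_centralizer_inf_commutator (zpowers u) A nA (by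
        rw [Nat.card_zpowers, h3]; exact (Nat.Prime.coprime_iff_not_dvd Nat.prime_three).2 A3)
      have BW := fa2 t.prime (K := ⁅A, zpowers u⁆) (h := u) t.elem t.solvH
        (fun h => t.ndvd (h.trans (card_dvd_of_le (BA.trans (AK.trans KH)))))
        (h3 ▸ Nat.prime_three) (fun h => A3 (h3 ▸ h.trans (card_dvd_of_le BA))) (t.le_norm _)
        (t.le_norm ⊤ trivial) (norm_comm nA (le_norm_self _) (mem_zpowers u))
        (fun b hb => by
          have : b ∈ (A ⊓ 𝒞(zpowers u)) ⊓ ⁅A, zpowers u⁆ := ⟨⟨BA hb.1, (cent_zpowers u).ge hb.2⟩, hb.1⟩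
          rw [B0] at this
          rw [mem_bot.1 this]; exact one_mem _) hf
      have hb := commutator_mem_commutator ha (mem_zpowers u)
      have : _ ∈ H ⊓ 𝒞(W) := ⟨KH (AK (BA hb)), BW hb⟩
      rw [t.faith] at this
      exact KC a (AK ha) (commutatorElement_eq_one_iff_commute.1 (mem_bot.1 this)))
  by_cases hK : K ≤ zpowers z
  · refine t.n6_normal hu hz h3 h2 hc h6 fun d hd => ?_
    obtain ⟨κ, hκ, n, -, hn, rfl⟩ := fr d hd
    refine mul_mem (cent_le_norm _ ?_) hn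
    rw [cent_zpowers]
    exact mem_cent1_iff.2 (cZ κ (hK hκ) u hu).symm.eq
  obtain ⟨x₀, hx₀, x₀z⟩ := SetLike.not_le_iff_exists.1 hK
  obtain ⟨s, hs, su⟩ := t.invH hu
  have s2 : s * s ∈ zpowers z := by
    obtain ⟨i, -, e, he, r⟩ := N6.six hu hz h3 h2 huz h6 (H.mul_mem hs hs) (N6.inv_inv_comm su su)
    have c := (cZ e he s hs).eq
    have e1 : s * u ^ i * s⁻¹ = (u ^ i)⁻¹ := by rw [← conj_pow, su, inv_pow]
    have e2 : e * u ^ i = e * (u ^ i)⁻¹ := by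
      calc e * u ^ i = s * (e * u ^ i) * s⁻¹ := by rw [← r]; group
        _ = s * e * u ^ i * s⁻¹ := by group
        _ = _ := by rw [c, ← e1]; group
    have e3 : u ^ i * u ^ i = 1 := mul_eq_one_iff_eq_inv.2 (mul_left_cancel e2)
    have e4 : u ^ i * u ^ i * u ^ i = 1 := by
      rw [← pow_add, ← pow_add, show i + i + i = 3 * i by ring, pow_mul, u3, one_pow]
    rw [e3, one_mul] at e4
    rwa [r, e4, mul_one]
  have sqK : ∀ x ∈ K, x * x ∈ zpowers z := fun x hx => by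
    by_cases h : x ∈ zpowers z
    · exact mul_mem h h
    · rw [← sq, sqz x hx h]; exact mem_zpowers z
  obtain ⟨x, hx, xs⟩ : ∃ x ∈ K, x * (s * x * s⁻¹) ∉ zpowers z := by
    by_contra hh
    push Not at hh
    have Q : ∀ x ∈ K, ∃ e ∈ zpowers z, s * x * s⁻¹ = x * e := fun x hx =>
      ⟨_, mul_mem (inv_mem (sqK x hx)) (hh x hx), by group⟩
    have Q2 : ∀ x ∈ K, ∃ e ∈ zpowers z, u * u * x * (u * u)⁻¹ = x * e := fun x hx => by
      obtain ⟨e, he, r⟩ := Q (s⁻¹ * x * s⁻¹⁻¹) (cK _ (H.inv_mem hs) x hx)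
      obtain ⟨e', he', r'⟩ := Q (u⁻¹ * x * u⁻¹⁻¹) (cK _ (H.inv_mem hu) x hx)
      have uu : u * u = u * s * u⁻¹ * s⁻¹ := by
        calc u * u = u * (s * u * s⁻¹)⁻¹ := by rw [su, inv_inv]
          _ = _ := by group
      have r1 : s⁻¹ * x * s = x * e⁻¹ := by
        rw [eq_mul_inv_iff_mul_eq, ← inv_inv s, inv_inv s⁻¹, ← r]; group
      have c1 := (cZ _ (inv_mem he) _ (H.inv_mem (H.mul_mem (H.mul_mem hu hs) (H.inv_mem hu)))).eq
      have c2 := (cZ _ he' _ (H.inv_mem hu)).eq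
      refine ⟨e' * e⁻¹, mul_mem he' (inv_mem he), ?_⟩
      calc u * u * x * (u * u)⁻¹ = u * s * u⁻¹ * (s⁻¹ * x * s) * (u * s * u⁻¹)⁻¹ := by rw [uu]; group
        _ = u * s * u⁻¹ * x * (e⁻¹ * (u * s * u⁻¹)⁻¹) := by rw [r1]; group
        _ = u * (s * (u⁻¹ * x * u⁻¹⁻¹) * s⁻¹) * u⁻¹ * e⁻¹ := by rw [← c1]; group
        _ = x * u * (e' * u⁻¹) * e⁻¹ := by rw [r']; group
        _ = x * (e' * e⁻¹) := by rw [← c2]; group
    obtain ⟨e, he, r⟩ := Q2 x₀ hx₀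
    have c := (cZ e he _ (H.inv_mem (H.mul_mem hu hu))).eq
    have u4 : u * u * (u * u) = u := by
      rw [show u * u * (u * u) = u ^ 3 * u by simp only [pow_succ, pow_zero, one_mul]; group, u3,
        one_mul]
    refine x₀z (KC x₀ hx₀ (Commute.symm (mul_inv_eq_iff_eq_mul.1 ?_)))
    calc u * x₀ * u⁻¹ = u * u * (u * u * x₀ * (u * u)⁻¹) * (u * u)⁻¹ := by
          conv_lhs => rw [← u4]
          group
      _ = u * u * x₀ * (e * (u * u)⁻¹) := by rw [r]; group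
      _ = u * u * x₀ * (u * u)⁻¹ * e := by rw [← c]; group
      _ = x₀ := by rw [r, mul_assoc, N6.sq_two z2 he, mul_one]
  have yH : x * s ∈ H := H.mul_mem (KH hx) hs
  have y4 : (x * s) ^ 2 ^ 2 = z := by
    have e : (x * s) ^ 2 = x * (s * x * s⁻¹) * (s * s) := by rw [sq]; group
    rw [sq 2, pow_mul]
    refine sqz _ (e ▸ K.mul_mem (K.mul_mem hx (cK s hs x hx)) (ZK s2)) fun h => xs ?_
    rw [e] at h
    exact ((zpowers z).mul_mem_cancel_right s2).1 h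
  have y8 : orderOf (x * s) = 2 ^ (2 + 1) := orderOf_eq_prime_pow (by rw [y4]; exact z1)
    (by rw [pow_succ, pow_mul, y4, z2])
  have d1 := t.rn yH
  have d2 := Top.ord_dvd_cH yH (Commute.refl (x * s))
  rw [y8] at d1 d2
  have d3 : 32 ∣ Nat.card H :=
    (Nat.mul_dvd_mul (show 4 ∣ Nat.totient (2 ^ (2 + 1)) by decide) d2).trans d1
  have d4 : 3 ∣ Nat.card H := h3 ▸ H.orderOf_dvd_natCard hu
  have d5 : 96 ≤ Nat.card H := Nat.le_of_dvd Nat.card_pos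
    (Nat.Coprime.mul_dvd_of_dvd_of_dvd (show Nat.Coprime 32 3 by norm_num) d3 d4)
  have d6 : Nat.card H ≤ Nat.card (K × Fin 3 × Fin 2) := by
    refine Nat.card_le_card_of_surjective (fun i : K × Fin 3 × Fin 2 =>
      (⟨i.1 * u ^ (i.2.1 : ℕ) * s ^ (i.2.2 : ℕ), H.mul_mem (H.mul_mem (KH i.1.2) (H.pow_mem hu _))
        (H.pow_mem hs _)⟩ : H)) fun d => ?_
    obtain ⟨κ, hκ, n, hn, nu, r⟩ := fr d.1 d.2
    rcases N6.act h3 nu with h | h
    · obtain ⟨i, hi, e, he, r'⟩ := N6.six hu hz h3 h2 huz h6 hn h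
      exact ⟨(⟨κ * e, K.mul_mem hκ (ZK he)⟩, ⟨i, hi⟩, 0), Subtype.ext (by simp [r, r', mul_assoc])⟩
    · have su' : s⁻¹ * u * s⁻¹⁻¹ = u⁻¹ := by
        calc s⁻¹ * u * s⁻¹⁻¹ = (s⁻¹ * u⁻¹ * s)⁻¹ := by group
          _ = (s⁻¹ * (s * u * s⁻¹) * s)⁻¹ := by rw [su]
          _ = u⁻¹ := by group
      obtain ⟨i, hi, e, he, r'⟩ := N6.six hu hz h3 h2 huz h6 (H.mul_mem hn (H.inv_mem hs))
        (N6.inv_inv_comm h su')
      exact ⟨(⟨κ * e, K.mul_mem hκ (ZK he)⟩, ⟨i, hi⟩, 1), Subtype.ext (by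
        simp only [Fin.val_one, pow_one, r, mul_assoc κ, ← r']; group)⟩
  rw [Nat.card_prod, show Nat.card (Fin 3 × Fin 2) = 6 by simp] at d6
  clear d1 d2 d3 d4 K3 h9
  omega

end Cfsg.Agent.AH
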