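import Mathlib
import Cfsg.Agent.AH.N6a
import Cfsg.Agent.AH.N6b
import Cfsg.Agent.FH.SG
import Cfsg.Agent.FH.Frob
import Cfsg.Agent.Grp.Fitting

/-! S4162: fixed point free elements of order dividing `6` or `9`. -/

set_option autoImplicit false

namespace Cfsg.Agent.AH.Top
open Cfsg Cfsg.Agent.FT Subgroup

variable {Γ : Type*} [Group Γ] [Finite Γ] {p : ℕ} {W H : Subgroup Γ} (t : Top p W H)
include t

theorem n9_key {u z : Γ} (hu : u ∈ H) (hz : z ∈ H) (h3 : orderOf u = 3) (h2 : orderOf z = 2)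
    (hc : Commute u z) (hf : W ⊓ 𝒞[u * z] = ⊥) : 6 < cH H (u * z) := by
  by_contra! h6
  have fz := t.fpf_of_six hu hz h3 h2 hc hf h6
  refine absurd ((t.n6 hu hz h3 h2 fz).trans_le (card_le_of_le (K := H ⊓ 𝒞[u * z])
    fun g hg => ⟨hg.1, ?_⟩)) (not_lt.2 h6)
  exact mem_cent1_iff.2 (Commute.mul_right (mem_cent1_iff.1 hg.2)
    (t.central_of_fpf hz (by rw [← h2, pow_orderOf_eq_one]) fz hg.1))

omit t [Finite Γ] in
theorem n9_norm (N : Subgroup H) [hN : N.Normal] : H ≤ 𝒩(N.map H.subtype) := by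
  have := le_normalizer_map (H := N) H.subtype
  rwa [normalizer_eq_top, ← MonoidHom.range_eq_map, range_subtype] at this

/-- `o(h) ∈ {1, 2}`: `n2`.  `o(h) = 6`: `u = h ^ 4`, `z = h ^ 3`, `h = u z`, `fpf_of_six`, `n6`, and
`cH u = cH h` as `z` is central.  `o(h) = 3`: `3 ∣ cH h ≤ 6`, `n3`; for `cH h = 6` take an involution
`z ∈ H ⊓ C(h)`; `C(h z) ≤ C(h)` (`h = (h z) ^ 4`), `fpf_of_six`, `n6`. -/
theorem n66 {h : Γ} (hh : h ∈ H) (h6 : h ^ 6 = 1) (hf : W ⊓ 𝒞[h] = ⊥) : 6 < cH H h := by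
  have : Fact (Nat.Prime 2) := ⟨Nat.prime_two⟩
  have : Fact (Nat.Prime 3) := ⟨Nat.prime_three⟩
  by_cases h2 : h ^ 2 = 1
  · exact t.n2 hh h2 hf
  have e7 : h ^ 4 * h ^ 3 = h := by rw [← pow_add, show 4 + 3 = 6 + 1 from rfl, pow_succ, h6, one_mul]
  by_cases h3 : h ^ 3 = 1
  · have o3 : orderOf h = 3 := orderOf_eq_prime h3 (by rintro rfl; exact h2 (one_pow 2))
    by_contra! l
    have d := o3 ▸ ord_dvd_cH hh (Commute.refl h)
    have n := t.n3 hh o3 hf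
    have pos : 0 < cH H h := Nat.card_pos
    obtain ⟨z, hz⟩ := exists_prime_orderOf_dvd_card' (G := (H ⊓ 𝒞[h] : Subgroup Γ)) 2
      (show 2 ∣ cH H h by omega)
    rw [← orderOf_coe] at hz
    have c : Commute h z := (mem_cent1_iff.1 z.2.2).symm
    have e : 𝒞[h * z] ≤ 𝒞[h] := by
      have := cent1_le_cent1_pow (h * z) 4
      rwa [c.mul_pow, orderOf_dvd_iff_pow_eq_one.1 (hz ▸ by norm_num : orderOf (z : Γ) ∣ 4), mul_one,
        pow_succ, h3, one_mul] at this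
    exact absurd ((t.n9_key hh z.2.1 o3 hz c (eq_bot_iff.2 ((inf_le_inf_left _ e).trans hf.le))).trans_le
      (card_le_of_le (inf_le_inf_left _ e))) (not_lt.2 l)
  · have := t.n9_key (pow_mem hh 4) (pow_mem hh 3) (orderOf_eq_prime
      (by rw [← pow_mul, show 4 * 3 = 6 * 2 from rfl, pow_mul, h6, one_pow]) fun e => h2 (by
        rw [← h6, show 6 = 4 + 2 from rfl, pow_add, e, one_mul]))
      (orderOf_eq_prime (by rw [← pow_mul, h6]) h3) (Commute.pow_pow_self h 4 3) (by rwa [e7])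
    rwa [e7] at this

/-- Suppose `cH h ≤ 9`.  `h ≠ 1`, `o(h) = 3 ^ (n + 1)`, `n ≤ 1`, and `cH h = 9` (`o(h) ∣ cH h`, `n66`).
`F = (fittingSubgroup H).map H.subtype`; `3 ∤ |F|` (`or_eq_bot` for `O₃(H)`; `F` nilpotent), so
`F ⊓ C(h) = ⊥`.  `K = W ⊔ F` is normal, `3 ∤ |K|`, `K ⊓ C(h) = ⊥` (`w f ∈ C(h)` gives
`f h f⁻¹ h⁻¹ ∈ W`, `eq_of_mem`).  `FH.sg_res`: `res E = ⊥` for `E = ⁅K, ⟨u⟩⁆`, `u = h ^ 3 ^ n` of order
`3`.  `Q = ⁅F, ⟨u⟩⁆ ≤ E`, `⁅W, Q⁆ ≤ E` (`K ≤ N(E)`), `⁅⁅W, Q⁆, Q⁆ ≤ res E` (`FH.comm_le_res`), so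
`⁅W, Q⁆ = ⊥` (`Solv.coprime_commutator_eq_bot`), `Q = ⊥` (`faith`), `u ∈ C_H(F) ≤ F` (`H` solvable,
file `Grp/Fitting`), absurd. -/
theorem n99 (h3 : 3 ∣ p - 1) {h : Γ} (hh : h ∈ H) (h9 : h ^ 9 = 1) (hf : W ⊓ 𝒞[h] = ⊥) :
    9 < cH H h := by
  have : Fact (Nat.Prime 3) := ⟨Nat.prime_three⟩
  have : Fact p.Prime := ⟨t.prime⟩
  have := t.normal
  have := t.solvH (K := H)
  by_contra! l
  obtain ⟨i, i2, hi⟩ := (Nat.dvd_prime_pow Nat.prime_three).1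
    (show orderOf h ∣ 3 ^ 2 from orderOf_dvd_of_pow_eq_one h9)
  obtain _ | n := i
  · rw [pow_zero, orderOf_eq_one_iff] at hi
    rw [hi, cent1_one, inf_top_eq] at hf
    exact t.ne hf
  have c9 : cH H h = 9 := by
    have d := hi ▸ ord_dvd_cH hh (Commute.refl h)
    have pos : 0 < cH H h := Nat.card_pos
    obtain rfl | rfl : n = 0 ∨ n = 1 := by omega
    · have := t.n66 hh (orderOf_dvd_iff_pow_eq_one.1 (by rw [hi]; norm_num)) hf
      omega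
    · omega
  obtain ⟨F, hF⟩ : ∃ F, F = (fittingSubgroup H).map H.subtype := ⟨_, rfl⟩
  have FH' : F ≤ H := hF ▸ map_subtype_le _
  have nF : H ≤ 𝒩(F) := hF ▸ n9_norm _
  have F3 : (Nat.card F).Coprime 3 := by
    have e : pCore 3 H = ⊥ := (map_eq_bot_iff_of_injective _ H.subtype_injective).1
      (t.or_eq_bot Nat.prime_three (by norm_num) h3 (map_subtype_le _) (n9_norm _)
        ((Grp.pCore_isPGroup 3 H).map _))
    rw [hF, card_map_of_injective H.subtype_injective]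
    exact (Grp.pPrimeCore_coprime 3 H).coprime_dvd_left
      (card_dvd_of_le (Grp.fitting_le_pPrimeCore_of_pCore_eq_bot e))
  have Fh : F ⊓ 𝒞[h] = ⊥ := card_eq_one.1 (Nat.eq_one_of_dvd_coprimes (F3.pow_right 2)
    (card_dvd_of_le inf_le_left) ((card_dvd_of_le (inf_le_inf_right _ FH')).trans c9.dvd))
  have Wp : IsPGroup p W := fun w => ⟨1, Subtype.ext (by rw [pow_one]; exact t.pow w.2)⟩
  have K3 : ¬ 3 ∣ Nat.card (F ⊔ W : Subgroup Γ) := fun d =>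
    ((Nat.prime_three.dvd_mul).1 (d.trans (Grp.card_sup_dvd F W))).elim
      (Nat.prime_three.coprime_iff_not_dvd.1 F3.symm)
      (FH.not_dvd_pgroup Nat.prime_three t.prime (by have := t.ge; omega) Wp)
  have Kh : (F ⊔ W) ⊓ 𝒞[h] = ⊥ := eq_bot_iff.2 fun x hx => by
    obtain ⟨f, hf', w, hw, rfl⟩ := mem_sup_of_normal_right.1 hx.1
    have c := mem_cent1_iff.1 hx.2
    have e : f⁻¹ * h * f = h := t.eq_of_mem (mul_mem (mul_mem (inv_mem (FH' hf')) hh) (FH' hf')) hh (by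
      have e1 : f⁻¹ * h * f = w * h * w⁻¹ := by
        rw [eq_mul_inv_iff_mul_eq, mul_assoc, mul_assoc, ← c]; group
      rw [e1, mul_assoc w, mul_assoc w]
      exact mul_mem hw (t.conj_mem (inv_mem hw) h))
    have f1 : f = 1 := mem_bot.1 (Fh.le ⟨hf', mem_cent1_iff.2 (by
      rw [mul_assoc, inv_mul_eq_iff_eq_mul] at e; exact e.symm)⟩)
    rw [f1, one_mul] at hx ⊢
    exact hf.le ⟨hw, hx.2⟩
  have uH : zpowers (h ^ 3 ^ n) ≤ H := zpowers_le.2 (pow_mem hh _)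
  have r := FH.sg_res Nat.prime_three t.solvH hi (.inl (by norm_num))
    (norm_sup nF (t.le_norm H) hh) K3 Kh
  have QF : ⁅F, zpowers (h ^ 3 ^ n)⁆ ≤ F := Solv.commutator_le_of_le_normalizer (uH.trans nF)
  have QE : ⁅F, zpowers (h ^ 3 ^ n)⁆ ≤ ⁅F ⊔ W, zpowers (h ^ 3 ^ n)⁆ := commutator_mono le_sup_left le_rfl
  have cop : (Nat.card (⁅F, zpowers (h ^ 3 ^ n)⁆ : Subgroup Γ)).Coprime (Nat.card W) :=
    FH.cop_of_not_dvd t.prime Wp fun d => t.ndvd (d.trans (card_dvd_of_le (QF.trans FH')))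
  have WQ : ⁅W, ⁅F, zpowers (h ^ 3 ^ n)⁆⁆ = ⊥ := Solv.coprime_commutator_eq_bot _ _ (t.le_norm _) cop
    (.inl t.solvH) (eq_bot_iff.2 (r ▸ FH.comm_le_res ((commutator_mono le_sup_right QE).trans
      (le_normalizer_iff_commutator_le_right.1 (Solv.le_normalizer_commutator_left _ _))) QE
      (FH.cop_le cop.symm (commutator_le_left _ _) le_rfl)))
  have Q0 : ⁅F, zpowers (h ^ 3 ^ n)⁆ = ⊥ := eq_bot_iff.2 (t.faith ▸ le_inf (QF.trans FH')
    (le_cent_comm.1 (commutator_eq_bot_iff_le_centralizer.1 WQ)))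
  have uF : h ^ 3 ^ n ∈ F := by
    rw [hF]
    refine ⟨⟨_, pow_mem hh _⟩, Grp.centralizer_fitting_le H (mem_centralizer_iff.2 fun f hf' => Subtype.ext ?_), rfl⟩
    exact le_cent_iff.1 (commutator_eq_bot_iff_le_centralizer.1 Q0) f (hF ▸ ⟨f, hf', rfl⟩) _ (mem_zpowers _)
  have o : orderOf (h ^ 3 ^ n) = 3 := by
    rw [orderOf_pow_of_dvd (by positivity) (hi ▸ pow_dvd_pow 3 n.le_succ), hi, pow_succ,
      Nat.mul_div_cancel_left _ (by positivity)]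
  exact Nat.prime_three.coprime_iff_not_dvd.1 F3.symm (o ▸ orderOf_dvd_natCard _ uF)

end Cfsg.Agent.AH.Top
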