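import Mathlib
import Cfsg.Agent.AH.N9

/-! S4162: centraliser orders divisible by `p ≥ 5`. -/

set_option autoImplicit false

namespace Cfsg.Agent.AH
open Cfsg Cfsg.Agent.FT Subgroup

universe u

/-- Strong induction on `|G|`; `G` is nontrivial.  `N` minimal normal
(`Grp.exists_minNormal_elementaryAbelian`), `x̄` the image in `G / N`.  If `p ∣ c x̄` use induction,
`c_map_le`, `RatG.map`.  Otherwise: `v ∈ C(x)` of order `p` has `v̄ = 1` (`o(v̄) ∣ c x̄`), so `N` is a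
`p`-group; `x = x ^ i * y`, `y = x ^ j` (`exists_parts`), `x ^ i ∈ N` (the order of its image is a
power of `p` dividing `o(x̄) ∣ c x̄`).  `v ∈ N ⊓ C(y) ≤ C(x)`, `sq_dvd`: `p ^ 2 ∣ c x`, and
`p ^ 2 o(y) ∣ c x`.  If `c x < 2 p ^ 2` then `c x = p ^ 2`, `y = 1`, `x ∈ N = C(x)`, `|N| = p ^ 2`,
`c x̄ = |G / N|` is prime to `p`; Schur-Zassenhaus gives `H`, `H ⊓ C(N) ≤ H ⊓ N = ⊥`; `f = id`. -/
theorem th {G : Type u} [Group G] [Finite G] (hs : Group.IsSolvable G) (hr : RatG G) {p : ℕ}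
    (hp : p.Prime) (h5 : 5 ≤ p) {x : G} (hx : p ∣ c x) :
    2 * p ^ 2 ≤ c x ∨ (p ^ 2 ≤ c x ∧ ∃ (Γ : Type u) (_ : Group Γ) (_ : Finite Γ) (f : G →* Γ)
      (W H : Subgroup Γ), Function.Surjective f ∧ Top p W H ∧ Nat.card W = p ^ 2) := by
  induction hn : Nat.card G using Nat.strong_induction_on generalizing G with
  | _ n ih =>
  have nt : Nontrivial G := by
    by_contra h
    rw [not_nontrivial_iff_subsingleton] at h
    have := hx.trans (c_dvd_card x)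
    rw [Nat.card_of_subsingleton x] at this
    exact hp.one_lt.ne' (Nat.dvd_one.1 this)
  obtain ⟨q, N, hq, hN, N0, hab, hpow, -, hmin⟩ := Grp.exists_minNormal_elementaryAbelian G
  let π := QuotientGroup.mk' N
  have sπ : Function.Surjective π := QuotientGroup.mk'_surjective N
  by_cases h : p ∣ c (π x)
  · have lt : Nat.card (G ⧸ N) < n := by
      rw [← hn, ← N.card_mul_index]
      exact lt_mul_of_one_lt_left Nat.card_pos ((one_lt_card_iff_ne_bot N).2 N0)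
    rcases ih _ lt inferInstance (hr.map π sπ) h rfl with h1 | ⟨h1, Γ, _, _, f, W, H, hf, t, hW⟩
    · exact .inl (h1.trans (c_map_le π sπ x))
    · exact .inr ⟨h1.trans (c_map_le π sπ x), Γ, inferInstance, inferInstance, f.comp π, W, H,
        hf.comp sπ, t, hW⟩
  have mem : ∀ v : G, Commute v x → ∀ k, orderOf v = p ^ k → v ∈ N := fun v hv k e => by
    obtain ⟨l, -, hl⟩ := (Nat.dvd_prime_pow hp).1 ((orderOf_map_dvd π v).trans e.dvd)
    have d := orderOf_dvd_c_of_commute (hv.map π)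
    rcases l with _ | l
    · exact (QuotientGroup.eq_one_iff v).1 (orderOf_eq_one_iff.1 hl)
    · exact absurd ((dvd_pow_self p l.succ_ne_zero).trans (hl ▸ d)) h
  obtain ⟨v, hv, ov⟩ := exists_commute_of_dvd_c hp hx
  have vN := mem v hv 1 (by rw [ov, pow_one])
  have v1 : v ≠ 1 := fun e => hp.one_lt.ne' (by rw [← ov, e, orderOf_one])
  obtain rfl : p = q := (Nat.prime_dvd_prime_iff_eq hp hq).1
    (ov ▸ orderOf_dvd_of_pow_eq_one (hpow v vN))
  obtain ⟨i, j, e, ⟨k, hi⟩, hj, -⟩ := exists_parts x hp 0 (M := 1) hp.not_dvd_one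
  have iN := mem _ ((Commute.refl x).pow_left i) k hi
  have le : N ⊓ 𝒞[x ^ j] ≤ 𝒞[x] := fun u hu => mem_cent1_iff.2 (by
    have c1 : Commute u (x ^ i) := congrArg Subtype.val (hab.is_comm.comm ⟨u, hu.1⟩ ⟨_, iN⟩)
    have c2 : Commute u (x ^ j) := mem_cent1_iff.1 hu.2
    exact e ▸ c1.mul_right c2)
  have d1 := sq_dvd hr hp h5 (W := N) ⟨hab, hpow⟩ hj fun e0 =>
    v1 (mem_bot.1 (e0.le ⟨vN, mem_cent1_iff.2 (hv.pow_right j)⟩))
  have d2 : p ^ 2 * orderOf (x ^ j) ∣ c x := Nat.Coprime.mul_dvd_of_dvd_of_dvd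
    (Nat.Coprime.pow_left 2 ((Nat.Prime.coprime_iff_not_dvd hp).2 hj))
    (d1.trans (card_dvd_of_le le)) (orderOf_dvd_c_of_commute ((Commute.refl x).pow_left j))
  refine (le_or_gt _ _).imp_right fun lt => ?_
  have p2 : 0 < p ^ 2 := pow_pos hp.pos 2
  have o1 : orderOf (x ^ j) = 1 := by
    have := Nat.le_of_dvd (c_pos x) d2
    have := orderOf_pos (x ^ j)
    by_contra h1
    have : p ^ 2 * 2 ≤ p ^ 2 * orderOf (x ^ j) := Nat.mul_le_mul_left _ (by omega)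
    omega
  have cx : c x = p ^ 2 := by
    obtain ⟨m, hm⟩ := (dvd_mul_right _ _).trans d2
    have := c_pos x
    rcases m with _ | _ | m
    · omega
    · omega
    · nlinarith
  rw [orderOf_eq_one_iff] at o1
  have eN : N ⊓ 𝒞[x ^ j] = N := inf_eq_left.2 fun u _ => mem_cent1_iff.2 (by simp [o1])
  rw [eN] at le d1
  have cN : Nat.card N = p ^ 2 := Nat.dvd_antisymm (cx ▸ card_dvd_of_le le) d1
  have eC : N = 𝒞[x] := eq_of_le_of_card_ge le (cx.trans cN.symm).le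
  have xN : x ∈ N := eC.ge (mem_cent1_self x)
  rw [show π x = 1 from (QuotientGroup.eq_one_iff x).2 xN, c_one] at h
  obtain ⟨H, hH⟩ := exists_right_complement'_of_coprime (N := N) (by
    rw [cN]; exact Nat.Coprime.pow_left 2 ((Nat.Prime.coprime_iff_not_dvd hp).2 h))
  refine ⟨cx.ge, G, inferInstance, inferInstance, MonoidHom.id G, N, H, Function.surjective_id,
    ⟨hp, h5, hs, hr, hN, ⟨hab, hpow⟩, N0, hmin, hH, ?_, ?_⟩, cN⟩
  · rwa [← hH.symm.index_eq_card]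
  · exact eq_bot_iff.2 ((inf_le_inf_left H ((cent_le_cent1 xN).trans eC.ge)).trans hH.disjoint.symm.le_bot)

variable {Γ : Type*} [Group Γ] [Finite Γ] {p : ℕ} {W H : Subgroup Γ}

/-- `sq_dvd` and `faith`. -/
theorem Top.fpf_of_sq (t : Top p W H) (hW : Nat.card W = p ^ 2) {h : Γ} (hh : h ∈ H) (h1 : h ≠ 1) :
    W ⊓ 𝒞[h] = ⊥ := by
  by_contra h0
  have := t.normal
  have e := eq_of_le_of_card_ge (inf_le_left : W ⊓ 𝒞[h] ≤ W) (hW ▸ Nat.le_of_dvd Nat.card_pos
    (sq_dvd t.rat t.prime t.ge t.elem (t.not_dvd_ord hh) h0))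
  exact h1 (mem_bot.1 (t.faith.le ⟨hh, le_cent1_iff.1 (inf_eq_left.1 e)⟩))

/-- `H` acts semiregularly on `W \ {1}` (search the library for a Frobenius-type lemma
`card H ∣ card W - 1`, e.g. `ca find "card .* - 1"` in `Solv/Frobenius*`). -/
theorem Top.dvd_of_sq (t : Top p W H) (hW : Nat.card W = p ^ 2) : Nat.card H ∣ p ^ 2 - 1 := by
  exact hW ▸ Solv.Frob.card_dvd_card_sub_one (t.le_norm H) fun a ha a1 => t.fpf_of_sq hW ha a1

/-- For `u ∈ H` of order `3`: `|H ⊓ N(⟨u⟩)| ≥ 2 cH u` (`invH`; indeed `C < N`). -/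
theorem Top.two_mul_cH_dvd (t : Top p W H) {u : Γ} (hu : u ∈ H) (h3 : orderOf u = 3) :
    2 * cH H u ∣ Nat.card (H ⊓ 𝒩(zpowers u) : Subgroup Γ) := by
  obtain ⟨g, hg, e⟩ := t.invH hu
  have le : H ⊓ 𝒞[u] ≤ H ⊓ 𝒩(zpowers u) :=
    inf_le_inf_left H ((cent_zpowers u).ge.trans (cent_le_norm _))
  have nm : ((H ⊓ 𝒞[u]).subgroupOf (H ⊓ 𝒩(zpowers u))).Normal :=
    (normal_subgroupOf_iff_le_normalizer le).2 fun n hn => by
      rw [← cj_eq_iff, ← cent_zpowers, cj_inf, cj_of_mem hn.1, cj_centralizer, cj_eq_iff.2 hn.2]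
  have gN : g ∈ H ⊓ 𝒩(zpowers u) := ⟨hg, by
    change g ∈ 𝒩(zpowers u)
    rw [← cj_eq_iff, cj_zpowers, e, zpowers_inv]⟩
  have o2 : orderOf (QuotientGroup.mk ⟨g, gN⟩ :
      ↥(H ⊓ 𝒩(zpowers u)) ⧸ (H ⊓ 𝒞[u]).subgroupOf (H ⊓ 𝒩(zpowers u))) = 2 := by
    refine orderOf_eq_prime ?_ fun e1 => ?_
    · rw [← QuotientGroup.mk_pow, QuotientGroup.eq_one_iff]
      refine ⟨pow_mem hg 2, mem_cent1_iff.2 (mul_inv_eq_iff_eq_mul.1 ?_)⟩
      change g ^ 2 * u * (g ^ 2)⁻¹ = u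
      rw [show g ^ 2 * u * (g ^ 2)⁻¹ = g * (g * u * g⁻¹) * g⁻¹ by rw [sq]; group, e, ← conj_inv, e, inv_inv]
    · have c1 : g * u = u * g := mem_cent1_iff.1 ((QuotientGroup.eq_one_iff _).1 e1).2
      rw [c1, mul_inv_cancel_right] at e
      have : u ^ 2 = 1 := by rw [sq]; nth_rw 1 [e]; exact inv_mul_cancel u
      have := orderOf_dvd_of_pow_eq_one this
      rw [h3] at this
      omega
  rw [← ((H ⊓ 𝒞[u]).subgroupOf (H ⊓ 𝒩(zpowers u))).card_mul_index, mul_comm,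
    Nat.card_congr (subgroupOfEquivOfLe le).toEquiv]
  exact Nat.mul_dvd_mul_left _ (o2 ▸ orderOf_dvd_natCard _)

/-- `|H| ∣ 48`, `u ∈ H` of order `3` (`exists_ord`), `cH u > 6` (`n66`), `3 ∣ cH u`, `2 cH u ∣ 48`, so
`cH u ∈ {12, 24}` and `N = H ⊓ N(⟨u⟩)` has index `≤ 2` in `H`, so is normal in `H`; `⟨u⟩` is its only
subgroup of order `3` (`conj_zpowers` in `N`, `9 ∤ 48`), so `H ≤ N(⟨u⟩)`, against `or_eq_bot`. -/
theorem Top.not_seven (t : Top 7 W H) : Nat.card W ≠ 49 := by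
  intro hW
  have d48 : Nat.card H ∣ 48 := t.dvd_of_sq hW
  obtain ⟨g, hg, h6⟩ := t.exists_ord
  have h3 : orderOf (g ^ (orderOf g / 3)) = 3 :=
    orderOf_pow_orderOf_div (orderOf_pos g).ne' ((by norm_num : 3 ∣ 7 - 1).trans h6)
  have hu := pow_mem hg (orderOf g / 3)
  generalize g ^ (orderOf g / 3) = u at h3 hu
  have u1 : u ≠ 1 := fun e => by simp [e] at h3
  have a1 := t.n66 hu (orderOf_dvd_iff_pow_eq_one.1 (by norm_num [h3])) (t.fpf_of_sq hW hu u1)
  have a2 := Top.ord_dvd_cH hu (Commute.refl u)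
  have a3 := t.two_mul_cH_dvd hu h3
  set N := H ⊓ 𝒩(zpowers u)
  have le : N ≤ H := inf_le_left
  have a4 := card_dvd_of_le le
  have a5 : 12 ≤ cH H u := by
    have := (a3.trans a4).trans d48
    rw [h3] at a2
    by_contra h
    have : cH H u = 9 := by omega
    simp_all
  have a6 := (N.subgroupOf H).card_mul_index
  rw [Nat.card_congr (subgroupOfEquivOfLe le).toEquiv] at a6
  have nm : (N.subgroupOf H).Normal := by
    have b1 := Nat.le_of_dvd Nat.card_pos a3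
    have b2 := Nat.le_of_dvd (by norm_num) d48
    have b3 : (N.subgroupOf H).index ≠ 0 := index_ne_zero_of_finite
    have b4 : (N.subgroupOf H).index ≤ 2 := by nlinarith
    rcases b4.lt_or_eq with b | b
    · rw [index_eq_one.1 (show (N.subgroupOf H).index = 1 by omega)]; infer_instance
    · exact normal_of_index_eq_two b
  have uN : u ∈ N := ⟨hu, le_norm_self _ (mem_zpowers u)⟩
  have n9 : ¬ 3 ^ 2 ∣ Nat.card N := fun e => by
    have := (e.trans a4).trans d48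
    omega
  refine u1 (zpowers_eq_bot.1 (t.or_eq_bot Nat.prime_three (by norm_num) (by norm_num)
    (zpowers_le.2 hu) (fun h hh => mem_normalizer_of_cj_le ?_)
    (IsPGroup.of_card (n := 1) (by rw [Nat.card_zpowers, h3, pow_one]))))
  obtain ⟨d, hd, e⟩ := conj_zpowers Nat.prime_three n9 uN (nm.conj_mem ⟨u, hu⟩ uN ⟨h, hh⟩) h3
    ((MulAut.conj h).orderOf_eq u |>.trans h3)
  rw [cj_zpowers, zpowers_le]
  exact (mem_normalizer_iff.1 hd.2 _).2 e

/-- `|H| ∣ 24`.  All involutions of `H` are equal (`eq_of_fpf`).  If `3 ∣ |H|`, `u` of order `3` has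
`cH u = 12` (`n66`, `two_mul_cH_dvd`); a subgroup of order `4` of `H ⊓ C(u)` has an element `a` of
order `4`, `o(u a) = 12`, `rn`: `48 ∣ |H|`, absurd.  So `|H| ∣ 8`; `g` with `4 ∣ o(g)`
(`exists_ord`), `rn`: no element of order `8` (`32 ∤ 8`), `o(g) = 4`, `8 ∣ |H|`.  `z = g ^ 2`. -/
theorem Top.five (t : Top 5 W H) (hW : Nat.card W = 25) :
    Nat.card H = 8 ∧ ∃ z : H, ∀ h : H, h = 1 ∨ h = z ∨ orderOf h = 4 := by
  have d24 : Nat.card H ∣ 24 := t.dvd_of_sq hW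
  have uq : ∀ a ∈ H, ∀ b ∈ H, a ^ 2 = 1 → b ^ 2 = 1 → a ≠ 1 → b ≠ 1 → a = b :=
    fun a ha b hb a2 b2 a1 b1 => t.eq_of_fpf ha a2 (t.fpf_of_sq hW ha a1) hb b2 (t.fpf_of_sq hW hb b1)
  have rn : ∀ a ∈ H, (orderOf a).totient * orderOf a ∣ Nat.card H := fun a ha =>
    (Nat.mul_dvd_mul_left _ (Top.ord_dvd_cH ha (Commute.refl a))).trans (t.rn ha)
  have n3 : ¬ 3 ∣ Nat.card H := fun h => by
    have : Fact (Nat.Prime 3) := ⟨Nat.prime_three⟩
    obtain ⟨⟨u, hu⟩, h3⟩ := exists_prime_orderOf_dvd_card' 3 h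
    rw [orderOf_mk] at h3
    have u1 : u ≠ 1 := fun e => by simp [e] at h3
    have a1 := t.n66 hu (orderOf_dvd_iff_pow_eq_one.1 (by norm_num [h3])) (t.fpf_of_sq hW hu u1)
    have a2 := Top.ord_dvd_cH hu (Commute.refl u)
    have a3 := ((t.two_mul_cH_dvd hu h3).trans (card_dvd_of_le inf_le_left)).trans d24
    have a5 : cH H u = 12 := by
      have := Nat.le_of_dvd (by norm_num) a3
      rw [h3] at a2
      by_contra h
      have : cH H u = 9 := by omega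
      simp_all
    obtain ⟨K, hK⟩ := Sylow.exists_subgroup_card_pow_prime (G := ↥(H ⊓ 𝒞[u])) 2 (n := 2)
      (by rw [← cH, a5]; norm_num)
    obtain ⟨a, a2⟩ : ∃ a : K, a.1.1 ^ 2 ≠ 1 := by
      by_contra! hn
      have := Fintype.ofFinite K
      obtain ⟨a, b, d, h1, h2, h3⟩ := Fintype.two_lt_card_iff.1
        (show 2 < Fintype.card K by rw [← Nat.card_eq_fintype_card, hK]; norm_num)
      have k : ∀ a b : K, a ≠ 1 → b ≠ 1 → a = b := fun a b a1 b1 => Subtype.ext (Subtype.ext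
        (uq _ a.1.2.1 _ b.1.2.1 (hn a) (hn b) (fun e => a1 (Subtype.ext (Subtype.ext e)))
          fun e => b1 (Subtype.ext (Subtype.ext e))))
      by_cases e : a = 1
      · exact h3 (k b d (e ▸ h1.symm) (e ▸ h2.symm))
      by_cases e' : b = 1
      · exact h2 (k a d e (e' ▸ h3.symm))
      · exact h1 (k a b e e')
    have a4 : orderOf a.1.1 = 2 ^ (1 + 1) := orderOf_eq_prime_pow (by rwa [pow_one]) (by
      have := congrArg (fun x : K => x.1.1) (pow_card_eq_one' (x := a))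
      rwa [hK] at this)
    have cm : Commute u a.1.1 := (mem_cent1_iff.1 a.1.2.2).symm
    have := (rn _ (mul_mem hu a.1.2.1)).trans d24
    rw [cm.orderOf_mul_eq_mul_orderOf_of_coprime (by rw [h3, a4]; norm_num), h3, a4] at this
    exact absurd this (by decide)
  have d8 : Nat.card H ∣ 8 := ((Nat.Prime.coprime_iff_not_dvd Nat.prime_three).2 n3).symm.dvd_of_dvd_mul_left d24
  have od : ∀ a ∈ H, orderOf a = 1 ∨ orderOf a = 2 ∨ orderOf a = 4 := fun a ha => by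
    have h1 := (rn a ha).trans d8
    obtain ⟨l, hl, e⟩ := (Nat.dvd_prime_pow Nat.prime_two (m := 3)).1 ((Dvd.intro_left _ rfl).trans h1)
    rw [e] at h1 ⊢
    interval_cases l
    · simp
    · simp
    · simp
    · exact absurd h1 (by decide)
  obtain ⟨g, hg, h4⟩ := t.exists_ord
  have g4 : orderOf g = 4 := by rcases od g hg with h | h | h <;> simp_all
  refine ⟨Nat.dvd_antisymm d8 (by have := rn g hg; rwa [g4] at this), ⟨g ^ 2, pow_mem hg 2⟩,
    fun h => ?_⟩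
  rcases od h h.2 with e | e | e
  · exact .inl (Subtype.ext (orderOf_eq_one_iff.1 e))
  · refine .inr (.inl (Subtype.ext (uq _ h.2 _ (pow_mem hg 2) (e ▸ pow_orderOf_eq_one _) ?_ ?_ ?_)))
    · rw [← pow_mul, orderOf_dvd_iff_pow_eq_one.1 g4.dvd]
    · exact fun e1 => by simp [e1] at e
    · exact pow_ne_one_of_lt_orderOf (by norm_num) (by norm_num [g4])
  · exact .inr (.inr ((orderOf_coe h).symm.trans e))

/-- The elements with `4 ∤ o(x)` lie in the fibres over `1`, `z`, each of size `|ker ψ| = |G| / 8`. -/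
theorem mass4 {G Q : Type*} [Group G] [Finite G] [Group Q] (ψ : G →* Q)
    (hψ : Function.Surjective ψ) (h8 : Nat.card Q = 8) {z : Q}
    (hz : ∀ h : Q, h = 1 ∨ h = z ∨ orderOf h = 4) :
    3 * Nat.card G ≤ 4 * Nat.card {x : G | 4 ∣ orderOf x} := by
  have fb : ∀ q : Q, (ψ ⁻¹' {q}).ncard = Nat.card ψ.ker := fun q => by
    obtain ⟨a, rfl⟩ := hψ q
    exact Nat.card_congr (ψ.fiberEquivKer a)
  have e := ψ.ker.card_mul_index
  rw [index_ker, MonoidHom.range_eq_top.2 hψ, card_top, h8] at e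
  have e1 := Set.ncard_add_ncard_compl {x : G | 4 ∣ orderOf x}
  have e2 : {x : G | 4 ∣ orderOf x}ᶜ.ncard ≤ (ψ ⁻¹' {1} ∪ ψ ⁻¹' {z}).ncard :=
    Set.ncard_le_ncard fun x hx => by
      rcases hz (ψ x) with h | h | h
      · exact .inl h
      · exact .inr h
      · exact absurd (h ▸ orderOf_map_dvd ψ x) hx
  have e3 := Set.ncard_union_le (ψ ⁻¹' {1}) (ψ ⁻¹' {z})
  rw [fb, fb] at e3
  rw [Nat.card_coe_set_eq]
  omega

theorem th7 {G : Type u} [Group G] [Finite G] (hs : Group.IsSolvable G) (hr : RatG G) {x : G}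
    (hx : 7 ∣ c x) : 98 ≤ c x := by
  rcases th hs hr (p := 7) (by norm_num) (by norm_num) hx with h | ⟨-, Γ, _, _, f, W, H, -, t, h⟩
  · exact h
  · exact absurd h t.not_seven

theorem th5 {G : Type u} [Group G] [Finite G] (hs : Group.IsSolvable G) (hr : RatG G) :
    (∀ x : G, 5 ∣ c x → 25 ≤ c x) ∧ ((∀ x : G, 5 ∣ c x → 50 ≤ c x) ∨
      3 * Nat.card G ≤ 4 * Nat.card {x : G | 4 ∣ orderOf x}) := by
  refine ⟨fun x hx => ?_, ?_⟩
  · rcases th hs hr (p := 5) (by norm_num) (by norm_num) hx with h | h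
    · omega
    · exact h.1
  · by_contra! h
    obtain ⟨⟨x, hx, hlt⟩, h⟩ := h
    rcases th hs hr (p := 5) (by norm_num) (by norm_num) hx with h | ⟨-, Γ, _, _, f, W, H, hf, t, hW⟩
    · omega
    · obtain ⟨h8, z, hz⟩ := t.five hW
      obtain ⟨π, hπ, -⟩ := t.exists_pr
      exact absurd (mass4 (π.comp f) (hπ.comp hf) h8 hz) (by omega)

end Cfsg.Agent.AH
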