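import Mathlib
import Cfsg.Agent.AH.Bas

/-! S4162: existence of `Top` quotients. -/

set_option autoImplicit false

namespace Cfsg.Agent.AH
open Cfsg Cfsg.Agent.FT Subgroup

universe u

/-- Strong induction on `|G|`.  If some normal `N ≠ ⊥` has a prime `q' ∉ π` dividing `|G / N|`, use
induction (`RatG.map`, compose the surjections).  Otherwise take `W` minimal normal
(`Grp.exists_minNormal_elementaryAbelian`), a `p`-group; `G / W` is a `π`-group, so `p = q ∉ π`
(`q ∣ |W| |G / W|`), `p ∤ |G / W|`, Schur-Zassenhaus (`Subgroup.exists_right_complement'_of_coprime`)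
gives `H` with `|H| = |G / W|`.  `C = H ⊓ C(W)` is normal (normalised by `H`, centralised by `W`); if
`C ≠ ⊥` then `G / C` is a `π`-group, but `p ∣ |G| = |C| |G / C|` and `p ∤ |C|`.  `p ≥ 5` as
`p ≠ 2, 3`. -/
theorem exists_top {G : Type u} [Group G] [Finite G] (hs : Group.IsSolvable G) (hr : RatG G)
    (π : ℕ → Prop) (h2 : π 2) (h3 : π 3) {q : ℕ} (hq : q.Prime) (hqG : q ∣ Nat.card G)
    (hπ : ¬ π q) : ∃ p, ¬ π p ∧ p ∣ Nat.card G ∧ HasTop G p π := by
  induction hn : Nat.card G using Nat.strong_induction_on generalizing G q with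
  | _ n ih =>
  subst hn
  by_cases h : ∃ N : Subgroup G, N.Normal ∧ N ≠ ⊥ ∧ ∃ r, r.Prime ∧ r ∣ N.index ∧ ¬ π r
  · obtain ⟨N, hN, N0, r, r1, r2, r3⟩ := h
    have lt : Nat.card (G ⧸ N) < Nat.card G := by
      rw [← N.index_mul_card, index_eq_card]
      exact lt_mul_of_one_lt_right Nat.card_pos ((N.one_lt_card_iff_ne_bot).2 N0)
    obtain ⟨p, p1, p2, Γ, _, _, f, W, H, hf, hT⟩ := ih _ lt (G := G ⧸ N) inferInstance
      (hr.map _ (QuotientGroup.mk'_surjective N)) r1 r2 r3 rfl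
    exact ⟨p, p1, p2.trans N.index_dvd_card, Γ, _, inferInstance, f.comp (QuotientGroup.mk' N), W, H,
      hf.comp (QuotientGroup.mk'_surjective N), hT⟩
  push Not at h
  have : Nontrivial G := Finite.one_lt_card_iff_nontrivial.1
    (hq.one_lt.trans_le (Nat.le_of_dvd Nat.card_pos hqG))
  obtain ⟨p, W, hp, hW, W0, W1, W2, W3, W4⟩ := Grp.exists_minNormal_elementaryAbelian G
  have := Fact.mk hp
  obtain ⟨k, hk⟩ := IsPGroup.iff_card.1 W3
  have nq : ¬ q ∣ W.index := fun e => hπ (h W hW W0 q hq e)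
  obtain rfl : q = p := by
    rw [← W.index_mul_card, hq.dvd_mul, hk] at hqG
    exact (Nat.prime_dvd_prime_iff_eq hq hp).1 (hq.dvd_of_dvd_pow (hqG.resolve_left nq))
  obtain ⟨H, hH⟩ := exists_right_complement'_of_coprime (N := W)
    (hk ▸ ((Nat.Prime.coprime_iff_not_dvd hq).2 nq).pow_left k)
  have cH : W.index = Nat.card H := hH.symm.index_eq_card
  have nC : (H ⊓ centralizer (W : Set G)).Normal := by
    rw [← normalizer_eq_top_iff, eq_top_iff, ← hH.sup_eq_top]
    refine sup_le (fun w hw => centralizer_le_normalizer _ fun x hx => (hx.2 w hw).symm) fun g hg => ?_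
    exact inf_normalizer_le_normalizer_inf ⟨le_normalizer hg, le_normalizer_of_normal (mem_top g)⟩
  refine ⟨q, hπ, hqG, G, _, inferInstance, MonoidHom.id G, W, H, Function.surjective_id,
    ⟨hq, hq.five_le_of_ne_two_of_ne_three (fun e => hπ (e ▸ h2)) (fun e => hπ (e ▸ h3)), hs, hr, hW,
      ⟨W1, W2⟩, W0, W4, hH, cH ▸ nq, by_contra fun C0 => hπ (h _ nC C0 q hq ?_)⟩,
    fun r r1 r2 => h W hW W0 r r1 (cH ▸ r2)⟩
  rw [← (H ⊓ centralizer (W : Set G)).index_mul_card, hq.dvd_mul] at hqG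
  exact hqG.resolve_right fun e => nq (cH ▸ e.trans (card_dvd_of_le inf_le_left))

end Cfsg.Agent.AH
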