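import Mathlib
import Cfsg.Agent.AH.TopA
import Cfsg.Agent.Grp.MaxClass

/-! S4162: the prime `2`. -/

set_option autoImplicit false

namespace Cfsg.Agent.AH
open Cfsg Cfsg.Agent.FT Subgroup

variable {G : Type*} [Group G] [Finite G]

/-- `P ∋ x` a Sylow `2`-subgroup, `|P| = 2 ^ n`, `n ≥ 4`, `|C_P(x)| ≤ 4`;
`Grp.MaxClass.class_eq_of_card_centralizer_le`, `index_commutator`,
`exists_orderOf_of_index_commutator_le` give `a ∈ P` of order `2 ^ (n - 1)`; `RatG.rn`: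
`2 ^ (n - 2) 2 ^ (n - 1) ∣ |G|`, so `2 n - 3 ≤ n`. -/
theorem mc (hr : RatG G) {x : G} (hx : c x = 4) : ¬ 16 ∣ Nat.card G := by
  intro h16
  have : Fact (Nat.Prime 2) := ⟨Nat.prime_two⟩
  have hp : IsPGroup 2 (zpowers x) := IsPGroup.of_card_dvd_pow (n := 2) (by
    rw [Nat.card_zpowers]; exact (orderOf_dvd_c x).trans hx.dvd)
  obtain ⟨P, hP⟩ := hp.exists_le_sylow
  have hc := P.card_eq_multiplicity
  have hle : ∀ k, 2 ^ k ∣ Nat.card G → k ≤ (Nat.card G).factorization 2 := fun k =>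
    (Nat.prime_two.pow_dvd_iff_le_factorization Nat.card_pos.ne').1
  obtain ⟨k, hk⟩ := Nat.exists_eq_add_of_le' (hle 4 h16)
  rw [hk] at hc hle
  have h1 : Nat.card (centralizer ({⟨x, hP (mem_zpowers x)⟩} : Set P)) ≤ 2 ^ 2 := by
    refine le_trans (Nat.card_le_card_of_injective (β := 𝒞[x]) (fun y => ⟨y.1.1,
      mem_centralizer_singleton_iff.2 (congrArg Subtype.val
        (mem_centralizer_singleton_iff.1 y.2))⟩) fun a b h => ?_) hx.le
    exact Subtype.ext (Subtype.ext (congrArg (fun z : 𝒞[x] => z.1) h))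
  obtain ⟨a, ha⟩ := Grp.MaxClass.exists_orderOf_of_index_commutator_le (by omega) hc
    (Grp.MaxClass.index_commutator hc (by omega)
      (Grp.MaxClass.class_eq_of_card_centralizer_le (by omega) hc _ h1)).le
  rw [← Subgroup.orderOf_coe] at ha
  have h2 := (Nat.mul_dvd_mul_left _ (orderOf_dvd_c (a : G))).trans (hr.rn a)
  rw [ha, Nat.totient_prime_pow Nat.prime_two (by omega), show 2 - 1 = 1 from rfl, mul_one,
    ← pow_add] at h2
  have := hle _ h2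
  omega

/-- `RatG.rn`: `4 · 8 ∣ φ(o) c`. -/
theorem not_eight (hr : RatG G) (h16 : ¬ 16 ∣ Nat.card G) (x : G) : ¬ 8 ∣ orderOf x := by
  intro h
  have h1 := Nat.mul_dvd_mul (Nat.totient_dvd_of_dvd h) (h.trans (orderOf_dvd_c x))
  exact h16 (((by decide : 16 ∣ Nat.totient 8 * 8).trans h1).trans (hr.rn x))

/-- `RatG.rn`: `2 c x ∣ |G|`, so `8 ∤ c x`.  If an odd prime `q ∣ c x`, `v ∈ C(x)` of order `q`, then
`o(x v) = 4 q`, `4 ∣ φ(4 q) = 2 (q - 1)`, `4 ∣ c (x v)`, `16 ∣ |G|`. -/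
theorem c_eq_four (hr : RatG G) (h16 : ¬ 16 ∣ Nat.card G) {x : G} (hx : orderOf x = 4) :
    c x = 4 := by
  obtain ⟨m, hm⟩ := hx ▸ orderOf_dvd_c x
  have h1 := hr.rn x
  rw [hx, hm] at h1
  by_contra h
  have hq := Nat.minFac_prime (n := m) (by rintro rfl; exact h hm)
  have hd := Nat.minFac_dvd m
  generalize m.minFac = q at hq hd
  rcases hq.eq_two_or_odd' with rfl | ⟨r, hr'⟩
  · obtain ⟨m, rfl⟩ := hd
    exact h16 (Dvd.dvd.trans ⟨m, by rw [show Nat.totient 4 = 2 by decide]; ring⟩ h1)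
  · obtain ⟨v, hv, ho⟩ := exists_commute_of_dvd_c (x := x) hq (hm ▸ hd.mul_left 4)
    have hc : Nat.Coprime 4 q := Nat.Coprime.pow_left 2 (Nat.coprime_two_left.2 ⟨r, hr'⟩)
    have h2 := (Nat.mul_dvd_mul_left _ (orderOf_dvd_c_of_commute
      ((Commute.refl x).mul_right hv.symm))).trans (hr.rn (x * v))
    rw [hv.symm.orderOf_mul_eq_mul_orderOf_of_coprime (by rwa [hx, ho]), hx, ho,
      Nat.totient_mul hc, Nat.totient_prime hq, hr'] at h2
    exact h16 (Dvd.dvd.trans ⟨r, by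
      rw [show Nat.totient 4 = 2 by decide, Nat.add_sub_cancel]; ring⟩ h2)

omit [Finite G] in
theorem tw_four {y : G} {n : ℕ} (h : orderOf y = 2 ^ n) (h2 : y ^ 2 ≠ 1) (h8 : ¬ 8 ∣ orderOf y) :
    orderOf y = 4 := by
  rw [Ne, ← orderOf_dvd_iff_pow_eq_one] at h2
  rw [h] at h2 h8 ⊢
  rcases n with _ | _ | _ | n
  · simp at h2
  · simp at h2
  · rfl
  · exact absurd ⟨2 ^ n, by ring⟩ h8

/-- the `2`-part -/
theorem tw_part (h8 : ∀ x : G, ¬ 8 ∣ orderOf x) (g : G) :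
    ∃ i, i % 4 = 1 ∧ ((g ^ i) ^ 2 ≠ 1 → orderOf (g ^ i) = 4) := by
  obtain ⟨i, j, -, ⟨n, hn⟩, -, hi, -⟩ := exists_parts g Nat.prime_two 2 (M := 1) (by decide)
  exact ⟨i, hi, fun h => tw_four hn h (h8 _)⟩

theorem tw_aux {M : Subgroup G} (hM : M.index = 2) (hc : 8 ∣ Nat.card G)
    (hu : ∀ s t : G, s ^ 2 = 1 → s ≠ 1 → t ^ 2 = 1 → t ≠ 1 → s = t) (h8 : ∀ x : G, ¬ 8 ∣ orderOf x) :
    ∃ a ∈ M, ∃ b ∉ M, orderOf a = 4 ∧ orderOf b = 4 := by
  have : Fact (Nat.Prime 2) := ⟨Nat.prime_two⟩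
  have h1 := M.card_mul_index
  rw [hM] at h1
  obtain ⟨K, hK⟩ := Sylow.exists_subgroup_card_pow_prime (G := M) 2 (n := 2) (by omega)
  obtain ⟨a, ha⟩ : ∃ a : K, a ^ 2 ≠ 1 := by
    by_contra! h
    have key : ∀ u v : K, u ≠ 1 → v ≠ 1 → u = v := fun u v h1 h2 => Subtype.ext (Subtype.ext
      (hu _ _ (by exact_mod_cast h u) (by exact_mod_cast h1) (by exact_mod_cast h v)
        (by exact_mod_cast h2)))
    have := Fintype.ofFinite K
    obtain ⟨u, v, w, h1, h2, h3⟩ := (Fintype.two_lt_card_iff (α := K)).1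
      (by rw [← Nat.card_eq_fintype_card, hK]; norm_num)
    by_cases e : u = 1
    · exact h3 (key v w (e ▸ h1.symm) (e ▸ h2.symm))
    · by_cases e' : v = 1
      · exact h2 (key u w e (e' ▸ h3.symm))
      · exact h1 (key u v e e')
  obtain ⟨n, -, hn⟩ := (Nat.dvd_prime_pow Nat.prime_two).1 (hK ▸ orderOf_dvd_natCard a)
  have a2 : (a.1.1 : G) ^ 2 ≠ 1 := by exact_mod_cast ha
  have oa := tw_four (by rw [Subgroup.orderOf_coe, Subgroup.orderOf_coe, hn]) a2 (h8 _)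
  obtain ⟨b, hb⟩ := Grp.MaxClass.exists_not_mem_of_index_ne_one (H := M) (by omega)
  obtain ⟨i, hi, ho⟩ := tw_part h8 b
  have hb' : b ^ i ∉ M := fun h => by
    rw [show i = 2 * (i / 2) + 1 by omega, pow_succ, pow_mul] at h
    exact hb ((mul_mem_cancel_left (pow_mem (sq_mem_of_index_two hM b) _)).1 h)
  refine ⟨_, a.1.2, _, hb', oa, ho fun h => hb' ?_⟩
  by_cases e : b ^ i = 1
  · exact e ▸ one_mem M
  · rw [hu _ _ h e (by rw [← pow_mul, ← orderOf_dvd_iff_pow_eq_one, oa]) a2]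
    exact pow_mem a.1.2 2

/-- Every involution `s ∈ H` is fixed point free: else `ep_prim` (`y = s`) gives `g ∈ H ⊓ C(s)`, and
`1 ≠ w ∈ W ⊓ C(s)` with `g ^ j ∈ C(w) ↔ 4 ∣ j`; its `2`-part `a = g ^ i` (`exists_parts`, `N = 2`,
`i ≡ 1 (4)`) has order `4` (`not_eight`), `c a = 4`, so `s ∈ C(a) = ⟨a⟩`, `s = a ^ 2 = g ^ (2 i)`
centralises `w`, but `4 ∤ 2 i`.  So (`eq_of_fpf`) `H` has at most one involution.  `exists_ord` gives
`g ∈ H` of order `4`, `z = g ^ 2`, `rn`: `8 ∣ |H|`.  `M` of index `2` in `H` (`ratH`,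
`exists_index_two`), `4 ∣ |M|`; a subgroup of order `4` of `M` has an element `a ≠ 1, z`, of order
`4`.  `z ∈ M` (a square).  For `b₀ ∉ M` the `2`-part `b = b₀ ^ i` (`i` odd) is not in `M`, so
`b ≠ 1, z`, `o(b) = 4`.  `a, b` are not conjugate (`conjH`, `M` normal). -/
theorem Top.two_classes {W H : Subgroup G} (t : Top 5 W H) (h16 : ¬ 16 ∣ Nat.card G) :
    ∃ a b : G, orderOf a = 4 ∧ orderOf b = 4 ∧ ¬ IsConj a b := by
  have h8 := not_eight t.rat h16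
  have fpf : ∀ s ∈ H, s ^ 2 = 1 → s ≠ 1 → W ⊓ 𝒞[s] = ⊥ := fun s hs s2 s1 => by
    classical
    refine (eq_bot_iff_forall _).2 fun w hw => by_contra fun w1 => ?_
    have hc : Commute w s := mem_centralizer_singleton_iff.1 hw.2
    obtain ⟨g, -, gs, -, hg⟩ := t.ep_prim hs hw.1 w1 hc
    obtain ⟨i, hi, ho⟩ := tw_part h8 g
    have h1 : ¬ Commute ((g ^ i) ^ 2) w := by rw [← pow_mul, hg]; omega
    have h2 := ho fun h => h1 (h ▸ Commute.one_left w)
    have h3 : zpowers (g ^ i) = 𝒞[g ^ i] := eq_of_le_of_card_ge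
      (zpowers_le.2 (mem_centralizer_singleton_iff.2 rfl))
      ((c_eq_four t.rat h16 h2).trans ((Nat.card_zpowers _).trans h2).symm).le
    have h4 : s ∈ zpowers (g ^ i) := h3 ▸ mem_centralizer_singleton_iff.2 (gs.pow_left i).symm
    rw [mem_zpowers_iff_mem_range_orderOf, h2, Finset.mem_image] at h4
    obtain ⟨k, hk, rfl⟩ := h4
    rw [← pow_mul, ← orderOf_dvd_iff_pow_eq_one, h2] at s2
    rw [Ne, ← orderOf_dvd_iff_pow_eq_one, h2] at s1
    rw [Finset.mem_range] at hk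
    obtain rfl : k = 2 := by omega
    exact h1 hc.symm
  obtain ⟨g, hg, h4⟩ := t.exists_ord
  have og := orderOf_pow_orderOf_div (orderOf_pos g).ne' h4
  have hg' := H.pow_mem hg (orderOf g / (5 - 1))
  have hc := (Nat.mul_dvd_mul_left _ (Top.ord_dvd_cH hg' (Commute.refl _))).trans (t.rn hg')
  rw [og] at hc
  have : Nontrivial H := Finite.one_lt_card_iff_nontrivial.1
    (lt_of_lt_of_le (by decide) (Nat.le_of_dvd Nat.card_pos hc))
  obtain ⟨M, hM⟩ := t.ratH.exists_index_two t.solvH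
  obtain ⟨a, ha, b, hb, oa, ob⟩ := tw_aux hM hc (fun s s' h1 h2 h3 h4 => by
    have e1 : (s : G) ^ 2 = 1 := by exact_mod_cast h1
    have e3 : (s' : G) ^ 2 = 1 := by exact_mod_cast h3
    exact Subtype.ext (t.eq_of_fpf s.2 e1 (fpf _ s.2 e1 (by exact_mod_cast h2)) s'.2 e3
      (fpf _ s'.2 e3 (by exact_mod_cast h4)))) fun x => Subgroup.orderOf_coe x ▸ h8 x
  refine ⟨a, b, (Subgroup.orderOf_coe a).trans oa, (Subgroup.orderOf_coe b).trans ob, fun h => ?_⟩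
  obtain ⟨y, hy, e⟩ := t.conjH a.2 b.2 h
  exact hb ((Subtype.ext e : ⟨y, hy⟩ * a * ⟨y, hy⟩⁻¹ = b) ▸
    (normal_of_index_eq_two hM).conj_mem a ha ⟨y, hy⟩)

/-- Else lift `a, b` of `two_classes` to `2`-elements `ã, b̃` (`2`-parts of preimages,
`exists_parts` with `N = 2`), of order `4` (`not_eight`); `c ã = c b̃ = 4`, so they are conjugate. -/
theorem sixteen (hA : Dis G) {π : ℕ → Prop} (h : HasTop G 5 π) : 16 ∣ Nat.card G := by
  by_contra h16
  obtain ⟨Γ, _, _, f, W, H, hf, t, -⟩ := h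
  obtain ⟨a, b, oa, ob, hab⟩ := t.two_classes fun h => h16 (h.trans (card_dvd_of_surjective f hf))
  have lift : ∀ a : Γ, orderOf a = 4 → ∃ x, f x = a ∧ c x = 4 := fun a oa => by
    obtain ⟨x, rfl⟩ := hf a
    obtain ⟨i, hi, ho⟩ := tw_part (not_eight hA.rat h16) x
    have e : f (x ^ i) = f x := by rw [map_pow, ← pow_mod_orderOf, oa, hi, pow_one]
    refine ⟨x ^ i, e, c_eq_four hA.rat h16 (ho fun h => ?_)⟩
    have := congrArg f h
    rw [map_pow, e, map_one, ← orderOf_dvd_iff_pow_eq_one, oa] at this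
    omega
  obtain ⟨x, rfl, hx⟩ := lift a oa
  obtain ⟨y, rfl, hy⟩ := lift b ob
  exact hab (f.map_isConj (hA x y (hx.trans hy.symm)))

end Cfsg.Agent.AH
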