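import Mathlib
import Cfsg.Agent.AH.TopE
import Cfsg.Agent.AH.Par
import Cfsg.Agent.AH.SemA
import Cfsg.Agent.AH.SemB
import Cfsg.Agent.AH.TH
import Cfsg.Agent.AH.Two
import Cfsg.Agent.AH.S3

/-! S4162: assembly. -/

set_option autoImplicit false

namespace Cfsg.Agent.AH
open Cfsg Cfsg.Agent.FT Subgroup

universe u
variable {G : Type u} [Group G] [Finite G]

theorem prime_le_seven (hs : Group.IsSolvable G) (hr : RatG G) {q : ℕ} (hq : q.Prime)
    (hd : q ∣ Nat.card G) : q ≤ 7 := by
  by_contra h
  obtain ⟨p, hp, -, Γ, _, _, f, W, H, -, t, hH⟩ :=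
    exists_top hs hr (· ≤ 7) (by norm_num) (by norm_num) hq hd h
  obtain ⟨U, X, s, hX⟩ := t.exists_semi
  have h16 := s.not_sixteen fun r hr hrX => hH r hr (hrX.trans hX)
  have h0 : p - 1 ≠ 0 := by omega
  obtain ⟨a, m, hm, e⟩ := Nat.exists_eq_two_pow_mul_odd h0
  by_cases h1 : m = 1
  · subst h1
    rw [mul_one] at e
    refine h16 (e ▸ (pow_dvd_pow 2 (?_ : 4 ≤ a) : 2 ^ 4 ∣ 2 ^ a))
    by_contra ha
    have : p = 9 := by
      have : a ≤ 3 := by omega
      interval_cases a <;> omega
    exact absurd t.prime (by rw [this]; norm_num)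
  · refine hp (s.le_seven (Nat.minFac_prime h1) (fun h2 => ?_) (e ▸ (Nat.minFac_dvd m).mul_left _))
    exact (Nat.not_even_iff_odd.mpr hm) (even_iff_two_dvd.mpr (h2 ▸ Nat.minFac_dvd m))

theorem HasTop.red {p : ℕ} {π : ℕ → Prop} (h : HasTop G p π) {n m : ℕ} (hm : m < 25)
    (H : ∀ (Γ : Type u) [Group Γ] [Finite Γ] (W H : Subgroup Γ), Top p W H → ∀ h ∈ H, h ^ n = 1 →
      W ⊓ 𝒞[h] = ⊥ → m < cH H h) {x : G} (hx : c x ∣ n) : m < c x := by
  obtain ⟨Γ, _, _, f, W, K, hf, t, -⟩ := h
  by_contra! hle
  have h1 := c_map_le f hf x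
  have h5 := t.ge
  obtain ⟨h, hh, hc, h0, h2⟩ := t.red (x := f x) (by nlinarith)
  have : (f x) ^ n = 1 := by
    obtain ⟨k, rfl⟩ := hx
    rw [← map_pow, pow_mul, pow_c, one_pow, map_one]
  have h3 : h ^ n = 1 := by
    have := (isConj_one_right.mp (this ▸ hc.pow n)); exact this
  have := H Γ W K t h hh h3 h0
  omega

theorem smooth {P E : Finset ℕ} (h : ∀ d ∈ E, d ≠ 0 ∧ d ∣ (∏ p ∈ P, p) ^ 8)
    (hP : ∀ p ∈ P, p.Prime) : ∀ d ∈ E, d ≠ 0 ∧ ∀ q : ℕ, q.Prime → q ∣ d → q ∈ P := by
  refine fun d hd => ⟨(h d hd).1, fun q hq hqd => ?_⟩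
  obtain ⟨p, hp, h1⟩ := (Nat.Prime.prime hq).exists_mem_finset_dvd
    (hq.dvd_of_dvd_pow (hqd.trans (h d hd).2))
  rwa [(Nat.prime_dvd_prime_iff_eq hq (hP p hp)).mp h1]

theorem main [Nontrivial G] (hA : Dis G) (hs : Group.IsSolvable G) :
    Nonempty (G ≃* Equiv.Perm (Fin 3)) := by
  by_contra hne
  have hr := hA.rat
  have h2 : ∀ x : G, c x ≠ 2 := fun x h => hne (s3_of_two hA hs h)
  have h1 : ∀ x : G, c x ≠ 1 := fun x h => by
    have : x = 1 := by simpa [h] using pow_c x
    rw [this, c_one] at h
    exact (Finite.one_lt_card (α := G)).ne' h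
  have h7 : ∀ q : ℕ, q.Prime → q ∣ Nat.card G → q ≤ 7 := fun q => prime_le_seven hs hr
  have hq : ∀ q : ℕ, q.Prime → q ∣ Nat.card G → q = 2 ∨ q = 3 ∨ q = 5 ∨ q = 7 := by
    intro q hq hd
    have := h7 q hq hd
    interval_cases q <;> simp_all (config := {decide := true})
  have h16 : (∀ x : G, c x ≠ 4) ∨ ∀ x : G, ¬ 16 ∣ c x := by
    by_cases h : 16 ∣ Nat.card G
    · exact Or.inl fun x hx => mc hr hx h
    · exact Or.inr fun x hx => h (hx.trans (c_dvd_card x))
  have h6 : ∀ p π, HasTop G p π → ∀ x : G, c x ≠ 3 ∧ c x ≠ 6 := fun p π h x => by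
    have := @HasTop.red G _ _ p π h 6 6 (by norm_num) (fun Γ _ _ W H t h hh => t.n66 hh) x
    constructor <;> intro e <;> rw [e] at this <;> omega
  have top7 : 7 ∣ Nat.card G → ∀ x : G, c x ≠ 3 ∧ c x ≠ 6 ∧ c x ≠ 9 := fun h x => by
    obtain ⟨p, hp, hpG, ht⟩ := exists_top hs hr (· ≠ 7) (by norm_num) (by norm_num)
      (by norm_num : Nat.Prime 7) h (by simp)
    obtain rfl : p = 7 := by simpa using hp
    refine ⟨(h6 _ _ ht x).1, (h6 _ _ ht x).2, fun e => ?_⟩
    have := ht.red (n := 9) (m := 9) (by norm_num)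
      (fun Γ _ _ W H t h hh => t.n99 (by norm_num) hh) (x := x) (by rw [e])
    omega
  have top5 : 5 ∣ Nat.card G → ∀ x : G, c x ≠ 3 ∧ c x ≠ 6 ∧ c x ≠ 4 := fun h x => by
    obtain ⟨p, hp, hpG, ht⟩ := exists_top hs hr (· ≠ 5) (by norm_num) (by norm_num)
      (by norm_num : Nat.Prime 5) h (by simp)
    obtain rfl : p = 5 := by simpa using hp
    exact ⟨(h6 _ _ ht x).1, (h6 _ _ ht x).2, fun e => mc hr e (sixteen hA ht)⟩
  have t7 := fun x : G => th7 hs hr (x := x)
  have p5 := fun x : G => parity5 hs hr (x := x)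
  have p7 := fun x : G => parity7 hs hr (x := x)
  obtain ⟨t5, t5'⟩ := th5 hs hr
  by_cases d5 : 5 ∣ Nat.card G
  · have a := top5 d5
    rcases t5' with t5' | hm
    · by_cases d7 : 7 ∣ Nat.card G
      · have b := top7 d7
        have := hA.excl {2, 3, 5, 7} (by decide) (fun q h h' => by simpa using hq q h h')
          {1, 2, 3, 4, 6, 9, 5, 10, 15, 20, 25, 30, 35, 40, 45, 7, 14, 21, 28, 42, 49, 56, 63, 70,
            84, 105, 112, 135, 140, 175, 224, 245, 280} (smooth (by decide) (by decide)) fun x hx => by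
            have := h1 x; have := h2 x; have := a x; have := b x; have := t5' x; have := t7 x
            have := p5 x; have := p7 x
            simp only [Finset.mem_insert, Finset.mem_singleton] at hx
            omega
        norm_num at this
      · have := hA.excl {2, 3, 5} (by decide) (fun q h h' => by
            rcases hq q h h' with rfl | rfl | rfl | rfl <;> simp_all)
          {1, 2, 3, 4, 6, 5, 10, 15, 20, 25, 30, 40, 45} (smooth (by decide) (by decide))
          fun x hx => by
            have := h1 x; have := h2 x; have := a x; have := t5' x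
            simp only [Finset.mem_insert, Finset.mem_singleton] at hx
            omega
        norm_num at this
    · have := hA.excl4 {2, 3, 5, 7} (by decide) (fun q h h' => by simpa using hq q h h') hm
        {1, 5, 7, 14, 21} (smooth (by decide) (by decide)) fun x m hx => by
          have := a x; have := t5 x; have := t7 x
          simp only [Finset.mem_insert, Finset.mem_singleton] at hx
          omega
      norm_num at this
  · by_cases d7 : 7 ∣ Nat.card G
    · have b := top7 d7
      have hP : ∀ q : ℕ, q.Prime → q ∣ Nat.card G → q ∈ ({2, 3, 7} : Finset ℕ) := fun q h h' => by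
        rcases hq q h h' with rfl | rfl | rfl | rfl <;> simp_all
      rcases h16 with h4 | h4
      · have := hA.excl {2, 3, 7} (by decide) hP {1, 2, 3, 4, 6, 9, 7, 14}
          (smooth (by decide) (by decide)) fun x hx => by
            have := h1 x; have := h2 x; have := b x; have := h4 x; have := t7 x
            simp only [Finset.mem_insert, Finset.mem_singleton] at hx
            omega
        norm_num at this
      · have := hA.excl {2, 3, 7} (by decide) hP
          {1, 2, 3, 6, 9, 7, 14, 21, 28, 42, 49, 16, 32} (smooth (by decide) (by decide)) fun x hx => by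
            have := h1 x; have := h2 x; have := b x; have := h4 x; have := t7 x
            simp only [Finset.mem_insert, Finset.mem_singleton] at hx
            omega
        norm_num at this
    · have hP : ∀ q : ℕ, q.Prime → q ∣ Nat.card G → q ∈ ({2, 3} : Finset ℕ) := fun q h h' => by
        rcases hq q h h' with rfl | rfl | rfl | rfl <;> simp_all
      have h3 := not_three hA hs (fun q h h' => by
        rcases hq q h h' with rfl | rfl | rfl | rfl <;> simp_all) h1 h2
      rcases h16 with h4 | h4
      · have := hA.excl {2, 3} (by decide) hP {1, 2, 3, 4} (smooth (by decide) (by decide))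
          fun x hx => by
            have := h1 x; have := h2 x; have := h3 x; have := h4 x
            simp only [Finset.mem_insert, Finset.mem_singleton] at hx
            omega
        norm_num at this
      · have := hA.excl {2, 3} (by decide) hP {1, 2, 3, 16, 32, 48, 64, 96, 128, 144, 192, 256, 288}
          (smooth (by decide) (by decide)) fun x hx => by
            have := h1 x; have := h2 x; have := h3 x; have := h4 x
            simp only [Finset.mem_insert, Finset.mem_singleton] at hx
            omega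
        norm_num at this

end Cfsg.Agent.AH
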